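import Mathlib.Algebra.BigOperators.Fin
import Mathlib.Algebra.Module.BigOperators
import Mathlib.Data.Fin.SuccPred
import Mathlib.Data.Fintype.BigOperators
import Mathlib.Tactic.Ring

/-!
# Alternating double sums (copied from `Groth.Agent.Pi1C.CechAll`, to keep the import closure small)
-/

set_option autoImplicit false

namespace Groth.Agent.Gaga.H294.AltSum

/-- Cancellation in an alternating double sum with simplicial symmetry. -/
theorem sum_alt_eq_zero (R : Type*) [CommRing R] {M : Type*} [AddCommGroup M] [Module R M] (n : ℕ) (T : Fin (n + 2) → Fin (n + 1) → M)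
    (h : ∀ i j : Fin (n + 1), i ≤ j → T j.succ i = T i.castSucc j) :
    ∑ i : Fin (n + 2), ∑ j : Fin (n + 1), ((-1 : R) ^ ((i : ℕ) + (j : ℕ))) • T i j = 0 := by
  rw [← Finset.sum_product']
  -- the involution
  let f : Fin (n + 2) × Fin (n + 1) → M := fun p => ((-1 : R) ^ ((p.1 : ℕ) + (p.2 : ℕ))) • T p.1 p.2
  let inv : Fin (n + 2) × Fin (n + 1) → Fin (n + 2) × Fin (n + 1) := fun p =>
    if hp : (p.1 : ℕ) ≤ (p.2 : ℕ) then (p.2.succ, ⟨p.1, lt_of_le_of_lt hp p.2.2⟩)
    else (p.2.castSucc, ⟨(p.1 : ℕ) - 1, by have := p.1.2; omega⟩)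
  have key : ∀ i j : Fin (n + 1), i ≤ j → f (i.castSucc, j) + f (j.succ, i) = 0 := by
    intro i j hij
    change ((-1 : R) ^ ((i : ℕ) + (j : ℕ))) • T i.castSucc j +
      ((-1 : R) ^ ((j : ℕ) + 1 + (i : ℕ))) • T j.succ i = 0
    rw [h i j hij, ← add_smul]
    have : ((-1 : R) ^ ((i : ℕ) + (j : ℕ))) + ((-1 : R) ^ ((j : ℕ) + 1 + (i : ℕ))) = 0 := by
      rw [show (j : ℕ) + 1 + (i : ℕ) = ((i : ℕ) + (j : ℕ)) + 1 by ring, pow_succ]
      ring
    rw [this, zero_smul]
  refine Finset.sum_involution (fun p _ => inv p) ?_ ?_ (fun _ _ => Finset.mem_univ _) ?_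
  · rintro ⟨i, j⟩ -
    change f (i, j) + f (inv (i, j)) = 0
    by_cases hp : (i : ℕ) ≤ (j : ℕ)
    · have e : inv (i, j) = (j.succ, ⟨i, lt_of_le_of_lt hp j.2⟩) := dif_pos hp
      rw [e]
      exact key ⟨i, lt_of_le_of_lt hp j.2⟩ j hp
    · have e : inv (i, j) = (j.castSucc, ⟨(i : ℕ) - 1, by have := i.2; omega⟩) := dif_neg hp
      rw [e, add_comm]
      have hi : (⟨(i : ℕ) - 1, by have := i.2; omega⟩ : Fin (n + 1)).succ = i := by
        ext
        simp only [Fin.val_succ]
        omega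
      have := key j ⟨(i : ℕ) - 1, by have := i.2; omega⟩ (by
        rw [Fin.le_def]
        change (j : ℕ) ≤ (i : ℕ) - 1
        omega)
      rwa [hi] at this
  · rintro ⟨i, j⟩ - - he
    have he' : inv (i, j) = (i, j) := he
    by_cases hp : (i : ℕ) ≤ (j : ℕ)
    · have e : inv (i, j) = (j.succ, ⟨i, lt_of_le_of_lt hp j.2⟩) := dif_pos hp
      rw [e] at he'
      have h1 := congrArg (fun p => (p.1 : ℕ)) he'
      simp only [Fin.val_succ] at h1
      omega
    · have e : inv (i, j) = (j.castSucc, ⟨(i : ℕ) - 1, by have := i.2; omega⟩) := dif_neg hp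
      rw [e] at he'
      have h1 := congrArg (fun p => (p.1 : ℕ)) he'
      simp only [Fin.val_castSucc] at h1
      omega
  · rintro ⟨i, j⟩ -
    by_cases hp : (i : ℕ) ≤ (j : ℕ)
    · have e : inv (i, j) = (j.succ, ⟨i, lt_of_le_of_lt hp j.2⟩) := dif_pos hp
      rw [e]
      have hq : ¬ ((j.succ : Fin (n + 2)) : ℕ) ≤ ((⟨i, lt_of_le_of_lt hp j.2⟩ : Fin (n + 1)) : ℕ) := by
        simp only [Fin.val_succ]
        omega
      refine (dif_neg hq).trans ?_
      ext
      · rfl
      · simp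
    · have e : inv (i, j) = (j.castSucc, ⟨(i : ℕ) - 1, by have := i.2; omega⟩) := dif_neg hp
      rw [e]
      have hq : ((j.castSucc : Fin (n + 2)) : ℕ) ≤
          ((⟨(i : ℕ) - 1, by have := i.2; omega⟩ : Fin (n + 1)) : ℕ) := by
        simp only [Fin.val_castSucc]
        omega
      refine (dif_pos hq).trans ?_
      ext
      · simp only [Fin.val_succ]
        omega
      · rfl

/-- The simplicial identity for faces of tuples. -/
theorem comp_succAbove_comm {ι : Type*} {n : ℕ} (s : Fin (n + 2) → ι) (i j : Fin (n + 1))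
    (hij : i ≤ j) : (s ∘ j.succ.succAbove) ∘ i.succAbove = (s ∘ i.castSucc.succAbove) ∘ j.succAbove := by
  funext a
  simp only [Function.comp_apply]
  congr 1
  ext
  simp only [Fin.succAbove, Fin.lt_def, Fin.val_castSucc, Fin.val_succ]
  rw [Fin.le_def] at hij
  split_ifs <;> simp only [Fin.val_castSucc, Fin.val_succ] at * <;> omega

theorem cons_comp_zero_succAbove {ι : Type*} {n : ℕ} (i : ι) (s : Fin n → ι) :
    (Fin.cons i s : Fin (n + 1) → ι) ∘ (0 : Fin (n + 1)).succAbove = s := by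
  funext a
  simp

theorem cons_comp_succ_succAbove {ι : Type*} {n : ℕ} (i : ι) (s : Fin (n + 1) → ι) (k : Fin (n + 1)) :
    (Fin.cons i s : Fin (n + 2) → ι) ∘ k.succ.succAbove =
      (Fin.cons i (s ∘ k.succAbove) : Fin (n + 1) → ι) := by
  funext a
  refine Fin.cases ?_ (fun a => ?_) a
  · simp
  · simp

end Groth.Agent.Gaga.H294.AltSum
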