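import Groth.Agent.Gaga.H294.GenIso
import Groth.Agent.Sga67.PnGlobal
import Groth.Agent.Ega1.QCohLoc
import Groth.Agent.Ega3B.ProjProper

/-!
# Generators of `f_* M` from global generators

`gens_push` : `f : X ⟶ Spec A` quasi-compact and quasi-separated, `M` quasi-coherent on `X`, `s i` finitely many
generators of `Γ(X, M)` as a module over `Γ(Spec A, ⊤)`; then the `s i` generate the germs of `f_* M` at every point.
`gens_monomials` : monomials generate `p_* O(k)`, `p : P^n_R → Spec R`.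
-/

set_option autoImplicit false
set_option backward.isDefEq.respectTransparency.types false

open CategoryTheory TopologicalSpace Opposite AlgebraicGeometry

noncomputable section

namespace Groth.Agent.Gaga.H294.C2Alg

open Groth.Agent.Gaga.H975.ModSec Groth.Agent.Gaga.H294.GenIso Groth.Agent.Ega1

/-- Pull back of functions. -/
abbrev pl {X Y : Scheme.{0}} (f : X ⟶ Y) (W : Y.Opens) : O Y.sheaf W →+* O X.sheaf (f ⁻¹ᵁ W) := (f.app W).hom

theorem smul_toPushM {X Y : Scheme.{0}} (f : X ⟶ Y) {M : X.Modules} {W : Y.Opens} (a : O Y.sheaf W)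
    (s : Sec (R := X.sheaf) M (f ⁻¹ᵁ W)) : a • toPushM f s = toPushM f (pl f W a • s) := rfl

theorem res_toPushM {X Y : Scheme.{0}} (f : X ⟶ Y) {M : X.Modules} {V W : Y.Opens} (h : V ≤ W)
    (s : Sec (R := X.sheaf) M (f ⁻¹ᵁ W)) :
    res (R := Y.sheaf) ((An.pushMod f).obj M) h (toPushM f s) =
      toPushM f (res (R := X.sheaf) M (fun _ hx => h hx) s) := rfl

theorem pl_res {X Y : Scheme.{0}} (f : X ⟶ Y) {V W : Y.Opens} (h : V ≤ W) (a : O Y.sheaf W) :
    pl f V (resO (R := Y.sheaf) h a) = resO (R := X.sheaf) (fun _ hx => h hx) (pl f W a) :=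
  congr($(f.naturality (homOfLE h).op) a)

theorem exists_inv (Y : Scheme.{0}) (g : Γ(Y, ⊤)) {W : Y.Opens} (hW : W = Y.basicOpen g) :
    ∃ u : O Y.sheaf W, u * resO (R := Y.sheaf) (le_top : W ≤ ⊤) (show O Y.sheaf ⊤ from g) = 1 := by
  subst hW
  obtain ⟨u, hu⟩ := (RingedSpace.isUnit_res_basicOpen Y.toRingedSpace g).exists_left_inv
  exact ⟨u, hu⟩

theorem gens_push {A : CommRingCat.{0}} {X : Scheme.{0}} (f : X ⟶ Spec A) [QuasiCompact f] [QuasiSeparated f]
    (M : X.Modules) (hM : Coh.IsQCoh M) {n : ℕ} (s : Fin n → Sec (R := X.sheaf) M (f ⁻¹ᵁ ⊤))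
    (hs : ∀ m : Sec (R := X.sheaf) M (f ⁻¹ᵁ ⊤), ∃ a : Fin n → O (Spec A).sheaf ⊤, m = ∑ i, pl f ⊤ (a i) • s i)
    (y : Spec A) : Gens (R := (Spec A).sheaf) ((An.pushMod f).obj M) y (fun i => toPushM f (s i)) := by
  intro V hyV m
  -- a basic open neighbourhood
  obtain ⟨g, hgV, hyg⟩ := (isAffineOpen_top (Spec A)).exists_basicOpen_le (V := V) ⟨y, hyV⟩ trivial
  change y ∈ (Spec A).basicOpen g at hyg
  have hW : f ⁻¹ᵁ (Spec A).basicOpen g = X.basicOpen (f.app ⊤ g) := Scheme.preimage_basicOpen f g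
  have hc : IsCompact ((f ⁻¹ᵁ ⊤ : X.Opens) : Set X) :=
    QuasiCompact.isCompact_preimage (f := f) _ isOpen_univ CompactSpace.isCompact_univ
  have hc' : IsQuasiSeparated ((f ⁻¹ᵁ ⊤ : X.Opens) : Set X) := by
    have : QuasiSeparatedSpace X := quasiSeparatedSpace_of_quasiSeparated f
    exact isQuasiSeparated_univ
  have hle : f ⁻¹ᵁ (Spec A).basicOpen g ≤ f ⁻¹ᵁ ⊤ := fun _ _ => trivial
  have hle' : f ⁻¹ᵁ (Spec A).basicOpen g ≤ f ⁻¹ᵁ V := fun _ hx => hgV hx
  obtain ⟨N, t, ht⟩ := (QCohLoc.isLocAt_of_qcqs hM hc hc' (f.app ⊤ g)).surj' hW hle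
    (res (R := X.sheaf) M hle' m)
  obtain ⟨a, ha⟩ := hs t
  obtain ⟨u, hu⟩ := exists_inv (Spec A) g rfl
  refine ⟨(Spec A).basicOpen g, hgV, le_top, hyg,
    fun i => u ^ N * resO (R := (Spec A).sheaf) le_top (a i), ?_⟩
  have hu' : pl f ((Spec A).basicOpen g) u * resO (R := X.sheaf) hle (pl f ⊤ g) = 1 := by
    have h2 := pl_res f (le_top : (Spec A).basicOpen g ≤ ⊤) g
    exact ((congrArg _ h2).symm.trans (map_mul (pl f ((Spec A).basicOpen g)) _ _).symm).trans
      ((congrArg _ hu).trans (map_one _))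
  have ht' : res (R := X.sheaf) M hle t = (resO (R := X.sheaf) hle (pl f ⊤ g)) ^ N • res (R := X.sheaf) M hle' m := ht
  have key : res (R := X.sheaf) M hle' m = ∑ i, pl f ((Spec A).basicOpen g)
      (u ^ N * resO (R := (Spec A).sheaf) le_top (a i)) •
        res (R := X.sheaf) M hle (s i) := by
    have h1 : res (R := X.sheaf) M hle' m = (pl f ((Spec A).basicOpen g) u) ^ N • res (R := X.sheaf) M hle t := by
      rw [ht', smul_smul, ← mul_pow, hu', one_pow, one_smul]
    rw [h1, ha, map_sum, Finset.smul_sum]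
    refine Finset.sum_congr rfl fun i _ => ?_
    rw [res_smul, smul_smul, map_mul, map_pow, pl_res]
  exact key

variable (n k : ℕ) (R : Type) [CommRing R]

/-- Number of monomials. -/
abbrev cnt : ℕ := Fintype.card (Groth.Agent.Sga67.PnGlobal.Exp n k)

/-- The monomials of degree `k`, numbered. -/
def mon (i : Fin (cnt n k)) : Groth.Agent.Sga67.PnGlobal.Exp n k := (Fintype.equivFin _).symm i

/-- The monomials as global sections. -/
def ms (i : Fin (cnt n k)) :
    Sec (R := (CohB1.ProjSpace n R).sheaf) (Twist.twistProjSpace n R k) (CohB1.ProjSpace.toSpec n R ⁻¹ᵁ ⊤) :=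
  Groth.Agent.Sga67.PnGlobal.msec R (mon n k i)

theorem exists_lin (m : Sec (R := (CohB1.ProjSpace n R).sheaf) (Twist.twistProjSpace n R k)
      (CohB1.ProjSpace.toSpec n R ⁻¹ᵁ ⊤)) :
    ∃ a : Fin (cnt n k) → O (Spec (CommRingCat.of R)).sheaf ⊤,
      m = ∑ i, pl (CohB1.ProjSpace.toSpec n R) ⊤ (a i) • ms n k R i := by
  obtain ⟨c, hc⟩ := Groth.Agent.Sga67.PnGlobal.lin_surjective (r := n) (n := k) R m
  refine ⟨fun i => (Scheme.ΓSpecIso (CommRingCat.of R)).inv.hom (c (mon n k i)), ?_⟩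
  rw [← hc, Groth.Agent.Sga67.PnGlobal.lin_eq]
  exact (Equiv.sum_comp (Fintype.equivFin _).symm _).symm

theorem gens_monomials (hM : Coh.IsQCoh (Twist.twistProjSpace n R k)) (y : Spec (CommRingCat.of R)) :
    Gens (R := (Spec (CommRingCat.of R)).sheaf)
      ((An.pushMod (CohB1.ProjSpace.toSpec n R)).obj (Twist.twistProjSpace n R k)) y
      (fun i => toPushM (CohB1.ProjSpace.toSpec n R) (ms n k R i)) := by
  have : IsProper (CohB1.ProjSpace.toSpec n R) := Groth.Agent.Ega3B.ProjProper.isProper_toSpec n R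
  exact gens_push (A := CommRingCat.of R) (CohB1.ProjSpace.toSpec n R) _ hM _ (exists_lin n k R) y

end Groth.Agent.Gaga.H294.C2Alg
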