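import Mathlib.Topology.Order.T5
import Mathlib.Topology.Instances.Real.Lemmas
import Mathlib.Topology.Order.Compact
import Mathlib.Topology.Separation.Hausdorff

/-!
# Disjoint intervals around a compact subset of the line

* `exists_intervals`: a compact subset `Λ` of an open `G ⊆ ℝ` is covered by the interiors of finitely many pairwise
  disjoint closed intervals contained in `G`, with end points outside `Λ`;
* `exists_separate_mod`: two compact sets whose intersection is contained in an open set `O` have neighbourhoods whose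
  intersection is contained in `O`.
-/

set_option autoImplicit false

open Set Filter Topology

namespace Groth.Agent.Gaga.H294.Intervals

theorem isOpen_comp {G : Set ℝ} (hG : IsOpen G) (x : ℝ) : IsOpen (ordConnectedComponent G x) := by
  rw [isOpen_iff_mem_nhds]
  intro y hy
  have h1 : ordConnectedComponent G y ∈ 𝓝 y :=
    ordConnectedComponent_mem_nhds.2 (hG.mem_nhds (ordConnectedComponent_subset hy))
  rwa [← ordConnectedComponent_eq hy] at h1

theorem eq_of_mem {G : Set ℝ} {x y z : ℝ} (h1 : z ∈ ordConnectedComponent G x)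
    (h2 : z ∈ ordConnectedComponent G y) : ordConnectedComponent G x = ordConnectedComponent G y := by
  rw [ordConnectedComponent_eq h1, ordConnectedComponent_eq h2]

theorem exists_interval {Λ G : Set ℝ} (hΛ : IsCompact Λ) (hG : IsOpen G) (h : Λ ⊆ G) {x : ℝ} (hx : x ∈ Λ) :
    ∃ p q : ℝ, p < q ∧ Icc p q ⊆ ordConnectedComponent G x ∧ p ∉ Λ ∧ q ∉ Λ ∧
      ∀ y ∈ Λ, y ∈ ordConnectedComponent G x → y ∈ Ioo p q := by
  set C := ordConnectedComponent G x with hC
  have hCo : IsOpen C := isOpen_comp hG x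
  have hcl : Λ ∩ C = Λ \ ⋃ y ∈ G \ C, ordConnectedComponent G y := by
    ext z
    simp only [mem_inter_iff, Set.mem_sdiff, mem_iUnion, exists_prop, not_exists, not_and]
    constructor
    · rintro ⟨hz, hzC⟩
      refine ⟨hz, ?_⟩
      rintro y ⟨hyG, hyC⟩ hzy
      apply hyC
      rw [hC, eq_of_mem hzC hzy]
      exact self_mem_ordConnectedComponent.2 hyG
    · rintro ⟨hz, H⟩
      refine ⟨hz, ?_⟩
      by_contra hzC
      exact H z ⟨h hz, hzC⟩ (self_mem_ordConnectedComponent.2 (h hz))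
  have hcomp : IsCompact (Λ ∩ C) := by
    rw [hcl]
    exact hΛ.diff (isOpen_biUnion fun y _ => isOpen_comp hG y)
  have hne : (Λ ∩ C).Nonempty := ⟨x, hx, self_mem_ordConnectedComponent.2 (h hx)⟩
  have ha := hcomp.sInf_mem hne
  have hb := hcomp.sSup_mem hne
  obtain ⟨ε, hε, hεa⟩ := Metric.isOpen_iff.1 hCo _ ha.2
  obtain ⟨δ, hδ, hδb⟩ := Metric.isOpen_iff.1 hCo _ hb.2
  have hpC : sInf (Λ ∩ C) - ε / 2 ∈ C := hεa (by
    rw [Metric.mem_ball, Real.dist_eq]
    rw [show sInf (Λ ∩ C) - ε / 2 - sInf (Λ ∩ C) = -(ε / 2) by ring, abs_neg, abs_of_pos (by positivity)]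
    linarith)
  have hqC : sSup (Λ ∩ C) + δ / 2 ∈ C := hδb (by
    rw [Metric.mem_ball, Real.dist_eq]
    rw [show sSup (Λ ∩ C) + δ / 2 - sSup (Λ ∩ C) = δ / 2 by ring, abs_of_pos (by positivity)]
    linarith)
  have hbdb : BddBelow (Λ ∩ C) := hcomp.bddBelow
  have hbda : BddAbove (Λ ∩ C) := hcomp.bddAbove
  have hle : sInf (Λ ∩ C) ≤ sSup (Λ ∩ C) := csInf_le hbdb hb
  refine ⟨sInf (Λ ∩ C) - ε / 2, sSup (Λ ∩ C) + δ / 2, by linarith, ?_, ?_, ?_, ?_⟩
  · have : OrdConnected C := by rw [hC]; infer_instance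
    exact this.out hpC hqC
  · intro hp
    have := csInf_le hbdb (⟨hp, hpC⟩ : sInf (Λ ∩ C) - ε / 2 ∈ Λ ∩ C)
    linarith
  · intro hq
    have := le_csSup hbda (⟨hq, hqC⟩ : sSup (Λ ∩ C) + δ / 2 ∈ Λ ∩ C)
    linarith
  · intro y hy hyC
    have h1 := csInf_le hbdb (⟨hy, hyC⟩ : y ∈ Λ ∩ C)
    have h2 := le_csSup hbda (⟨hy, hyC⟩ : y ∈ Λ ∩ C)
    exact ⟨by linarith, by linarith⟩

/-- A compact subset of an open subset of the line is covered by the interiors of finitely many disjoint closed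
intervals with end points outside the compact set. -/
theorem exists_intervals {Λ G : Set ℝ} (hΛ : IsCompact Λ) (hG : IsOpen G) (h : Λ ⊆ G) :
    ∃ S : Finset (ℝ × ℝ), (∀ J ∈ S, J.1 < J.2 ∧ Icc J.1 J.2 ⊆ G ∧ J.1 ∉ Λ ∧ J.2 ∉ Λ) ∧
      (∀ x ∈ Λ, ∃ J ∈ S, x ∈ Ioo J.1 J.2) ∧
      (∀ J ∈ S, ∀ J' ∈ S, J ≠ J' → Disjoint (Icc J.1 J.2) (Icc J'.1 J'.2)) := by
  classical
  -- a choice of an interval for each component
  have key : ∀ C : Set ℝ, ∃ J : ℝ × ℝ, (∃ x ∈ Λ, C = ordConnectedComponent G x) →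
      J.1 < J.2 ∧ Icc J.1 J.2 ⊆ C ∧ J.1 ∉ Λ ∧ J.2 ∉ Λ ∧ ∀ y ∈ Λ, y ∈ C → y ∈ Ioo J.1 J.2 := by
    intro C
    by_cases hC : ∃ x ∈ Λ, C = ordConnectedComponent G x
    · obtain ⟨x, hx, rfl⟩ := hC
      obtain ⟨p, q, h1⟩ := exists_interval hΛ hG h hx
      exact ⟨(p, q), fun _ => h1⟩
    · exact ⟨0, fun h => absurd h hC⟩
  choose P hP using key
  obtain ⟨t, hcov⟩ := hΛ.elim_nhds_subcover' (fun x hx => ordConnectedComponent G x)
    (fun x hx => (isOpen_comp hG x).mem_nhds (self_mem_ordConnectedComponent.2 (h hx)))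
  refine ⟨t.image (fun x : Λ => P (ordConnectedComponent G (x : ℝ))), ?_, ?_, ?_⟩
  · intro J hJ
    rw [Finset.mem_image] at hJ
    obtain ⟨x, hx, rfl⟩ := hJ
    obtain ⟨h1, h2, h3, h4, -⟩ := hP (ordConnectedComponent G x) ⟨x, x.2, rfl⟩
    exact ⟨h1, h2.trans ordConnectedComponent_subset, h3, h4⟩
  · intro y hy
    obtain ⟨x, hx, hyx⟩ := mem_iUnion₂.1 (hcov hy)
    refine ⟨P (ordConnectedComponent G x), Finset.mem_image.2 ⟨x, hx, rfl⟩, ?_⟩
    exact (hP (ordConnectedComponent G x) ⟨x, x.2, rfl⟩).2.2.2.2 y hy hyx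
  · intro J hJ J' hJ' hne
    rw [Finset.mem_image] at hJ hJ'
    obtain ⟨x, hx, rfl⟩ := hJ
    obtain ⟨x', hx', rfl⟩ := hJ'
    rw [Set.disjoint_left]
    intro z hz hz'
    apply hne
    have h1 := (hP (ordConnectedComponent G x) ⟨x, x.2, rfl⟩).2.1 hz
    have h2 := (hP (ordConnectedComponent G x') ⟨x', x'.2, rfl⟩).2.1 hz'
    simp only [eq_of_mem h1 h2]

/-- Two compact sets whose intersection is contained in an open set `O` have neighbourhoods whose intersection is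
contained in `O`. -/
theorem exists_separate_mod {X : Type*} [TopologicalSpace X] [T2Space X] {A B O : Set X} (hA : IsCompact A)
    (hB : IsCompact B) (hO : IsOpen O) (h : A ∩ B ⊆ O) :
    ∃ U V : Set X, IsOpen U ∧ IsOpen V ∧ A ⊆ U ∧ B ⊆ V ∧ U ∩ V ⊆ O := by
  have hd : Disjoint (A \ O) (B \ O) := by
    rw [Set.disjoint_left]
    rintro x ⟨hxA, hxO⟩ ⟨hxB, -⟩
    exact hxO (h ⟨hxA, hxB⟩)
  obtain ⟨U, V, hU, hV, hAU, hBV, hUV⟩ := SeparatedNhds.of_isCompact_isCompact (hA.diff hO) (hB.diff hO) hd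
  refine ⟨U ∪ O, V ∪ O, hU.union hO, hV.union hO, ?_, ?_, ?_⟩
  · intro x hx
    by_cases hxO : x ∈ O
    · exact Or.inr hxO
    · exact Or.inl (hAU ⟨hx, hxO⟩)
  · intro x hx
    by_cases hxO : x ∈ O
    · exact Or.inr hxO
    · exact Or.inl (hBV ⟨hx, hxO⟩)
  · rintro x ⟨hx1 | hx1, hx2 | hx2⟩
    · exact absurd hx2 (Set.disjoint_left.1 hUV hx1)
    · exact hx2
    · exact hx1
    · exact hx1

end Groth.Agent.Gaga.H294.Intervals
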