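import Groth.Agent.CohtopA.MVElem
import Groth.Agent.CohtopA.KillClass
import Groth.Agent.CohtopB.H0Iso
import Groth.Agent.Gaga.H294.Intervals

/-!
# Classes dying near compact subsets

`Dies F A a` : the class `a ∈ H^q(U, F)` vanishes on an open neighbourhood of the subset `A` (inside `U`).

* `dies_point` : positive-degree classes die near every point;
* `dies_union_succ`, `dies_union_one` : Mayer-Vietoris for two compact subsets of a Hausdorff space;
* `sec`, `sec_res` : `H^0(U, F) ≃ F(U)`.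
-/

set_option autoImplicit false
universe u

open CategoryTheory TopologicalSpace Opposite CategoryTheory.Limits Abelian
open Groth.Agent.CohtopA

noncomputable section

namespace Groth.Agent.Gaga.H294.MVNear

variable {X : TopCat.{u}} (F : CohTop.Ab X)

/-- The class `a` vanishes on an open neighbourhood of `A`. -/
def Dies {q : ℕ} {U : Opens X} (A : Set X) (a : CohTop.HU F q U) : Prop :=
  ∃ (V : Opens X) (h : V ≤ U), A ⊆ (V : Set X) ∧ CohTop.res F q h a = 0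

variable {F}

theorem Dies.mono {q : ℕ} {U : Opens X} {A B : Set X} {a : CohTop.HU F q U} (h : Dies F B a)
    (hAB : A ⊆ B) : Dies F A a := by
  obtain ⟨V, hV, h1, h2⟩ := h
  exact ⟨V, hV, hAB.trans h1, h2⟩

theorem Dies.res {q : ℕ} {U U' : Opens X} {A : Set X} {a : CohTop.HU F q U} (h : Dies F A a)
    (hU : U' ≤ U) (hA : A ⊆ (U' : Set X)) : Dies F A (CohTop.res F q hU a) := by
  obtain ⟨V, hV, h1, h2⟩ := h
  refine ⟨V ⊓ U', inf_le_right, fun x hx => ⟨h1 hx, hA hx⟩, ?_⟩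
  rw [MVElem.res_res, ← MVElem.res_res (h := hV) (h' := inf_le_left), h2, map_zero]

theorem Dies.of_res {q : ℕ} {U U' : Opens X} {A : Set X} {a : CohTop.HU F q U} (hU : U' ≤ U)
    (h : Dies F A (CohTop.res F q hU a)) : Dies F A a := by
  obtain ⟨V, hV, h1, h2⟩ := h
  refine ⟨V, hV.trans hU, h1, ?_⟩
  rw [MVElem.res_res] at h2
  exact h2

theorem dies_point {q : ℕ} (hq : 1 ≤ q) {U : Opens X} (a : CohTop.HU F q U) (x : X) (hx : x ∈ U) :
    Dies F {x} a := by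
  obtain ⟨n, rfl⟩ : ∃ n, q = n + 1 := ⟨q - 1, by omega⟩
  obtain ⟨S, hS⟩ := KillClass.exists_cover_res_eq_zero F U n a
  obtain ⟨V, f, hf, hxV⟩ := S.2 x hx
  exact ⟨V, leOfHom f, by simpa using hxV, hS ⟨V, f, hf⟩⟩

theorem subsingleton_bot (q : ℕ) (a : CohTop.HU F q (⊥ : Opens X)) : a = 0 := by
  have h : IsZero (FreeAb.freeAb (Opens.grothendieckTopology X) (⊥ : Opens X)) := by
    rw [IsZero.iff_id_eq_zero]
    have hT : IsTerminal ((FreeAb.freeAb (Opens.grothendieckTopology X) (⊥ : Opens X)).obj.obj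
        (op (⊥ : Opens X))) :=
      TopCat.Sheaf.isTerminalOfEmpty (X := X) (FreeAb.freeAb (Opens.grothendieckTopology X) (⊥ : Opens X))
    have h2 : Subsingleton ((FreeAb.freeAb (Opens.grothendieckTopology X) (⊥ : Opens X)).obj.obj
        (op (⊥ : Opens X))) :=
      AddCommGrpCat.subsingleton_of_isZero
        ((isZero_zero AddCommGrpCat.{u}).of_iso (hT.uniqueUpToIso HasZeroObject.zeroIsTerminal))
    exact (FreeAb.homEv_bijective (J := Opens.grothendieckTopology X) ⊥ _).1 (Subsingleton.elim _ _)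
  have h3 : 𝟙 (FreeAb.freeAb (Opens.grothendieckTopology X) (⊥ : Opens X)) = 0 := h.eq_of_src _ _
  change (show Ext.{u} (FreeAb.freeAb (Opens.grothendieckTopology X) (⊥ : Opens X)) F q from a) = 0
  rw [← Ext.mk₀_id_comp (show Ext.{u} (FreeAb.freeAb (Opens.grothendieckTopology X) (⊥ : Opens X)) F q
    from a), h3, Ext.mk₀_zero, Ext.zero_comp]

theorem dies_empty {q : ℕ} {U : Opens X} (a : CohTop.HU F q U) : Dies F ∅ a :=
  ⟨⊥, bot_le, Set.empty_subset _, subsingleton_bot q _⟩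

theorem δ_res_sub {A B : Opens X} (n : ℕ) (x : CohTop.HU F n A) (y : CohTop.HU F n B) :
    MVElem.δ F A B n (CohTop.res F n inf_le_left x - CohTop.res F n inf_le_right y) = 0 := by
  rw [map_sub, MVElem.δ_res_left, MVElem.δ_res_right, sub_zero]

/-- Mayer-Vietoris for neighbourhoods of `A ∪ B`. -/
theorem dies_union {n : ℕ} {U : Opens X} (a : CohTop.HU F (n + 1) U) {A B : Set X}
    (h1 : Dies F A a) (h2 : Dies F B a)
    (H : ∀ (V W : Opens X), A ⊆ (V : Set X) → B ⊆ (W : Set X) → ∀ η : CohTop.HU F n (V ⊓ W),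
      ∃ (V' W' : Opens X) (hV : V' ≤ V) (hW : W' ≤ W) (x : CohTop.HU F n V') (y : CohTop.HU F n W'),
        A ⊆ (V' : Set X) ∧ B ⊆ (W' : Set X) ∧
        CohTop.res F n (inf_le_inf hV hW) η =
          CohTop.res F n inf_le_left x - CohTop.res F n inf_le_right y) :
    Dies F (A ∪ B) a := by
  obtain ⟨V, hVU, hAV, hV0⟩ := h1
  obtain ⟨W, hWU, hBW, hW0⟩ := h2
  obtain ⟨η, hη⟩ := MVElem.exists_δ F n (CohTop.res F (n + 1) (sup_le hVU hWU) a)
    (by rw [MVElem.res_res]; exact hV0) (by rw [MVElem.res_res]; exact hW0)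
  obtain ⟨V', W', hV', hW', x, y, hA, hB, h⟩ := H V W hAV hBW η
  refine ⟨V' ⊔ W', (sup_le_sup hV' hW').trans (sup_le hVU hWU), Set.union_subset_union hA hB, ?_⟩
  rw [← MVElem.res_res (h := sup_le hVU hWU) (h' := sup_le_sup hV' hW'), ← hη, MVElem.res_δ F hV' hW', h,
    δ_res_sub]

/-- Mayer-Vietoris for compact `A` and `B`: if every class in degree `n` dies near `A ∩ B`, then a class of degree
`n + 1` which dies near `A` and near `B` dies near `A ∪ B`. -/
theorem dies_union_succ [T2Space X] {n : ℕ} {U : Opens X} (a : CohTop.HU F (n + 1) U) {A B : Set X}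
    (hA : IsCompact A) (hB : IsCompact B) (h1 : Dies F A a) (h2 : Dies F B a)
    (H : ∀ (W : Opens X) (η : CohTop.HU F n W), A ∩ B ⊆ (W : Set X) → Dies F (A ∩ B) η) :
    Dies F (A ∪ B) a := by
  refine dies_union a h1 h2 fun V W hAV hBW η => ?_
  obtain ⟨O, hO, hABO, hη⟩ := H (V ⊓ W) η fun x hx => ⟨hAV hx.1, hBW hx.2⟩
  obtain ⟨V₁, W₁, hV₁, hW₁, hAV₁, hBW₁, hVW⟩ := Intervals.exists_separate_mod hA hB O.2 hABO
  refine ⟨V ⊓ ⟨V₁, hV₁⟩, W ⊓ ⟨W₁, hW₁⟩, inf_le_left, inf_le_left, 0, 0,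
    fun x hx => ⟨hAV hx, hAV₁ hx⟩, fun x hx => ⟨hBW hx, hBW₁ hx⟩, ?_⟩
  have h3 : (V ⊓ ⟨V₁, hV₁⟩) ⊓ (W ⊓ ⟨W₁, hW₁⟩) ≤ O := fun x hx => hVW ⟨hx.1.2, hx.2.2⟩
  rw [map_zero, map_zero, sub_zero, ← MVElem.res_res (h := hO) (h' := h3), hη, map_zero]

variable (F) in
/-- `H^0(U, F) = F(U)`. -/
def sec (U : Opens X) : CohTop.HU F 0 U ≃+ F.obj.obj (op U) :=
  CohtopB.H0Iso.h0a (Opens.grothendieckTopology X) F (op U)

theorem sec_res {U V : Opens X} (h : V ≤ U) (x : CohTop.HU F 0 U) :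
    sec F V (CohTop.res F 0 h x) = F.obj.map (homOfLE h).op (sec F U x) :=
  CohtopB.H0Iso.h0a_map (Opens.grothendieckTopology X) F (homOfLE h).op x

/-- Mayer-Vietoris in degree one: if sections near `A ∩ B` are differences of sections near `A` and near `B`, then
a class of degree one which dies near `A` and near `B` dies near `A ∪ B`. -/
theorem dies_union_one {U : Opens X} (a : CohTop.HU F 1 U) {A B : Set X}
    (h1 : Dies F A a) (h2 : Dies F B a)
    (H : ∀ (W : Opens X) (s : F.obj.obj (op W)), A ∩ B ⊆ (W : Set X) →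
      ∃ (W₁ W₂ : Opens X) (s₁ : F.obj.obj (op W₁)) (s₂ : F.obj.obj (op W₂)) (h : W₁ ⊓ W₂ ≤ W),
        A ⊆ (W₁ : Set X) ∧ B ⊆ (W₂ : Set X) ∧ F.obj.map (homOfLE h).op s =
          F.obj.map (homOfLE (inf_le_left : W₁ ⊓ W₂ ≤ W₁)).op s₁ -
            F.obj.map (homOfLE (inf_le_right : W₁ ⊓ W₂ ≤ W₂)).op s₂) :
    Dies F (A ∪ B) a := by
  refine dies_union (n := 0) a h1 h2 fun V W hAV hBW η => ?_
  obtain ⟨W₁, W₂, s₁, s₂, h, hA, hB, hs⟩ := H (V ⊓ W) (sec F _ η) fun x hx => ⟨hAV hx.1, hBW hx.2⟩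
  refine ⟨V ⊓ W₁, W ⊓ W₂, inf_le_left, inf_le_left,
    CohTop.res F 0 inf_le_right ((sec F W₁).symm s₁), CohTop.res F 0 inf_le_right ((sec F W₂).symm s₂),
    fun x hx => ⟨hAV hx, hA hx⟩, fun x hx => ⟨hBW hx, hB hx⟩, ?_⟩
  have h3 : (V ⊓ W₁) ⊓ (W ⊓ W₂) ≤ W₁ ⊓ W₂ := fun x hx => ⟨hx.1.2, hx.2.2⟩
  apply (sec F _).injective
  rw [map_sub, sec_res, sec_res, sec_res, sec_res, sec_res, AddEquiv.apply_symm_apply,
    AddEquiv.apply_symm_apply]
  have h4 := congrArg (F.obj.map (homOfLE h3).op) hs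
  rw [map_sub] at h4
  simp only [← ConcreteCategory.comp_apply, ← Functor.map_comp] at h4 ⊢
  exact h4

end Groth.Agent.Gaga.H294.MVNear
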