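import Groth.Agent.Gaga.H294.CechGerm
import Groth.Agent.Gaga.H294.MVNear
import Groth.Agent.Gaga.H41.Ind
import Groth.Agent.CohtopA.Flasque
import Groth.Agent.CohtopB.Godement

/-!
# Leray's theorem for finite compact covers, in the form of germs

`indZero_iUnion` : `X` Hausdorff, `K i` finitely many compact subsets, `F` an abelian sheaf whose germs of classes of
positive degree along all finite intersections of the `K i` vanish, and whose Čech complex of germs is exact in
positive degrees (`CechGerm.CechZ`). Then the germs of classes of positive degree along `⋃ i, K i` vanish.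
-/

set_option autoImplicit false
universe u v

open CategoryTheory TopologicalSpace Opposite CategoryTheory.Limits CategoryTheory.Abelian
open Groth.Agent.CohtopA.Sec Groth.Agent.Gaga.H294.AltSum Groth.Agent.Gaga.H294.CechGerm
open Groth.Agent.Gaga.H41.Ind

noncomputable section

namespace Groth.Agent.Gaga.H294.IndCech

variable {X : TopCat.{u}} {ι : Type v}

/-! ### Direct images from discrete spaces -/

section Discrete

variable {Y : TopCat.{u}} [DiscreteTopology Y] (f : Y ⟶ X) (G : CohTop.Ab Y)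

/-- The preimage of an open set. -/
abbrev pre (W : Opens X) : Opens Y := (Opens.map f).obj W

omit [DiscreteTopology Y] in
theorem pre_mono {V W : Opens X} (h : V ≤ W) : pre f V ≤ pre f W := fun _ hx => h hx

omit [DiscreteTopology Y] in
theorem r_push {V W : Opens X} (h : V ≤ W) (s : Γs ((CohTop.push f).obj G) W) :
    (r ((CohTop.push f).obj G) h s : Γs G (pre f V)) = r G (pre_mono f h) (s : Γs G (pre f W)) := rfl

open Classical in
/-- A partition of the union of the `U i` into pieces contained in the `U i`. -/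
def piece (U : ι → Opens X) (i : ι) : Opens Y :=
  ⟨{y | ∃ h : ∃ i, f y ∈ U i, h.choose = i}, isOpen_discrete _⟩

theorem piece_le (U : ι → Opens X) (i : ι) : piece f U i ≤ pre f (U i) := by
  rintro y ⟨h, rfl⟩
  exact h.choose_spec

theorem exists_piece (U : ι → Opens X) {y : Y} {i : ι} (hy : f y ∈ U i) : ∃ j, y ∈ piece f U j :=
  ⟨_, ⟨i, hy⟩, rfl⟩

theorem eq_of_mem_piece (U : ι → Opens X) {y : Y} {i j : ι} (hi : y ∈ piece f U i) (hj : y ∈ piece f U j) :
    i = j := by
  obtain ⟨_, rfl⟩ := hi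
  obtain ⟨_, rfl⟩ := hj
  rfl

theorem piece_inf_le (U : ι → Opens X) (i : ι) {n : ℕ} (J : Fin n → ι) :
    piece f U i ⊓ pre f (UU U J) ≤ pre f (UU U (Fin.cons i J : Fin (n + 1) → ι)) := by
  rintro y ⟨h1, h2⟩
  exact mem_UU.2 (Fin.cases (piece_le f U i h1) fun k => mem_UU.1 h2 k)

omit [DiscreteTopology Y] in
theorem r_congr_push {U : ι → Opens X} {n : ℕ} (s : CC ((CohTop.push f).obj G) U n) {J J' : Fin n → ι}
    (h : J = J') {W : Opens Y} (h1 : W ≤ pre f (UU U J)) (h2 : W ≤ pre f (UU U J')) :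
    r G h1 (s J : Γs G (pre f (UU U J))) = r G h2 (s J' : Γs G (pre f (UU U J'))) := by
  subst h; rfl

/-- The Čech complex of a direct image from a discrete space is exact. -/
theorem exact_push (U : ι → Opens X) (q : ℕ) (s : CC ((CohTop.push f).obj G) U (q + 2))
    (hs : d ((CohTop.push f).obj G) U (q + 2) s = 0) :
    ∃ t : CC ((CohTop.push f).obj G) U (q + 1), d ((CohTop.push f).obj G) U (q + 1) t = s := by
  have key : ∀ J : Fin (q + 1) → ι, ∃ t : Γs G (pre f (UU U J)), ∀ i,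
      r G (inf_le_right : piece f U i ⊓ pre f (UU U J) ≤ pre f (UU U J)) t =
        r G (piece_inf_le f U i J) (s (Fin.cons i J) : Γs G (pre f (UU U (Fin.cons i J)))) := by
    intro J
    obtain ⟨t, ht⟩ := glue' (F := G) (fun i => piece f U i ⊓ pre f (UU U J)) (U := pre f (UU U J))
      (by
        apply le_antisymm
        · intro y hy
          obtain ⟨j, hj⟩ := exists_piece f U (mem_UU.1 hy 0)
          exact Opens.mem_iSup.2 ⟨j, hj, hy⟩
        · exact iSup_le fun i => inf_le_right)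
      (fun i => r G (piece_inf_le f U i J) (s (Fin.cons i J) : Γs G (pre f (UU U (Fin.cons i J)))))
      (fun i j => by
        by_cases hij : i = j
        · subst hij
          rfl
        · refine sep _ _ fun y hy => absurd ?_ hij
          exact eq_of_mem_piece f U hy.1.1 hy.2.1)
    exact ⟨t, ht⟩
  choose t ht using key
  refine ⟨t, ?_⟩
  funext J
  refine sep (F := G) (U := pre f (UU U J)) _ _ fun y hy => ?_
  obtain ⟨i, hi⟩ := exists_piece f U (mem_UU.1 hy 0)
  refine ⟨piece f U i ⊓ pre f (UU U J), inf_le_right, ⟨hi, hy⟩, ?_⟩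
  -- the cocycle condition
  have h0 := congrArg (r G (piece_inf_le f U i J)) (congrFun hs (Fin.cons i J))
  have h1 : r G (piece_inf_le f U i J)
      (d ((CohTop.push f).obj G) U (q + 2) s (Fin.cons i J) : Γs G (pre f (UU U (Fin.cons i J)))) = 0 :=
    h0.trans (map_zero _)
  rw [d_apply] at h1
  have h2 : ∑ k : Fin (q + 3), (-1 : ℤ) ^ (k : ℕ) •
      r G ((piece_inf_le f U i J).trans (pre_mono f (UU_comp_le U (Fin.cons i J : Fin (q + 3) → ι) k.succAbove)))
        (s ((Fin.cons i J : Fin (q + 3) → ι) ∘ k.succAbove) : Γs G _) = 0 := by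
    refine Eq.trans ?_ h1
    refine Eq.trans ?_ (map_sum (r G (piece_inf_le f U i J)) _ _).symm
    refine Finset.sum_congr rfl fun k _ => ?_
    refine Eq.trans ?_ (map_zsmul (r G (piece_inf_le f U i J)) _ _).symm
    congr 1
    exact (r_r _ _ _).symm
  rw [Fin.sum_univ_succ] at h2
  have e0 : (-1 : ℤ) ^ (((0 : Fin (q + 3)) : ℕ)) • r G ((piece_inf_le f U i J).trans
      (pre_mono f (UU_comp_le U (Fin.cons i J : Fin (q + 3) → ι) (0 : Fin (q + 3)).succAbove)))
        (s ((Fin.cons i J : Fin (q + 3) → ι) ∘ (0 : Fin (q + 3)).succAbove) : Γs G _) =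
      r G (inf_le_right : piece f U i ⊓ pre f (UU U J) ≤ pre f (UU U J)) (s J : Γs G (pre f (UU U J))) := by
    rw [Fin.val_zero, pow_zero, one_smul]
    exact r_congr_push f G s (cons_comp_zero_succAbove i J) _ _
  have e1 : ∀ k : Fin (q + 2), (-1 : ℤ) ^ ((k.succ : Fin (q + 3)) : ℕ) • r G ((piece_inf_le f U i J).trans
      (pre_mono f (UU_comp_le U (Fin.cons i J : Fin (q + 3) → ι) k.succ.succAbove)))
        (s ((Fin.cons i J : Fin (q + 3) → ι) ∘ k.succ.succAbove) : Γs G _) =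
      - ((-1 : ℤ) ^ (k : ℕ) • r G (inf_le_right : piece f U i ⊓ pre f (UU U J) ≤ pre f (UU U J))
        (r G (pre_mono f (UU_comp_le U J k.succAbove)) (t (J ∘ k.succAbove)))) := by
    intro k
    have h3 : piece f U i ⊓ pre f (UU U J) ≤ piece f U i ⊓ pre f (UU U (J ∘ k.succAbove)) :=
      inf_le_inf_left _ (pre_mono f (UU_comp_le U J k.succAbove))
    have h4 := congrArg (r G h3) (ht (J ∘ k.succAbove) i)
    rw [r_r, r_r] at h4
    rw [Fin.val_succ, pow_succ, mul_neg_one, neg_smul, r_r, h4]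
    congr 2
    exact r_congr_push f G s (cons_comp_succ_succAbove i J k) _ _
  rw [e0, Finset.sum_congr rfl fun k _ => e1 k, Finset.sum_neg_distrib, ← sub_eq_add_neg, sub_eq_zero] at h2
  refine Eq.trans ?_ h2.symm
  change r G _ (∑ k : Fin (q + 2), (-1 : ℤ) ^ (k : ℕ) •
    (r G (pre_mono f (UU_comp_le U J k.succAbove)) (t (J ∘ k.succAbove)))) = _
  rw [map_sum]
  exact Finset.sum_congr rfl fun k _ => map_zsmul _ _ _

end Discrete

/-! ### Sections as classes of degree zero -/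

open MVNear in
theorem sec_map {F G : CohTop.Ab X} (φ : F ⟶ G) (U : Opens X) (a : CohTop.HU F 0 U) :
    sec G U (CohTop.HUmap φ 0 U a) = m φ U (sec F U a) :=
  CohtopB.H0Iso.h0a_comp (Opens.grothendieckTopology X) (U := op U) φ a

variable {S : ShortComplex (CohTop.Ab X)} (hS : S.ShortExact)

include hS in
/-- Sections near `K` lift if the degree one classes of the kernel die near `K`. -/
theorem exists_lift_sec {K : Set X} (h1 : IndZero S.X₁ K 1) {U : Opens X} (hU : K ⊆ (U : Set X))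
    (a : Γs S.X₃ U) : ∃ (V : Opens X) (hV : V ≤ U), K ⊆ (V : Set X) ∧
      ∃ b : Γs S.X₂ V, m S.g V b = r S.X₃ hV a := by
  obtain ⟨V, hV, hKV, b, hb⟩ := Groth.Agent.Gaga.H41.Ind.exists_lift hS (q := 0) h1 hU
    ((MVNear.sec S.X₃ U).symm a)
  refine ⟨V, hV, hKV, MVNear.sec S.X₂ V b, ?_⟩
  rw [← sec_map, hb, MVNear.sec_res, AddEquiv.apply_symm_apply]
  rfl

include hS in
/-- Cochains lift. -/
theorem exists_lift_cochain [T2Space X] [Finite ι] {K : ι → Set X} (hK : ∀ i, IsCompact (K i)) {n : ℕ}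
    (h1 : ∀ J : Fin (n + 1) → ι, IndZero S.X₁ (⋂ k, K (J k)) 1) {U : ι → Opens X}
    (hU : ∀ i, K i ⊆ (U i : Set X)) (s : CC S.X₃ U (n + 1)) :
    ∃ (U' : ι → Opens X) (h : ∀ i, U' i ≤ U i), (∀ i, K i ⊆ (U' i : Set X)) ∧
      ∃ t : CC S.X₂ U' (n + 1), mm S.g U' (n + 1) t = rr S.X₃ h (n + 1) s := by
  have hUU : ∀ J : Fin (n + 1) → ι, (⋂ k, K (J k)) ⊆ (UU U J : Set X) := fun J x hx =>
    mem_UU.2 fun k => hU _ (Set.mem_iInter.1 hx k)
  choose V hV hKV b hb using fun J => exists_lift_sec hS (h1 J) (hUU J) (s J)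
  obtain ⟨U', hU', hKU', hUV⟩ := exists_shrink hK V hKV U hU
  refine ⟨U', hU', hKU', fun J => r S.X₂ (hUV J) (b J), ?_⟩
  funext J
  rw [mm_apply, m_r, hb, rr_apply, r_r]

include hS in
/-- Cochains of `S.X₂` mapping to zero come from `S.X₁`. -/
theorem exists_coeff {U : ι → Opens X} {n : ℕ} (s : CC S.X₂ U n) (h : mm S.g U n s = 0) :
    ∃ a : CC S.X₁ U n, mm S.f U n a = s := by
  choose a ha using fun J => exact_lift hS (s J) (congrFun h J)
  exact ⟨a, funext ha⟩

include hS in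
theorem mm_f_injective (U : ι → Opens X) (n : ℕ) : Function.Injective (mm S.f U n) := by
  have := hS.mono_f
  intro a b h
  funext J
  exact m_injective S.f _ (congrFun h J)

theorem mm_g_f (U : ι → Opens X) (n : ℕ) (a : CC S.X₁ U n) : mm S.g U n (mm S.f U n a) = 0 :=
  funext fun _ => m_f_g _

include hS in
/-- Dimension shifting for the complexes of germs. -/
theorem cechZ_X₃ [T2Space X] [Finite ι] {K : ι → Set X} (hK : ∀ i, IsCompact (K i)) {q : ℕ}
    (h1 : ∀ J : Fin (q + 2) → ι, IndZero S.X₁ (⋂ k, K (J k)) 1)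
    (hex : ∀ (U : ι → Opens X) (s : CC S.X₂ U (q + 2)), d S.X₂ U (q + 2) s = 0 →
      ∃ t : CC S.X₂ U (q + 1), d S.X₂ U (q + 1) t = s)
    (hF : CechZ S.X₁ K (q + 1)) : CechZ S.X₃ K q := by
  intro U hU s hs
  obtain ⟨U₁, hU₁, hK₁, s', hs'⟩ := exists_lift_cochain hS hK h1 hU s
  obtain ⟨a, ha⟩ := exists_coeff hS (d S.X₂ U₁ (q + 2) s') (by
    rw [mm_d, hs', ← rr_d, hs, map_zero])
  have hda : d S.X₁ U₁ (q + 3) a = 0 := by
    apply mm_f_injective hS
    rw [mm_d, ha, d_d, map_zero]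
  obtain ⟨U₂, hU₂, hK₂, b, hb⟩ := hF U₁ hK₁ a hda
  obtain ⟨t, ht⟩ := hex U₂ (rr S.X₂ hU₂ (q + 2) s' - mm S.f U₂ (q + 2) b) (by
    rw [map_sub, ← rr_d, ← mm_d, hb, ← ha, mm_rr, sub_self])
  refine ⟨U₂, fun i => (hU₂ i).trans (hU₁ i), hK₂, mm S.g U₂ (q + 1) t, ?_⟩
  rw [← mm_d, ht, map_sub, mm_g_f, sub_zero, mm_rr, hs', rr_rr]

theorem HUmap_g_dd {q : ℕ} {U : Opens X} (b : CohTop.HU S.X₂ q U) :
    dd hS q U (CohTop.HUmap S.g q U b) = 0 := by
  rw [dd_apply, HUmap_apply, Ext.comp_assoc_of_second_deg_zero, hS.comp_extClass, Ext.comp_zero]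
  rfl

include hS in
/-- The degree one case. -/
theorem indZero_one [T2Space X] [Finite ι] {K : ι → Set X} (hK : ∀ i, IsCompact (K i))
    (h1 : ∀ J : Fin 1 → ι, IndZero S.X₁ (⋂ k, K (J k)) 1)
    (hI : ∀ (U : Opens X) (a : CohTop.HU S.X₂ 1 U), a = 0)
    (hF : CechZ S.X₁ K 0) : IndZero S.X₁ (⋃ i, K i) 1 := by
  intro U hU a
  obtain ⟨b, rfl⟩ := exists_of_HUmap_f_eq_zero hS a (hI U _)
  let β : Γs S.X₃ U := MVNear.sec S.X₃ U b
  let U₀ : ι → Opens X := fun _ => U
  have hU₀ : ∀ J : Fin 1 → ι, UU U₀ J ≤ U := fun J x hx => mem_UU.1 hx 0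
  let s : CC S.X₃ U₀ 1 := fun J => r S.X₃ (hU₀ J) β
  have hs : d S.X₃ U₀ 1 s = 0 := by
    funext J
    rw [d_apply, Fin.sum_univ_two]
    simp only [s, r_r]
    simp
  obtain ⟨U₁, hU₁, hK₁, c, hc⟩ := exists_lift_cochain hS hK h1 (U := U₀)
    (fun i => (Set.subset_iUnion K i).trans hU) s
  obtain ⟨a', ha'⟩ := exists_coeff hS (d S.X₂ U₁ 1 c) (by
    rw [mm_d, hc, ← rr_d, hs, map_zero])
  have hda : d S.X₁ U₁ 2 a' = 0 := by
    apply mm_f_injective hS
    rw [mm_d, ha', d_d, map_zero]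
  obtain ⟨U₂, hU₂, hK₂, e, he⟩ := hF U₁ hK₁ a' hda
  let c' : CC S.X₂ U₂ 1 := rr S.X₂ hU₂ 1 c - mm S.f U₂ 1 e
  have hc' : d S.X₂ U₂ 1 c' = 0 := by
    change d S.X₂ U₂ 1 (rr S.X₂ hU₂ 1 c - mm S.f U₂ 1 e) = 0
    rw [map_sub, ← rr_d, ← mm_d, he, ← ha', mm_rr, sub_self]
  have hgc' : mm S.g U₂ 1 c' = rr S.X₃ (fun i => (hU₂ i).trans (hU₁ i)) 1 s := by
    change mm S.g U₂ 1 (rr S.X₂ hU₂ 1 c - mm S.f U₂ 1 e) = _
    rw [map_sub, mm_g_f, sub_zero, mm_rr, hc, rr_rr]
  let V : ι → Opens X := fun i => UU U₂ (fun _ : Fin 1 => i)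
  obtain ⟨w, hw⟩ := glue (F := S.X₂) V (fun i => c' (fun _ => i)) (fun i j => by
    have hle : V i ⊓ V j ≤ UU U₂ ![j, i] := by
      intro x hx
      refine mem_UU.2 fun k => ?_
      refine Fin.cases ?_ (fun k => ?_) k
      · exact mem_UU.1 hx.2 0
      · have : k = 0 := Subsingleton.elim _ _
        subst this
        exact mem_UU.1 hx.1 0
    have h0 := congrArg (r S.X₂ hle) (congrFun hc' ![j, i])
    rw [r_d_apply, Fin.sum_univ_two] at h0
    have h00 : r S.X₂ hle ((0 : CC S.X₂ U₂ 2) ![j, i]) = 0 := map_zero _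
    rw [h00] at h0
    have hj : (![j, i] : Fin 2 → ι) ∘ (0 : Fin 2).succAbove = fun _ => i := by
      funext k
      have : k = 0 := Subsingleton.elim _ _
      subst this
      rfl
    have hi : (![j, i] : Fin 2 → ι) ∘ (1 : Fin 2).succAbove = fun _ => j := by
      funext k
      have : k = 0 := Subsingleton.elim _ _
      subst this
      rfl
    rw [r_congr c' hj (W := V i ⊓ V j) _ inf_le_left, r_congr c' hi (W := V i ⊓ V j) _ inf_le_right] at h0
    simpa [← sub_eq_add_neg, sub_eq_zero] using h0)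
  have hVU : ∀ i, V i ≤ U := fun i x hx => hU₁ i (hU₂ i (mem_UU.1 hx 0))
  have hV : iSup V ≤ U := iSup_le hVU
  have hgw : m S.g (iSup V) w = r S.X₃ hV β := by
    refine sep _ _ fun x hx => ?_
    obtain ⟨i, hi⟩ := Opens.mem_iSup.1 hx
    refine ⟨V i, le_iSup V i, hi, ?_⟩
    rw [← m_r, hw]
    have h2 := congrFun hgc' (fun _ => i)
    rw [mm_apply, rr_apply] at h2
    refine h2.trans ?_
    simp only [s, r_r]
  refine ⟨iSup V, hV, ?_, ?_⟩
  · refine Set.iUnion_subset fun i x hx => ?_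
    exact Opens.mem_iSup.2 ⟨i, mem_UU.2 fun _ => hK₂ i hx⟩
  · have hb : CohTop.res S.X₃ 0 hV b = CohTop.HUmap S.g 0 (iSup V) ((MVNear.sec S.X₂ (iSup V)).symm w) := by
      apply (MVNear.sec S.X₃ (iSup V)).injective
      rw [MVNear.sec_res, sec_map, AddEquiv.apply_symm_apply, hgw]
      rfl
    rw [res_dd, hb, HUmap_g_dd]

/-! ### The theorem -/

variable (X) in
/-- The underlying discrete space. -/
def disc : TopCat.{u} := @TopCat.of X ⊥

instance : DiscreteTopology (disc X) := ⟨rfl⟩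

variable (X) in
/-- The identity map from the discrete space. -/
def toX : disc X ⟶ X := @TopCat.ofHom _ _ ⊥ _ (@ContinuousMap.mk _ _ ⊥ _ id continuous_bot)

theorem toX_surjective : Function.Surjective (toX X) := fun x => ⟨x, rfl⟩

/-- Every abelian sheaf embeds in the direct image of a sheaf on a discrete space. -/
theorem exists_ses (F : CohTop.Ab X) : ∃ (G : CohTop.Ab (disc X)) (Q : CohTop.Ab X)
    (i : F ⟶ (CohTop.push (toX X)).obj G) (p : (CohTop.push (toX X)).obj G ⟶ Q) (w : i ≫ p = 0),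
    (ShortComplex.mk i p w).ShortExact := by
  have hm := CohtopB.Godement.mono_unit_of_surjective (toX X) toX_surjective F
  let i : F ⟶ (CohTop.push (toX X)).obj ((CohTop.pull (toX X)).obj F) :=
    (CohtopB.TopPull.adj (toX X)).unit.app F
  have : Mono i := hm
  refine ⟨(CohTop.pull (toX X)).obj F, cokernel i, i, cokernel.π i, cokernel.condition i, ?_⟩
  exact
    { exact := ShortComplex.exact_cokernel i
      mono_f := this
      epi_g := by dsimp; infer_instance }

theorem HU_push_eq_zero (G : CohTop.Ab (disc X)) (U : Opens X) (n : ℕ)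
    (a : CohTop.HU ((CohTop.push (toX X)).obj G) (n + 1) U) : a = 0 := by
  have := CohtopB.Godement.isFlasque_push_of_discrete (toX X) G
  have := CohtopA.Flasque.subsingleton_HU_succ ((CohTop.push (toX X)).obj G) U n
  exact Subsingleton.elim _ _

theorem indZero_push (G : CohTop.Ab (disc X)) (K : Set X) (n : ℕ) :
    IndZero ((CohTop.push (toX X)).obj G) K (n + 1) := fun U hU a =>
  ⟨U, le_rfl, hU, by rw [HU_push_eq_zero G U n a, map_zero]⟩

/-- **Leray's theorem for finite compact covers** (germs): if the finite intersections of the compact sets `K i` are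
acyclic and the Čech complex of germs is exact in positive degrees, then `⋃ i, K i` is acyclic. -/
theorem indZero_iUnion [T2Space X] [Finite ι] {K : ι → Set X} (hK : ∀ i, IsCompact (K i)) :
    ∀ (q : ℕ) (F : CohTop.Ab X),
      (∀ (n : ℕ) (J : Fin (n + 1) → ι) (p : ℕ), IndZero F (⋂ k, K (J k)) (p + 1)) →
      (∀ p, CechZ F K p) → IndZero F (⋃ i, K i) (q + 1) := by
  intro q
  induction q with
  | zero =>
    intro F h1 h2
    obtain ⟨G, Q, i, p, w, hS⟩ := exists_ses F
    exact indZero_one hS hK (fun J => h1 0 J 0) (fun U a => HU_push_eq_zero G U 0 a) (h2 0)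
  | succ q ih =>
    intro F h1 h2
    obtain ⟨G, Q, i, p, w, hS⟩ := exists_ses F
    refine IndZero.ses₁ hS (ih Q (fun n J p => ?_) fun p => ?_) (indZero_push G _ _)
    · exact IndZero.ses₃ hS (indZero_push G _ _) (h1 n J (p + 1))
    · exact cechZ_X₃ hS hK (fun J => h1 _ J 0) (fun U s hs => exact_push (toX X) G U p s hs) (h2 (p + 1))

end Groth.Agent.Gaga.H294.IndCech
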