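import Groth.Agent.Gaga.H294.ThmA

/-!
# Spaces with homogeneous coordinates and sheaves of homogeneous functions (interface)

* `HomCoords X ι κ` : homogeneous coordinates on `X` : a surjective continuous open map
  `pt : (ℂ^ι ∖ 0) × ℂ^κ → X` whose fibres are the orbits of scalar multiplication on the first factor
  (`X = P^n(ℂ) × ℂ^N`);
* `HomSheaf C F j` : the sections of the abelian sheaf `F` on `W` are the holomorphic functions on the cone over `W`
  which are homogeneous of degree `j` (`F = O(j)^an`).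
-/

set_option autoImplicit false

open CategoryTheory TopologicalSpace Opposite Topology

noncomputable section

namespace Groth.Agent.Gaga.H294.Cone

/-- Homogeneous coordinates. The function `pt` is only used at points `p` with `p.1 ≠ 0`. -/
structure HomCoords (X : TopCat.{0}) (ι κ : Type) [Fintype ι] [Fintype κ] where
  /-- the point with homogeneous coordinates `p.1` and base point `p.2` -/
  pt : (ι → ℂ) × (κ → ℂ) → X
  continuousOn_pt : ContinuousOn pt {p | p.1 ≠ 0}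
  isOpen_image : ∀ V : Set ((ι → ℂ) × (κ → ℂ)), IsOpen V → V ⊆ {p | p.1 ≠ 0} → IsOpen (pt '' V)
  exists_pt : ∀ x : X, ∃ p : (ι → ℂ) × (κ → ℂ), p.1 ≠ 0 ∧ pt p = x
  pt_eq_iff : ∀ p q : (ι → ℂ) × (κ → ℂ), p.1 ≠ 0 → q.1 ≠ 0 →
    (pt p = pt q ↔ p.2 = q.2 ∧ ∃ t : ℂ, t ≠ 0 ∧ q.1 = t • p.1)

variable {X : TopCat.{0}} {ι κ : Type} [Fintype ι] [Fintype κ]

/-- The cone over an open subset. -/
def HomCoords.cone (C : HomCoords X ι κ) (W : Opens X) : Set ((ι → ℂ) × (κ → ℂ)) :=
  {p | p.1 ≠ 0 ∧ C.pt p ∈ W}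

/-- The sections of `F` on `W` are the holomorphic functions on the cone over `W` which are homogeneous of
degree `j`. -/
structure HomSheaf (C : HomCoords X ι κ) (F : CohTop.Ab X) (j : ℤ) where
  /-- the function on the cone attached to a section (only used on `C.cone W`) -/
  ev : ∀ W : Opens X, F.obj.obj (op W) → (ι → ℂ) × (κ → ℂ) → ℂ
  ev_add : ∀ (W : Opens X) (s t : F.obj.obj (op W)), ∀ p ∈ C.cone W, ev W (s + t) p = ev W s p + ev W t p
  ev_res : ∀ (V W : Opens X) (h : V ≤ W) (s : F.obj.obj (op W)), ∀ p ∈ C.cone V,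
    ev V (F.obj.map (homOfLE h).op s) p = ev W s p
  ev_diff : ∀ (W : Opens X) (s : F.obj.obj (op W)), DifferentiableOn ℂ (ev W s) (C.cone W)
  ev_hom : ∀ (W : Opens X) (s : F.obj.obj (op W)), ∀ p ∈ C.cone W, ∀ t : ℂ, t ≠ 0 →
    ev W s (t • p.1, p.2) = t ^ j * ev W s p
  ev_inj : ∀ (W : Opens X) (s t : F.obj.obj (op W)), (∀ p ∈ C.cone W, ev W s p = ev W t p) → s = t
  ev_surj : ∀ (W : Opens X) (f : (ι → ℂ) × (κ → ℂ) → ℂ), DifferentiableOn ℂ f (C.cone W) →
    (∀ p ∈ C.cone W, ∀ t : ℂ, t ≠ 0 → f (t • p.1, p.2) = t ^ j * f p) →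
    ∃ s : F.obj.obj (op W), ∀ p ∈ C.cone W, ev W s p = f p

end Groth.Agent.Gaga.H294.Cone
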