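import Groth.Agent.Gaga.H294.ConeChart
import Groth.Agent.Gaga.H294.IndCech
import Groth.Agent.Gaga.H989.LauSheaf

/-!
# `H^q(P^n(ℂ) × {y}, O(j)^an) = 0` for `q ≥ 1`, `j > -(n+1)`, in the form of germs

`C.fib y` : the fibre over `y`; `HomSheaf.indZero_fib`.
-/

set_option autoImplicit false

open CategoryTheory TopologicalSpace Opposite Topology

noncomputable section

namespace Groth.Agent.Gaga.H294.Cone

open Groth.Agent.Gaga.H41.Ind Groth.Agent.Gaga.H989.LauSheaf

variable {X : TopCat.{0}} {ι κ : Type} [Fintype ι] [Fintype κ]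

namespace HomCoords

/-- The points of `X` over `y`. -/
def fib (C : HomCoords X ι κ) (y : κ → ℂ) : Set X := C.pt '' {p | p.1 ≠ 0 ∧ p.2 = y}

theorem pt_mem_fib (C : HomCoords X ι κ) (y : κ → ℂ) {p : (ι → ℂ) × (κ → ℂ)} (hp : p.1 ≠ 0) :
    C.pt p ∈ C.fib y ↔ p.2 = y := by
  constructor
  · rintro ⟨q, ⟨hq, rfl⟩, hqp⟩
    exact ((C.pt_eq_iff _ _ hq hp).1 hqp).1.symm
  · rintro rfl
    exact ⟨p, ⟨hp, rfl⟩, rfl⟩

variable [DecidableEq ι] (C : HomCoords X ι κ)

theorem Kc_eq (y : κ → ℂ) (i : ι) : Kc C y i = C.KK {i} (fun k => {y k}) := by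
  unfold Kc KK
  congr 1
  ext p
  simp only [Set.mem_ofPred_eq, Finset.mem_singleton, forall_eq, Set.mem_singleton_iff, funext_iff]
  tauto

theorem isCompact_Kc (y : κ → ℂ) (i : ι) : IsCompact (Kc C y i) := by
  rw [C.Kc_eq]
  exact C.isCompact_KK (Finset.singleton_nonempty i) fun _ => isCompact_singleton

theorem iUnion_Kc (y : κ → ℂ) : ⋃ i, Kc C y i = C.fib y := by
  simp only [C.Kc_eq]
  rw [C.iUnion_KK]
  unfold KK fib
  congr 1
  ext p
  simp only [Set.mem_ofPred_eq, Finset.notMem_empty, false_imp_iff, implies_true, and_true,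
    Set.mem_singleton_iff, funext_iff]

theorem isCompact_fib (y : κ → ℂ) : IsCompact (C.fib y) := by
  rw [← C.iUnion_Kc]
  exact isCompact_iUnion fun i => C.isCompact_Kc y i

theorem iInter_Kc (y : κ → ℂ) {n : ℕ} (J : Fin (n + 1) → ι) :
    ⋂ k, Kc C y (J k) = C.KK (Finset.univ.image J) (fun k => {y k}) := by
  simp only [C.Kc_eq]
  exact C.iInter_KK J _ (fun i => by simp) _

end HomCoords

namespace HomSheaf

variable [DecidableEq ι] {C : HomCoords X ι κ} {F : CohTop.Ab X} {j : ℤ}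

/-- **Vanishing of the cohomology of `O(j)^an`, `j > -(n+1)`, along the fibres of
`P^n(ℂ) × ℂ^N → ℂ^N`.** -/
theorem indZero_fib [T2Space X] (H : HomSheaf C F j) (hj : -(Fintype.card ι : ℤ) < j) (y : κ → ℂ) (q : ℕ) :
    IndZero F (C.fib y) (q + 1) := by
  rw [← C.iUnion_Kc]
  refine IndCech.indZero_iUnion (C.isCompact_Kc y) q F (fun n J p => ?_) fun p => ?_
  · rw [C.iInter_Kc]
    exact H.indZero_KK (Finset.univ_nonempty.image J) (fun _ => isCompact_singleton) (by omega)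
  · exact CechGerm.cechZ_of (C.isCompact_Kc y) p fun W hW s hs => cech_exact (H := H) hj y p W hW s hs

end HomSheaf

end Groth.Agent.Gaga.H294.Cone
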