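import Groth.Agent.Gaga.H294.C2Poly
import Groth.Agent.Gaga.H989.OAnInst
import Groth.Agent.FormalB.TwistGen

/-!
# Base change for `O(k)`, `k ≥ 0`, along `P^n_R → Spec R`, `R = ℂ[y_1, …, y_N]`
-/

set_option autoImplicit false

open CategoryTheory TopologicalSpace Opposite AlgebraicGeometry

noncomputable section

namespace Groth.Agent.Gaga.H294.C2An

open Groth.Agent.Gaga.H294.Cone Groth.Agent.Gaga.H988.PnPts Groth.Agent.Gaga.H988.PnCoord CohB1
  Groth.Agent.Gaga.H989.OAn Groth.Agent.Gaga.H989.OAnMap Groth.Agent.Gaga.H989.OAnInst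
  Groth.Agent.Gaga.H988.Base Groth.Agent.Gaga.H975.ModSec Groth.Agent.Gaga.H294.GenIso
  Groth.Agent.Gaga.H294.C2Alg Groth.Agent.Gaga.H294.C2Poly Groth.Agent.Gaga.H990.ChartAt

open Groth.Agent.Gaga.H986.Pull (pre ofPush toPush cm)

variable {n N : ℕ} {R : Type} [CommRing R] [Algebra ℂ R] (c : Coord N R)
  [(ProjSpace n R).Over An.SC] [StdOver n R]

/-- The function on the cone attached to a section of `O(k)^an`. -/
def evO (j : ℤ) {W : Opens (An.top (ProjSpace n R))}
    (s : Sec (R := An.hol (ProjSpace n R)) ((An.analytify (ProjSpace n R)).obj (Twist.twistProjSpace n R j)) W) :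
    HF (homCoords (n := n) (R := R) c) j W :=
  ofSec (holIff c) j (app (R := An.hol (ProjSpace n R)) (isoOAn' c j).hom W s)

theorem evO_add (j : ℤ) {W : Opens (An.top (ProjSpace n R))}
    (s t : Sec (R := An.hol (ProjSpace n R)) ((An.analytify (ProjSpace n R)).obj (Twist.twistProjSpace n R j)) W) :
    (evO c j (s + t)).1 = (evO c j s).1 + (evO c j t).1 := by
  unfold evO
  rw [map_add, ofSec_add]

theorem evO_smul (j : ℤ) {W : Opens (An.top (ProjSpace n R))} (r : O (An.hol (ProjSpace n R)) W)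
    (s : Sec (R := An.hol (ProjSpace n R)) ((An.analytify (ProjSpace n R)).obj (Twist.twistProjSpace n R j)) W) :
    (evO c j (r • s)).1 = lft (homCoords (n := n) (R := R) c) W r.1 * (evO c j s).1 := by
  unfold evO
  rw [map_smul, ofSec_smul]

theorem evO_res (j : ℤ) {V W : Opens (An.top (ProjSpace n R))} (h : W ≤ V)
    (s : Sec (R := An.hol (ProjSpace n R)) ((An.analytify (ProjSpace n R)).obj (Twist.twistProjSpace n R j)) V) :
    evO c j (res (R := An.hol (ProjSpace n R)) _ h s) = resHF (homCoords (n := n) (R := R) c) j h (evO c j s) := by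
  unfold evO
  rw [app_res, ofSec_res]

theorem evO_injective (j : ℤ) {W : Opens (An.top (ProjSpace n R))} :
    Function.Injective (evO c j : Sec (R := An.hol (ProjSpace n R))
      ((An.analytify (ProjSpace n R)).obj (Twist.twistProjSpace n R j)) W → _) := by
  intro s t h
  have h1 : ∀ s, app (R := An.hol (ProjSpace n R)) (isoOAn' c j).inv W
      (app (R := An.hol (ProjSpace n R)) (isoOAn' c j).hom W s) = s := fun s => by
    rw [← app_comp, Iso.hom_inv_id]
    rfl
  rw [← h1 s, ← h1 t]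
  exact congrArg _ h

theorem isoOAn_hom (j : ℤ) [IsDomain R] : (isoOAn' (n := n) c j).hom =
    Groth.Agent.Gaga.H986.Pull.lft (R := (ProjSpace n R).sheaf) (R1 := An.hol (ProjSpace n R))
      (φ := An.anRingHom (ProjSpace n R)) (L := An.analytify (ProjSpace n R)) (An.analytifyAdj (ProjSpace n R))
      (M := Twist.twistProjSpace n R j) (P := OAn (holIff (n := n) c) j)
      (toOAn (std (n := n) c) (holIff c) (j := j)) := rfl

theorem evO_anS (j : ℤ) [IsDomain R] {U : (ProjSpace n R).Opens}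
    (s : Twist.sectN (𝒜 := polyGrading n R) j (op U)) :
    evO c j (anS (M := Twist.twistProjSpace n R j) (U := U) s) = fnS (std c) s := by
  unfold evO
  rw [isoOAn_hom]
  have h := Groth.Agent.Gaga.H986.Pull.app_lft_us (R := (ProjSpace n R).sheaf) (R1 := An.hol (ProjSpace n R))
      (φ := An.anRingHom (ProjSpace n R)) (L := An.analytify (ProjSpace n R)) (An.analytifyAdj (ProjSpace n R))
      (M := Twist.twistProjSpace n R j) (P := OAn (holIff (n := n) c) j)
    (toOAn (std (n := n) c) (holIff c) (j := j)) U s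
  exact (congrArg (ofSec (holIff (n := n) c) j (W := (An.baseF (ProjSpace n R)).obj U)) h).trans
    (ofSec_toOAn (std (n := n) c) (holIff c) (j := j) s)

/-- The monomials as sections in the sense of `Twist.sectN`. -/
def ms' (R : Type) [CommRing R] (k : ℕ) (i : Fin (cnt n k)) :
    Twist.sectN (𝒜 := polyGrading n R) (k : ℤ) (op (ProjSpace.toSpec n R ⁻¹ᵁ ⊤)) := ms n k R i

omit [Algebra ℂ R] [(ProjSpace n R).Over An.SC] [StdOver n R] in
theorem one_notMem (x : ProjectiveSpectrum (polyGrading n R)) :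
    (1 : MvPolynomial (Fin (n + 1)) R) ∉ x.asHomogeneousIdeal.toIdeal :=
  fun h => x.isPrime.ne_top ((Ideal.eq_top_iff_one _).mpr h)

theorem fnS_ms' [IsDomain R] (k : ℕ) (i : Fin (cnt n k)) {p : (Fin (n + 1) → ℂ) × (Fin N → ℂ)} (hp : p.1 ≠ 0) :
    (fnS (std c) (ms' R k i)).1 p = E (std (n := n) c) p (Groth.Agent.Sga67.PnGlobal.mono R (mon n k i)).1 /
      E (std (n := n) c) p 1 :=
  fn_eq (std c) (le_refl _) (ms' R k i).1 (Groth.Agent.Sga67.PnGlobal.mono R (mon n k i))
    (⟨1, SetLike.GradedOne.one_mem⟩ : polyGrading n R 0)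
    (fun x => one_notMem x.1) (fun _ => rfl) ⟨hp, trivial⟩

theorem E_mono (k : ℕ) (i : Fin (cnt n k)) (p : (Fin (n + 1) → ℂ) × (Fin N → ℂ)) :
    E (std (n := n) c) p (Groth.Agent.Sga67.PnGlobal.mono R (mon n k i)).1 = mval i p.1 := by
  change MvPolynomial.eval₂ _ p.1 (MvPolynomial.monomial (mexp i) 1) = _
  rw [MvPolynomial.eval₂_monomial, map_one, one_mul, Finsupp.prod_fintype _ _ (fun _ => pow_zero _)]
  rfl

theorem evO_ms (k : ℕ) (i : Fin (cnt n k)) {p : (Fin (n + 1) → ℂ) × (Fin N → ℂ)} (hp : p.1 ≠ 0) :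
    (evO c k (anS (ms n k R i))).1 p = mval i p.1 := by
  have := isDomain_of_coord c
  have h := evO_anS c (k : ℤ) (U := ProjSpace.toSpec n R ⁻¹ᵁ ⊤) (ms' R k i)
  have h1 : (evO c k (anS (ms n k R i))).1 p = (fnS (std c) (ms' R k i)).1 p := congrArg (fun f => f.1 p) h
  rw [h1, fnS_ms' c k i hp, E_mono, map_one, div_one]

theorem evO_sum (j : ℤ) {W : Opens (An.top (ProjSpace n R))} {m : ℕ} (s : Fin m → Sec (R := An.hol (ProjSpace n R))
      ((An.analytify (ProjSpace n R)).obj (Twist.twistProjSpace n R j)) W)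
      (p : (Fin (n + 1) → ℂ) × (Fin N → ℂ)) :
    (evO c j (∑ i, s i)).1 p = ∑ i, (evO c j (s i)).1 p := by
  let φ : Sec (R := An.hol (ProjSpace n R))
      ((An.analytify (ProjSpace n R)).obj (Twist.twistProjSpace n R j)) W →+ ℂ :=
    AddMonoidHom.mk' (fun s => (evO c j s).1 p) (fun s t => congrFun (evO_add c j s t) p)
  exact map_sum φ s Finset.univ

section base

variable [(Spec (CommRingCat.of R)).Over An.SC] [StdB R]

theorem cmA_apply {W : Opens (An.top (Spec (CommRingCat.of R)))} (a : O (An.hol (Spec (CommRingCat.of R))) W)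
    (x : preA (ProjSpace.toSpec n R) W) :
    (cmA (ProjSpace.toSpec n R) W a).1 x = a.1 ⟨An.Pts.map (ProjSpace.toSpec n R) x.1, x.2⟩ := rfl

theorem mem_cone_preA {W : Opens (An.top (Spec (CommRingCat.of R)))} {p : (Fin (n + 1) → ℂ) × (Fin N → ℂ)} :
    p ∈ (homCoords (n := n) (R := R) c).cone (preA (ProjSpace.toSpec n R) W) ↔ p.1 ≠ 0 ∧ ptB c p.2 ∈ W := by
  refine and_congr_right fun hp => ?_
  rw [← map_pt' (n := n) c p]
  rfl

theorem lft_cmA {W : Opens (An.top (Spec (CommRingCat.of R)))} (a : O (An.hol (Spec (CommRingCat.of R))) W)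
    {p : (Fin (n + 1) → ℂ) × (Fin N → ℂ)}
    (hp : p ∈ (homCoords (n := n) (R := R) c).cone (preA (ProjSpace.toSpec n R) W)) :
    lft (homCoords (n := n) (R := R) c) (preA (ProjSpace.toSpec n R) W) (cmA (ProjSpace.toSpec n R) W a).1 p =
      ext0 W a.1 (ptB c p.2) := by
  rw [lft_of_mem _ _ hp.2, cmA_apply, ext0_of_mem _ ((mem_cone_preA c).1 hp).2]
  exact congrArg a.1 (Subtype.ext (map_pt' c p))

/-- The value of a linear combination of monomials with coefficients on the base. -/
theorem evO_comb (k : ℕ) {W : Opens (An.top (Spec (CommRingCat.of R)))}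
    (a : Fin (cnt n k) → O (An.hol (Spec (CommRingCat.of R))) W)
    {p : (Fin (n + 1) → ℂ) × (Fin N → ℂ)}
    (hp : p ∈ (homCoords (n := n) (R := R) c).cone (preA (ProjSpace.toSpec n R) W)) :
    (evO c k (∑ i, cmA (ProjSpace.toSpec n R) W (a i) • res (R := An.hol (ProjSpace n R))
      ((An.analytify (ProjSpace n R)).obj (Twist.twistProjSpace n R k))
      (fun _ _ => trivial : preA (ProjSpace.toSpec n R) W ≤
        (An.baseF (ProjSpace n R)).obj (ProjSpace.toSpec n R ⁻¹ᵁ ⊤))
        (anS (ms n k R i)))).1 p =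
      ∑ i, ext0 W (a i).1 (ptB c p.2) * mval i p.1 := by
  rw [evO_sum c k _ p]
  refine Finset.sum_congr rfl fun i _ => ?_
  refine (congrFun (evO_smul c k _ _) p).trans ?_
  refine congrArg₂ (· * ·) (lft_cmA c (a i) hp) ?_
  have h := evO_res c k (fun _ _ => trivial : preA (ProjSpace.toSpec n R) W ≤
        (An.baseF (ProjSpace n R)).obj (ProjSpace.toSpec n R ⁻¹ᵁ ⊤)) (anS (ms n k R i))
  exact (congrArg (fun f => f.1 p) h).trans ((resHF_apply _ _ hp).trans (evO_ms c k i hp.1))

include c in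
theorem gens_an (k : ℕ) (y : An.Pts (Spec (CommRingCat.of R))) :
    Gens (R := An.hol (Spec (CommRingCat.of R))) ((An.anPushMap (ProjSpace.toSpec n R)).obj
      ((An.analytify (ProjSpace n R)).obj (Twist.twistProjSpace n R k))) y
      (U := (An.baseF (Spec (CommRingCat.of R))).obj ⊤)
      (fun i => toPushA (ProjSpace.toSpec n R) (anS (ms n k R i))) := by
  intro V hyV m
  let f := evO c k (W := preA (ProjSpace.toSpec n R) V) m
  have hW₀ : IsOpen {w | (ptB c w : An.Pts (Spec (CommRingCat.of R))) ∈ V} := V.isOpen.preimage (ptB c).continuous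
  obtain ⟨P, hP1, hP2, hP3⟩ := Groth.Agent.Gaga.H989.LauSheaf.exists_poly_of_section
    (homSheaf_OAn (holIff (n := n) c) k) hW₀ (preA (ProjSpace.toSpec n R) V)
    (fun z hz w hw => (mem_cone_preA c).2 ⟨hz, hw⟩) f
  have hh : ∀ i : Fin (cnt n k), (An.holPred (Spec (CommRingCat.of R))).pred (U := V)
      (fun x => (P ((ptB c).symm x.1)).coeff (mexp i)) := fun i => by
    rw [holPredB_iff c]
    refine (hP2 (mexp i)).congr fun w hw => ?_
    rw [ext0_of_mem _ hw, Homeomorph.symm_apply_apply]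
  let a : Fin (cnt n k) → O (An.hol (Spec (CommRingCat.of R))) V := fun i =>
    (⟨fun x => (P ((ptB c).symm x.1)).coeff (mexp i), hh i⟩ : An.holSub V)
  refine ⟨V, le_refl V, le_top, hyV, a, ?_⟩
  have key : m = ∑ i : Fin (cnt n k), cmA (ProjSpace.toSpec n R) V (a i) • res (R := An.hol (ProjSpace n R))
      ((An.analytify (ProjSpace n R)).obj (Twist.twistProjSpace n R k))
      (fun _ _ => trivial : preA (ProjSpace.toSpec n R) V ≤
        (An.baseF (ProjSpace n R)).obj (ProjSpace.toSpec n R ⁻¹ᵁ ⊤))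
        (anS (ms n k R i)) := by
    refine evO_injective c k (HF_ext fun p hp => ?_)
    refine Eq.trans ?_ (evO_comb c k _ hp).symm
    have hp' := (mem_cone_preA c).1 hp
    refine (hP3 p.1 hp'.1 p.2 hp'.2).trans ?_
    rw [eval_eq_sum (hP1 p.2)]
    refine Finset.sum_congr rfl fun i _ => ?_
    rw [ext0_of_mem _ hp'.2]
    change _ = (P ((ptB c).symm (ptB c p.2))).coeff (mexp i) * _
    rw [Homeomorph.symm_apply_apply]
  exact (res_self _ _ _).trans key

include c in
theorem indep_an (k : ℕ) (y : An.Pts (Spec (CommRingCat.of R))) :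
    Indep (R := An.hol (Spec (CommRingCat.of R))) ((An.anPushMap (ProjSpace.toSpec n R)).obj
      ((An.analytify (ProjSpace n R)).obj (Twist.twistProjSpace n R k))) y
      (U := (An.baseF (Spec (CommRingCat.of R))).obj ⊤)
      (fun i => toPushA (ProjSpace.toSpec n R) (anS (ms n k R i))) := by
  intro V hV hyV a h
  refine ⟨V, le_refl V, hyV, fun i => ?_⟩
  have key : ∑ i : Fin (cnt n k), cmA (ProjSpace.toSpec n R) V (a i) • res (R := An.hol (ProjSpace n R))
      ((An.analytify (ProjSpace n R)).obj (Twist.twistProjSpace n R k))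
      (fun _ _ => trivial : preA (ProjSpace.toSpec n R) V ≤
        (An.baseF (ProjSpace n R)).obj (ProjSpace.toSpec n R ⁻¹ᵁ ⊤))
        (anS (ms n k R i)) = 0 := h
  have h0 : ∀ w, (ptB c w : An.Pts (Spec (CommRingCat.of R))) ∈ V → ∀ i, ext0 V (a i).1 (ptB c w) = 0 := by
    intro w hw
    refine eq_zero_of_sum _ fun z hz => ?_
    have hp : ((z, w) : (Fin (n + 1) → ℂ) × (Fin N → ℂ)) ∈
        (homCoords (n := n) (R := R) c).cone (preA (ProjSpace.toSpec n R) V) := (mem_cone_preA c).2 ⟨hz, hw⟩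
    refine (evO_comb c k a hp).symm.trans ?_
    rw [key]
    have h1 := evO_add c k (0 : Sec (R := An.hol (ProjSpace n R)) ((An.analytify (ProjSpace n R)).obj
      (Twist.twistProjSpace n R k)) (preA (ProjSpace.toSpec n R) V)) 0
    rw [add_zero] at h1
    have h2 := congrFun h1 (z, w)
    rw [Pi.add_apply] at h2
    exact left_eq_add.1 h2
  rw [resO_self]
  refine Subtype.ext (funext fun x => ?_)
  obtain ⟨w, hw⟩ := (ptB c).surjective x.1
  have hwV : (ptB c w : An.Pts (Spec (CommRingCat.of R))) ∈ V := hw ▸ x.2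
  have h1 := h0 w hwV i
  rw [ext0_of_mem _ hwV] at h1
  exact (congrArg (a i).1 (Subtype.ext hw.symm)).trans h1

include c in
/-- **Base change for `O(k)`, `k ≥ 0`, along `P^n_R → Spec R`.** -/
theorem isIso_anBaseChange_twist (k : ℕ) :
    IsIso (An.anBaseChange (ProjSpace.toSpec n R) (Twist.twistProjSpace n R k)) :=
  isIso_anBaseChange (ProjSpace.toSpec n R) (Twist.twistProjSpace n R k) fun y =>
    ⟨cnt n k, ⊤, trivial, ms n k R, gens_monomials n k R
      (Groth.Agent.FormalB.TwistGen.isQCoh_twistProjSpace n R k) y.pt, gens_an c k y, indep_an c k y⟩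

include c in
/-- The version with an integer. -/
theorem isIso_anBaseChange_twist_int {k : ℤ} (hk : 0 ≤ k) :
    IsIso (An.anBaseChange (ProjSpace.toSpec n R) (Twist.twistProjSpace n R k)) := by
  obtain ⟨k, rfl⟩ := Int.eq_ofNat_of_zero_le hk
  exact isIso_anBaseChange_twist c k

end base

end Groth.Agent.Gaga.H294.C2An
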