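import Groth.Agent.Gaga.H294.C2Alg
import Mathlib.Algebra.MvPolynomial.Funext

/-!
# Homogeneous polynomials in terms of the numbered monomials `mon n k i`
-/

set_option autoImplicit false

open MvPolynomial

noncomputable section

namespace Groth.Agent.Gaga.H294.C2Poly

open Groth.Agent.Gaga.H294.C2Alg

variable {n k : ℕ}

/-- The exponent of the `i`-th monomial. -/
def mexp (i : Fin (cnt n k)) : Fin (n + 1) →₀ ℕ := Finsupp.equivFunOnFinite.symm (mon n k i).1

/-- The value of the `i`-th monomial. -/
def mval (i : Fin (cnt n k)) (z : Fin (n + 1) → ℂ) : ℂ := ∏ l, z l ^ (mon n k i).1 l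

theorem mexp_apply (i : Fin (cnt n k)) (l : Fin (n + 1)) : mexp i l = (mon n k i).1 l := rfl

theorem mexp_injective : Function.Injective (mexp : Fin (cnt n k) → _) := by
  intro i j h
  have h1 : mon n k i = mon n k j := Subtype.ext (Finsupp.equivFunOnFinite.symm.injective h)
  exact (Fintype.equivFin _).symm.injective h1

theorem exists_mexp (d : Fin (n + 1) →₀ ℕ) (hd : d.degree = k) : ∃ i : Fin (cnt n k), mexp i = d := by
  refine ⟨Fintype.equivFin _ ⟨fun l => d l, by rw [← hd, Finsupp.degree_eq_sum]⟩, ?_⟩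
  have : mon n k (Fintype.equivFin _ ⟨fun l => d l, by rw [← hd, Finsupp.degree_eq_sum]⟩) =
      ⟨fun l => d l, by rw [← hd, Finsupp.degree_eq_sum]⟩ := Equiv.symm_apply_apply _ _
  rw [mexp, this]
  ext l
  rfl

theorem eval_monomial_mexp (i : Fin (cnt n k)) (z : Fin (n + 1) → ℂ) (a : ℂ) :
    eval z (monomial (mexp i) a) = a * mval i z := by
  rw [eval_monomial, Finsupp.prod_fintype _ _ (fun _ => pow_zero _)]
  rfl

theorem eval_eq_sum {P : MvPolynomial (Fin (n + 1)) ℂ} (hP : P.IsHomogeneous k) (z : Fin (n + 1) → ℂ) :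
    eval z P = ∑ i : Fin (cnt n k), P.coeff (mexp i) * mval i z := by
  classical
  have h1 : P = ∑ i : Fin (cnt n k), monomial (mexp i) (P.coeff (mexp i)) := by
    ext d
    rw [coeff_sum]
    simp only [coeff_monomial]
    by_cases hd : d.degree = k
    · obtain ⟨j, rfl⟩ := exists_mexp d hd
      rw [Finset.sum_eq_single j]
      · rw [if_pos rfl]
      · intro i _ hi
        rw [if_neg fun h => hi (mexp_injective h)]
      · exact fun h => absurd (Finset.mem_univ _) h
    · have h2 : P.coeff d = 0 := by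
        by_contra h0
        have h3 := hP h0
        apply hd
        rw [← h3, Finsupp.degree_eq_weight_one]
        rfl
      rw [h2]
      symm
      refine Finset.sum_eq_zero fun i _ => ?_
      split_ifs with h
      · rw [h, h2]
      · rfl
  conv_lhs => rw [h1]
  rw [map_sum]
  exact Finset.sum_congr rfl fun i _ => eval_monomial_mexp i z _

theorem eq_zero_of_sum (a : Fin (cnt n k) → ℂ) (h : ∀ z : Fin (n + 1) → ℂ, z ≠ 0 → ∑ i, a i * mval i z = 0) :
    ∀ i, a i = 0 := by
  classical
  set Q : MvPolynomial (Fin (n + 1)) ℂ := ∑ i, monomial (mexp i) (a i) with hQ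
  have h1 : ∀ z, eval z Q = ∑ i, a i * mval i z := fun z => by
    rw [hQ, map_sum]
    exact Finset.sum_congr rfl fun i _ => eval_monomial_mexp i z _
  have h2 : Q * X 0 = 0 := by
    apply MvPolynomial.funext
    intro z
    rw [map_mul, eval_X, map_zero]
    by_cases hz : z = 0
    · rw [hz, Pi.zero_apply, mul_zero]
    · rw [h1, h z hz, zero_mul]
  have h3 : Q = 0 := (mul_eq_zero.1 h2).resolve_right (X_ne_zero 0)
  intro i
  have h4 : Q.coeff (mexp i) = a i := by
    rw [hQ, coeff_sum]
    simp only [coeff_monomial]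
    rw [Finset.sum_eq_single i]
    · rw [if_pos rfl]
    · intro j _ hj
      rw [if_neg fun h => hj (mexp_injective h)]
    · exact fun h => absurd (Finset.mem_univ _) h
  rw [← h4, h3, coeff_zero]

end Groth.Agent.Gaga.H294.C2Poly
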