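import Groth.Agent.Gaga.H294.AltSum
import Groth.Agent.Gaga.H294.Intervals
import Groth.Agent.CohtopA.Sec

/-!
# Čech cochains of germs along a finite family of compact sets

* `UU U J = ⋂ k, U (J k)`, `CC F U m` : cochains indexed by all tuples `J : Fin m → ι`, `d` the alternating
  differential (`d_d`), `rr` refinement, `mm` functoriality;
* `exists_shrink` : neighbourhoods of the finite intersections of compact sets come from neighbourhoods of the
  members;
* `CechZ F K q` : cocycles in `CC F U (q + 2)`, `U i ⊇ K i`, are coboundaries on smaller neighbourhoods.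
-/

set_option autoImplicit false
universe u v

open CategoryTheory TopologicalSpace Opposite
open Groth.Agent.CohtopA.Sec Groth.Agent.Gaga.H294.AltSum

noncomputable section

namespace Groth.Agent.Gaga.H294.CechGerm

variable {X : TopCat.{u}} {ι : Type v}

/-- Finite intersections. -/
def UU (U : ι → Opens X) {n : ℕ} (J : Fin n → ι) : Opens X :=
  ⟨⋂ k, (U (J k) : Set X), isOpen_iInter_of_finite fun k => (U (J k)).2⟩

theorem mem_UU {U : ι → Opens X} {n : ℕ} {J : Fin n → ι} {x : X} : x ∈ UU U J ↔ ∀ k, x ∈ U (J k) :=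
  Set.mem_iInter

theorem UU_comp_le (U : ι → Opens X) {m n : ℕ} (J : Fin n → ι) (φ : Fin m → Fin n) :
    UU U J ≤ UU U (J ∘ φ) := fun _ hx => mem_UU.2 fun k => mem_UU.1 hx (φ k)

theorem UU_mono {U U' : ι → Opens X} (h : ∀ i, U' i ≤ U i) {n : ℕ} (J : Fin n → ι) : UU U' J ≤ UU U J :=
  fun _ hx => mem_UU.2 fun k => h _ (mem_UU.1 hx k)

/-- Cochains. -/
abbrev CC (F : CohTop.Ab X) (U : ι → Opens X) (n : ℕ) : Type _ := ∀ J : Fin n → ι, Γs F (UU U J)

variable {F G : CohTop.Ab X} {U U' U'' : ι → Opens X}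

theorem r_congr {n : ℕ} (s : CC F U n) {J J' : Fin n → ι} (h : J = J') {W : Opens X} (h1 : W ≤ UU U J)
    (h2 : W ≤ UU U J') : r F h1 (s J) = r F h2 (s J') := by
  subst h; rfl

variable (F U) in
/-- The differential. -/
def d (n : ℕ) : CC F U n →+ CC F U (n + 1) where
  toFun s J := ∑ k : Fin (n + 1), (-1 : ℤ) ^ (k : ℕ) • r F (UU_comp_le U J k.succAbove) (s (J ∘ k.succAbove))
  map_zero' := by
    funext J
    simp
  map_add' s t := by
    funext J
    simp only [Pi.add_apply, map_add, smul_add, Finset.sum_add_distrib]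

theorem d_apply {n : ℕ} (s : CC F U n) (J : Fin (n + 1) → ι) :
    d F U n s J = ∑ k : Fin (n + 1), (-1 : ℤ) ^ (k : ℕ) • r F (UU_comp_le U J k.succAbove) (s (J ∘ k.succAbove)) :=
  rfl

/-- The differential, restricted to a smaller open set. -/
theorem r_d_apply {n : ℕ} (s : CC F U n) (J : Fin (n + 1) → ι) {W : Opens X} (hW : W ≤ UU U J) :
    r F hW (d F U n s J) = ∑ k : Fin (n + 1), (-1 : ℤ) ^ (k : ℕ) •
      r F (hW.trans (UU_comp_le U J k.succAbove)) (s (J ∘ k.succAbove)) := by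
  rw [d_apply, map_sum]
  exact Finset.sum_congr rfl fun k _ => by rw [map_zsmul, r_r]

theorem d_d (n : ℕ) (s : CC F U n) : d F U (n + 1) (d F U n s) = 0 := by
  funext J
  rw [d_apply]
  let T : Fin (n + 2) → Fin (n + 1) → Γs F (UU U J) := fun i j =>
    r F ((UU_comp_le U J i.succAbove).trans (UU_comp_le U (J ∘ i.succAbove) j.succAbove))
      (s ((J ∘ i.succAbove) ∘ j.succAbove))
  have h := sum_alt_eq_zero ℤ n T (fun i j hij => r_congr s (comp_succAbove_comm J i j hij) _ _)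
  refine Eq.trans (Finset.sum_congr rfl fun i _ => ?_) h
  rw [r_d_apply, Finset.smul_sum]
  refine Finset.sum_congr rfl fun j _ => ?_
  rw [smul_smul, ← pow_add]

/-- Refinement. -/
def rr (F : CohTop.Ab X) {U U' : ι → Opens X} (h : ∀ i, U' i ≤ U i) (n : ℕ) : CC F U n →+ CC F U' n where
  toFun s J := r F (UU_mono h J) (s J)
  map_zero' := by
    funext J
    simp
  map_add' s t := by
    funext J
    simp

theorem rr_apply (h : ∀ i, U' i ≤ U i) {n : ℕ} (s : CC F U n) (J : Fin n → ι) :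
    rr F h n s J = r F (UU_mono h J) (s J) := rfl

theorem rr_rr (h : ∀ i, U' i ≤ U i) (h' : ∀ i, U'' i ≤ U' i) {n : ℕ} (s : CC F U n) :
    rr F h' n (rr F h n s) = rr F (fun i => (h' i).trans (h i)) n s := by
  funext J
  rw [rr_apply, rr_apply, rr_apply, r_r]

theorem rr_d (h : ∀ i, U' i ≤ U i) {n : ℕ} (s : CC F U n) :
    rr F h (n + 1) (d F U n s) = d F U' n (rr F h n s) := by
  funext J
  rw [rr_apply, r_d_apply, d_apply]
  exact Finset.sum_congr rfl fun k _ => by rw [rr_apply, r_r]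

/-- Functoriality in the sheaf. -/
def mm (φ : F ⟶ G) (U : ι → Opens X) (n : ℕ) : CC F U n →+ CC G U n where
  toFun s J := m φ _ (s J)
  map_zero' := by
    funext J
    simp
  map_add' s t := by
    funext J
    simp

theorem mm_apply (φ : F ⟶ G) {n : ℕ} (s : CC F U n) (J : Fin n → ι) : mm φ U n s J = m φ _ (s J) := rfl

theorem mm_d (φ : F ⟶ G) {n : ℕ} (s : CC F U n) : mm φ U (n + 1) (d F U n s) = d G U n (mm φ U n s) := by
  funext J
  rw [mm_apply, d_apply, d_apply, map_sum]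
  exact Finset.sum_congr rfl fun k _ => by rw [map_zsmul, m_r, mm_apply]

theorem mm_rr (φ : F ⟶ G) (h : ∀ i, U' i ≤ U i) {n : ℕ} (s : CC F U n) :
    mm φ U' n (rr F h n s) = rr G h n (mm φ U n s) := by
  funext J
  rw [mm_apply, rr_apply, rr_apply, mm_apply, m_r]

/-! ### Shrinking -/

theorem shrink_aux [T2Space X] {K : ι → Set X} (hK : ∀ i, IsCompact (K i)) :
    ∀ (n : ℕ) (J : Fin n → ι) (C : Set X), IsCompact C → ∀ O : Set X, IsOpen O →
      (∀ x ∈ C, (∀ k, x ∈ K (J k)) → x ∈ O) →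
      ∃ (V : Opens X) (U : ι → Opens X), C ⊆ (V : Set X) ∧ (∀ i, K i ⊆ (U i : Set X)) ∧
        ∀ x ∈ V, (∀ k, x ∈ U (J k)) → x ∈ O := by
  classical
  intro n
  induction n with
  | zero =>
    intro J C hC O hO h
    exact ⟨⟨O, hO⟩, fun _ => ⊤, fun x hx => h x hx (fun k => k.elim0), fun i x _ => trivial,
      fun x hx _ => hx⟩
  | succ n ih =>
    intro J C hC O hO h
    obtain ⟨V, U, hV, hU, hVU⟩ := ih (fun k => J k.succ) (C ∩ K (J 0)) (hC.inter (hK _)) O hO
      (fun x hx hx' => h x hx.1 (Fin.cases hx.2 hx'))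
    obtain ⟨V₁, V₂, hV₁, hV₂, hC₁, hC₂, h12⟩ := Intervals.exists_separate_mod hC (hK (J 0)) V.2 hV
    refine ⟨⟨V₁, hV₁⟩, fun i => if i = J 0 then U i ⊓ ⟨V₂, hV₂⟩ else U i, hC₁, fun i => ?_,
      fun x hx hx' => ?_⟩
    · beta_reduce
      split_ifs with hi
      · subst hi
        exact fun x hx => ⟨hU _ hx, hC₂ hx⟩
      · exact hU i
    · have h0 := hx' 0
      beta_reduce at h0
      rw [if_pos rfl] at h0
      refine hVU x (h12 ⟨hx, h0.2⟩) fun k => ?_
      have h1 := hx' k.succ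
      beta_reduce at h1
      split_ifs at h1 with hk
      · exact h1.1
      · exact h1

/-- Neighbourhoods of the finite intersections of compact sets come from neighbourhoods of the members. -/
theorem exists_shrink [T2Space X] [Finite ι] {K : ι → Set X} (hK : ∀ i, IsCompact (K i)) {n : ℕ}
    (O : (Fin (n + 1) → ι) → Opens X) (hO : ∀ J, (⋂ k, K (J k)) ⊆ (O J : Set X)) (U₀ : ι → Opens X)
    (hU₀ : ∀ i, K i ⊆ (U₀ i : Set X)) :
    ∃ U : ι → Opens X, (∀ i, U i ≤ U₀ i) ∧ (∀ i, K i ⊆ (U i : Set X)) ∧ ∀ J, UU U J ≤ O J := by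
  have h1 : ∀ J : Fin (n + 1) → ι, ∃ U : ι → Opens X, (∀ i, K i ⊆ (U i : Set X)) ∧ UU U J ≤ O J := by
    classical
    intro J
    obtain ⟨V, U, hV, hU, hVU⟩ := shrink_aux hK n (fun k => J k.succ) (K (J 0)) (hK _) (O J) (O J).2
      (fun x hx hx' => hO J (Set.mem_iInter.2 (Fin.cases hx hx')))
    refine ⟨fun i => if i = J 0 then U i ⊓ V else U i, fun i => ?_, fun x hx => ?_⟩
    · beta_reduce
      split_ifs with hi
      · subst hi
        exact fun x hx => ⟨hU _ hx, hV hx⟩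
      · exact hU i
    · rw [mem_UU] at hx
      have h0 := hx 0
      beta_reduce at h0
      rw [if_pos rfl] at h0
      refine hVU x h0.2 fun k => ?_
      have h1 := hx k.succ
      beta_reduce at h1
      split_ifs at h1 with hk
      · exact h1.1
      · exact h1
  choose U hU hUJ using h1
  refine ⟨fun i => U₀ i ⊓ ⟨⋂ J, (U J i : Set X), isOpen_iInter_of_finite fun J => (U J i).2⟩,
    fun i => inf_le_left, fun i x hx => ⟨hU₀ i hx, Set.mem_iInter.2 fun J => hU J i hx⟩,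
    fun J x hx => hUJ J (mem_UU.2 fun k => ?_)⟩
  exact Set.mem_iInter.1 (mem_UU.1 hx k).2 J

/-! ### Exactness of the complex of germs -/

variable (F) in
/-- Cocycles of germs along the `K i` with `q + 2` indices are coboundaries. -/
def CechZ (K : ι → Set X) (q : ℕ) : Prop :=
  ∀ (U : ι → Opens X), (∀ i, K i ⊆ (U i : Set X)) → ∀ s : CC F U (q + 2), d F U (q + 2) s = 0 →
    ∃ (U' : ι → Opens X) (h : ∀ i, U' i ≤ U i), (∀ i, K i ⊆ (U' i : Set X)) ∧
      ∃ t : CC F U' (q + 1), d F U' (q + 1) t = rr F h (q + 2) s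

/-- `CechZ` from exactness for cochains given on arbitrary neighbourhoods of the intersections. -/
theorem cechZ_of [T2Space X] [Finite ι] {K : ι → Set X} (hK : ∀ i, IsCompact (K i)) (q : ℕ)
    (hex : ∀ (W : (Fin (q + 2) → ι) → Opens X) (_ : ∀ J, (⋂ k, K (J k)) ⊆ (W J : Set X))
      (s : ∀ J, F.obj.obj (op (W J)))
      (_ : ∀ J : Fin (q + 3) → ι, ∃ (V : Opens X) (hV : ∀ k : Fin (q + 3), V ≤ W (J ∘ k.succAbove)),
        (⋂ k, K (J k)) ⊆ (V : Set X) ∧
          ∑ k : Fin (q + 3), (-1 : ℤ) ^ (k : ℕ) •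
            F.obj.map (homOfLE (hV k)).op (s (J ∘ k.succAbove)) = 0),
      ∃ (W' : (Fin (q + 1) → ι) → Opens X) (t : ∀ J, F.obj.obj (op (W' J))),
        (∀ J, (⋂ k, K (J k)) ⊆ (W' J : Set X)) ∧
        ∀ J : Fin (q + 2) → ι, ∃ (V : Opens X) (hV : V ≤ W J)
          (hV' : ∀ k : Fin (q + 2), V ≤ W' (J ∘ k.succAbove)), (⋂ k, K (J k)) ⊆ (V : Set X) ∧
          F.obj.map (homOfLE hV).op (s J) = ∑ k : Fin (q + 2), (-1 : ℤ) ^ (k : ℕ) •
            F.obj.map (homOfLE (hV' k)).op (t (J ∘ k.succAbove))) :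
    CechZ F K q := by
  intro U hU s hs
  have hUU : ∀ {n : ℕ} (J : Fin n → ι), (⋂ k, K (J k)) ⊆ (UU U J : Set X) := fun J x hx =>
    mem_UU.2 fun k => hU _ (Set.mem_iInter.1 hx k)
  obtain ⟨W', t, hW', h⟩ := hex (fun J => UU U J) (fun J => hUU J) s fun J =>
    ⟨UU U J, fun k => UU_comp_le U J k.succAbove, hUU J, congrFun hs J⟩
  choose V hV hV' hKV hst using h
  obtain ⟨U₁, hU₁, hK₁, hU₁W⟩ := exists_shrink hK W' hW' U hU
  obtain ⟨U₂, hU₂, hK₂, hU₂V⟩ := exists_shrink hK V hKV U₁ hK₁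
  have h2W : ∀ J, UU U₂ J ≤ W' J := fun J => (UU_mono hU₂ J).trans (hU₁W J)
  refine ⟨U₂, fun i => (hU₂ i).trans (hU₁ i), hK₂, fun J => r F (h2W J) (t J), ?_⟩
  funext J
  have h1 := congrArg (r F (hU₂V J)) (hst J)
  rw [d_apply, rr_apply]
  refine Eq.trans ?_ (h1.symm.trans ?_)
  · rw [map_sum]
    refine Finset.sum_congr rfl fun k _ => ?_
    rw [map_zsmul]
    congr 1
    refine (r_r _ _ _).trans ?_
    exact (r_r (hV' J k) (hU₂V J) (t (J ∘ k.succAbove))).symm
  · exact r_r (hV J) (hU₂V J) (s J)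

end Groth.Agent.Gaga.H294.CechGerm
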