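import Groth.Agent.Gaga.H294.ThmA
import Groth.Agent.Gaga.H277.OpenHol
import Groth.Agent.Gaga.H277.AffSp

/-!
# Holomorphic charts of `X(ℂ)` given by open immersions of affine spaces

* `holAb X` : the abelian sheaf of holomorphic functions on `X(ℂ)`;
* `holChart j` : the chart `z ↦ j(point z)` for an open immersion `j : 𝔸^n ⟶ X`;
* `dies_holAb` : Theorem A for `holAb X` and such a chart.
-/

set_option autoImplicit false

open CategoryTheory AlgebraicGeometry Topology TopologicalSpace Opposite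
open Groth.Agent.Gaga.H277 Groth.Agent.Gaga.H294.ThmA Groth.Agent.Gaga.H294.MVNear

noncomputable section

namespace Groth.Agent.Gaga.H294.ChartAn

/-- The abelian sheaf of holomorphic functions on `X(ℂ)`. -/
abbrev holAb (X : Scheme.{0}) [X.Over An.SC] : CohTop.Ab (An.top X) :=
  An.AnMod.toAb (X := X) (SheafOfModules.unit (An.holRing X))

variable {n : ℕ} {X : Scheme.{0}} [X.Over An.SC] (j : 𝔸(Fin n; An.SC) ⟶ X) [j.IsOver An.SC]

/-- The parametrization of the chart. -/
def σ (z : Fin n → ℂ) : An.top X := An.Pts.map j (AffSp.point z)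

/-- A section of `holAb X` is a function. -/
def fn {W : Opens (An.top X)} (s : (holAb X).obj.obj (op W)) : W → ℂ :=
  (show An.holSub W from s).1

lemma fn_pred {W : Opens (An.top X)} (s : (holAb X).obj.obj (op W)) : (An.holPred X).pred (fn s) :=
  (show An.holSub W from s).2

lemma fn_sub {W : Opens (An.top X)} (s t : (holAb X).obj.obj (op W)) (x : W) :
    fn (s - t) x = fn s x - fn t x := rfl

lemma fn_res {V W : Opens (An.top X)} (h : V ≤ W) (s : (holAb X).obj.obj (op W)) (x : V) :
    fn ((holAb X).obj.map (homOfLE h).op s) x = fn s ⟨x.1, h x.2⟩ := rfl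

lemma fn_injective {W : Opens (An.top X)} {s t : (holAb X).obj.obj (op W)} (h : ∀ x, fn s x = fn t x) :
    s = t :=
  Subtype.ext (p := fun f => f ∈ An.holSub W) (a1 := s) (a2 := t) (funext h)

lemma exists_fn {W : Opens (An.top X)} (g : W → ℂ) (hg : (An.holPred X).pred g) :
    ∃ s : (holAb X).obj.obj (op W), ∀ x, fn s x = g x := ⟨(⟨g, hg⟩ : An.holSub W), fun _ => rfl⟩

open Classical in
/-- The value of a section in the chart. -/
def evW (W : Opens (An.top X)) (s : (holAb X).obj.obj (op W)) (z : Fin n → ℂ) : ℂ :=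
  if h : σ j z ∈ W then fn s ⟨σ j z, h⟩ else 0

lemma evW_of_mem {W : Opens (An.top X)} (s : (holAb X).obj.obj (op W)) {z : Fin n → ℂ} (h : σ j z ∈ W) :
    evW j W s z = fn s ⟨σ j z, h⟩ := dif_pos h

variable [IsOpenImmersion j]

lemma isOpenEmbedding_σ : IsOpenEmbedding (σ j) :=
  (OpenHol.isOpenEmbedding j).comp (AffSp.homeo n).symm.isOpenEmbedding

lemma σ_mem_iff {V : Opens (An.top (𝔸(Fin n; An.SC)))} {z : Fin n → ℂ} :
    σ j z ∈ (OpenHol.imF j).obj V ↔ AffSp.point z ∈ V :=
  OpenHol.map_mem_imF_iff j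

omit [IsOpenImmersion j] in
lemma differentiableAt_evW (W : Opens (An.top X)) (s : (holAb X).obj.obj (op W)) (z : Fin n → ℂ)
    (hz : σ j z ∈ W) : DifferentiableAt ℂ (evW j W s) z := by
  have h1 := An.holPred_comp j W (fn s) (fn_pred s)
  exact (AffSp.holPred_iff _ _).1 h1 z hz

lemma exists_sec (V : Opens (An.top (𝔸(Fin n; An.SC)))) (W : Opens (An.top X)) (hW : W = (OpenHol.imF j).obj V)
    (f : (Fin n → ℂ) → ℂ) (hf : DifferentiableOn ℂ f (σ j ⁻¹' (W : Set (An.top X)))) :
    ∃ s : (holAb X).obj.obj (op W), ∀ z, σ j z ∈ W → evW j W s z = f z := by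
  subst hW
  have hpre : ∀ z, (hz : σ j z ∈ (OpenHol.imF j).obj V) →
      AffSp.coords (OpenHol.pre j ⟨σ j z, hz⟩).1 = z := by
    intro z hz
    have h1 : OpenHol.pre j ⟨σ j z, hz⟩ = ⟨AffSp.point z, (σ_mem_iff j).1 hz⟩ :=
      OpenHol.pre_map j ⟨AffSp.point z, (σ_mem_iff j).1 hz⟩
    rw [h1]
    exact AffSp.coords_point z
  obtain ⟨s, hs⟩ := exists_fn (W := (OpenHol.imF j).obj V) (fun y => f (AffSp.coords (OpenHol.pre j y).1))
    ((OpenHol.holPred_iff j _).2 ((AffSp.holPred_iff _ _).2 fun z hz => by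
      have hz' : σ j z ∈ (OpenHol.imF j).obj V := (σ_mem_iff j).2 hz
      refine DifferentiableAt.congr_of_eventuallyEq (f := f)
        (hf.differentiableAt ((((OpenHol.imF j).obj V).2.preimage
          (isOpenEmbedding_σ j).continuous).mem_nhds hz')) ?_
      filter_upwards [AffSp.eventually_mem hz] with t ht
      rw [AffSp.ext_of_mem _ ht]
      exact congrArg f (hpre t ((σ_mem_iff j).2 ht))))
  refine ⟨s, fun z hz => ?_⟩
  rw [evW_of_mem j s hz, hs, hpre z hz]

/-- The chart of `X(ℂ)` given by an open immersion of an affine space. -/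
def holChart : HolChart (holAb X) (σ j) where
  emb := isOpenEmbedding_σ j
  ev := evW j
  ev_sub W _ s t x hx := by
    rw [evW_of_mem j _ hx, evW_of_mem j _ hx, evW_of_mem j _ hx, fn_sub]
  ev_res V W _ h s x hx := by
    rw [evW_of_mem j _ hx, evW_of_mem j _ (h hx), fn_res]
  ev_diff W _ s := fun z hz => (differentiableAt_evW j W s z hz).differentiableWithinAt
  ev_inj W hW s t h := fn_injective fun x => by
    obtain ⟨z, hz⟩ := hW x.2
    have hz' : σ j z ∈ W := by
      rw [hz]
      exact x.2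
    have h1 := h z hz'
    rw [evW_of_mem j _ hz', evW_of_mem j _ hz'] at h1
    have e : (⟨σ j z, hz'⟩ : W) = x := Subtype.ext hz
    rwa [e] at h1
  ev_surj W hW f hf := by
    refine exists_sec j ((Opens.map (An.topMap j)).obj W) W ?_ f hf
    apply Opens.ext
    apply subset_antisymm
    · intro y hy
      obtain ⟨z, rfl⟩ := hW hy
      exact ⟨AffSp.point z, hy, rfl⟩
    · rintro _ ⟨x, hx, rfl⟩
      exact hx

/-- **Theorem A** for `X(ℂ)`: along the image of a product of compact sets in a chart, the sheaf of holomorphic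
functions has no higher cohomology. -/
theorem dies_holAb [T2Space (An.top X)] {q : ℕ} (hq : 1 ≤ q) {U : Opens (An.top X)}
    (a : CohTop.HU (holAb X) q U) (K : Fin n → Set ℂ) (hK : ∀ i, IsCompact (K i))
    (hU : σ j '' P K ⊆ (U : Set (An.top X))) : Dies (holAb X) (σ j '' P K) a :=
  dies_of_holChart (holChart j) hq a K hK hU

end Groth.Agent.Gaga.H294.ChartAn
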