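import Groth.Agent.Gaga.H294.Cone
import Groth.Agent.Gaga.H41.Ind

/-!
# Charts and compact sets for homogeneous coordinates

For `C : HomCoords X ι κ`:
* `C.σ i : ℂ^({l // l ≠ i} ⊕ κ) → X`, the standard chart `z i = 1`, an open embedding; `HomSheaf.holChart`;
* `C.KK J B` : the points with `|z l| ≤ |z i|` for all `i ∈ J`, `l`, over the product `B` of compact sets;
* `HomSheaf.indZero_KK` : `IndZero F (C.KK J B) q` for `q ≥ 1`, `J ≠ ∅` (Theorem A).
-/

set_option autoImplicit false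

open CategoryTheory TopologicalSpace Opposite Topology

noncomputable section

namespace Groth.Agent.Gaga.H294.Cone

open Groth.Agent.Gaga.H294.ThmA

variable {X : TopCat.{0}} {ι κ : Type} [Fintype ι] [Fintype κ] [DecidableEq ι]

/-- The affine chart `z i = 1` of the cone. -/
def aff (i : ι) (u : {l : ι // l ≠ i} ⊕ κ → ℂ) : (ι → ℂ) × (κ → ℂ) :=
  (fun l => if h : l = i then 1 else u (Sum.inl ⟨l, h⟩), fun k => u (Sum.inr k))

omit [Fintype ι] [Fintype κ] in
@[simp] theorem aff_fst_self (i : ι) (u : {l : ι // l ≠ i} ⊕ κ → ℂ) : (aff i u).1 i = 1 := dif_pos rfl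

omit [Fintype ι] [Fintype κ] in
theorem aff_fst_of_ne (i : ι) (u : {l : ι // l ≠ i} ⊕ κ → ℂ) {l : ι} (h : l ≠ i) :
    (aff i u).1 l = u (Sum.inl ⟨l, h⟩) := dif_neg h

omit [Fintype ι] [Fintype κ] in
@[simp] theorem aff_snd (i : ι) (u : {l : ι // l ≠ i} ⊕ κ → ℂ) (k : κ) : (aff i u).2 k = u (Sum.inr k) := rfl

omit [Fintype ι] [Fintype κ] in
theorem aff_fst_ne_zero (i : ι) (u : {l : ι // l ≠ i} ⊕ κ → ℂ) : (aff i u).1 ≠ 0 := fun h => by
  have := congrFun h i
  rw [aff_fst_self] at this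
  exact one_ne_zero this

theorem differentiable_aff (i : ι) : Differentiable ℂ (aff (κ := κ) i) := by
  refine Differentiable.prodMk ?_ ?_
  · rw [differentiable_pi]
    intro l
    by_cases h : l = i
    · have : (fun u : {l : ι // l ≠ i} ⊕ κ → ℂ => (if h : l = i then (1 : ℂ) else u (Sum.inl ⟨l, h⟩))) =
          fun _ => 1 := by
        funext u
        exact dif_pos h
      rw [this]
      exact differentiable_const _
    · have : (fun u : {l : ι // l ≠ i} ⊕ κ → ℂ => (if h : l = i then (1 : ℂ) else u (Sum.inl ⟨l, h⟩))) =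
          fun u => u (Sum.inl ⟨l, h⟩) := by
        funext u
        exact dif_neg h
      rw [this]
      exact differentiable_apply _
  · rw [differentiable_pi]
    intro k
    exact differentiable_apply _

/-- The chart coordinates of a point of the cone. -/
def crd (i : ι) (p : (ι → ℂ) × (κ → ℂ)) : {l : ι // l ≠ i} ⊕ κ → ℂ :=
  Sum.elim (fun l => p.1 l.1 / p.1 i) p.2

omit [Fintype ι] [Fintype κ] [DecidableEq ι] in
@[simp] theorem crd_inl (i : ι) (p : (ι → ℂ) × (κ → ℂ)) (l : {l : ι // l ≠ i}) :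
    crd i p (Sum.inl l) = p.1 l.1 / p.1 i := rfl

omit [Fintype ι] [Fintype κ] [DecidableEq ι] in
@[simp] theorem crd_inr (i : ι) (p : (ι → ℂ) × (κ → ℂ)) (k : κ) : crd i p (Sum.inr k) = p.2 k := rfl

omit [Fintype ι] [Fintype κ] in
theorem aff_crd (i : ι) {p : (ι → ℂ) × (κ → ℂ)} (h : p.1 i ≠ 0) : aff i (crd i p) = ((p.1 i)⁻¹ • p.1, p.2) := by
  refine Prod.ext (funext fun l => ?_) rfl
  by_cases hl : l = i
  · subst hl
    rw [aff_fst_self]
    exact (inv_mul_cancel₀ h).symm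
  · rw [aff_fst_of_ne _ _ hl, crd_inl, div_eq_inv_mul]
    rfl

omit [Fintype ι] [Fintype κ] in
theorem crd_aff (i : ι) (u : {l : ι // l ≠ i} ⊕ κ → ℂ) : crd i (aff i u) = u := by
  funext x
  rcases x with l | k
  · rw [crd_inl, aff_fst_self, div_one, aff_fst_of_ne _ _ l.2]
  · rfl

omit [DecidableEq ι] in
theorem differentiableAt_crd (i : ι) {p : (ι → ℂ) × (κ → ℂ)} (h : p.1 i ≠ 0) :
    DifferentiableAt ℂ (crd (κ := κ) i) p := by
  rw [differentiableAt_pi]
  rintro (l | k)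
  · have h1 : DifferentiableAt ℂ (fun q : (ι → ℂ) × (κ → ℂ) => q.1 l.1) p := by fun_prop
    have h2 : DifferentiableAt ℂ (fun q : (ι → ℂ) × (κ → ℂ) => q.1 i) p := by fun_prop
    change DifferentiableAt ℂ (fun q : (ι → ℂ) × (κ → ℂ) => q.1 l.1 / q.1 i) p
    simp only [div_eq_mul_inv]
    exact h1.mul (h2.fun_inv h)
  · change DifferentiableAt ℂ (fun q : (ι → ℂ) × (κ → ℂ) => q.2 k) p
    fun_prop

omit [Fintype ι] [Fintype κ] [DecidableEq ι] in
theorem isOpen_ne_zero (i : ι) : IsOpen {p : (ι → ℂ) × (κ → ℂ) | p.1 i ≠ 0} :=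
  isOpen_ne_fun (by fun_prop) (by fun_prop)

omit [Fintype ι] [Fintype κ] [DecidableEq ι] in
theorem ne_zero_of_apply {p : (ι → ℂ) × (κ → ℂ)} {i : ι} (h : p.1 i ≠ 0) : p.1 ≠ 0 := fun h' =>
  h (congrFun h' i)

omit [DecidableEq ι] in
theorem continuousOn_crd (i : ι) : ContinuousOn (crd (κ := κ) i) {p : (ι → ℂ) × (κ → ℂ) | p.1 i ≠ 0} :=
  fun _ hp => (differentiableAt_crd i hp).continuousAt.continuousWithinAt

namespace HomCoords

variable (C : HomCoords X ι κ)

/-- The standard chart. -/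
def σ (i : ι) (u : {l : ι // l ≠ i} ⊕ κ → ℂ) : X := C.pt (aff i u)

omit [DecidableEq ι] in
theorem pt_smul {p : (ι → ℂ) × (κ → ℂ)} (hp : p.1 ≠ 0) {t : ℂ} (ht : t ≠ 0) :
    C.pt (t • p.1, p.2) = C.pt p :=
  ((C.pt_eq_iff p (t • p.1, p.2) hp (smul_ne_zero ht hp)).2 ⟨rfl, t, ht, rfl⟩).symm

theorem σ_crd (i : ι) {p : (ι → ℂ) × (κ → ℂ)} (h : p.1 i ≠ 0) : C.σ i (crd i p) = C.pt p := by
  unfold σ
  rw [aff_crd i h]
  exact C.pt_smul (ne_zero_of_apply h) (inv_ne_zero h)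

theorem σ_injective (i : ι) : Function.Injective (C.σ i) := by
  intro u v h
  obtain ⟨h2, t, ht, h1⟩ := (C.pt_eq_iff _ _ (aff_fst_ne_zero i u) (aff_fst_ne_zero i v)).1 h
  have ht1 : t = 1 := by
    have := congrFun h1 i
    rw [Pi.smul_apply, aff_fst_self, aff_fst_self, smul_eq_mul, mul_one] at this
    exact this.symm
  subst ht1
  rw [one_smul] at h1
  rw [← crd_aff i u, ← crd_aff i v]
  congr 1
  exact Prod.ext h1.symm h2

theorem mem_range_σ_iff (i : ι) {p : (ι → ℂ) × (κ → ℂ)} (hp : p.1 ≠ 0) :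
    C.pt p ∈ Set.range (C.σ i) ↔ p.1 i ≠ 0 := by
  constructor
  · rintro ⟨u, hu⟩
    obtain ⟨-, t, ht, h1⟩ := (C.pt_eq_iff _ _ (aff_fst_ne_zero i u) hp).1 hu
    have := congrFun h1 i
    rw [Pi.smul_apply, aff_fst_self, smul_eq_mul, mul_one] at this
    rw [this]
    exact ht
  · intro h
    exact ⟨crd i p, C.σ_crd i h⟩

theorem continuous_σ (i : ι) : Continuous (C.σ i) := by
  refine C.continuousOn_pt.comp_continuous (differentiable_aff i).continuous fun u => ?_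
  exact aff_fst_ne_zero i u

theorem isOpenMap_σ (i : ι) : IsOpenMap (C.σ i) := by
  intro V hV
  have h1 : C.σ i '' V = C.pt '' ({p | p.1 i ≠ 0} ∩ crd i ⁻¹' V) := by
    apply subset_antisymm
    · rintro _ ⟨u, hu, rfl⟩
      refine ⟨aff i u, ⟨?_, ?_⟩, rfl⟩
      · change (aff i u).1 i ≠ 0
        rw [aff_fst_self]
        exact one_ne_zero
      · rw [Set.mem_preimage, crd_aff]
        exact hu
    · rintro _ ⟨p, ⟨hp, hpV⟩, rfl⟩
      exact ⟨crd i p, hpV, C.σ_crd i hp⟩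
  rw [h1]
  refine C.isOpen_image _ ((continuousOn_crd i).isOpen_inter_preimage (isOpen_ne_zero i) hV) ?_
  rintro p ⟨hp, -⟩
  exact ne_zero_of_apply hp

theorem isOpenEmbedding_σ (i : ι) : IsOpenEmbedding (C.σ i) :=
  .of_continuous_injective_isOpenMap (C.continuous_σ i) (C.σ_injective i) (C.isOpenMap_σ i)

/-- The points with `|z l| ≤ |z i|` for all `i ∈ J` over the product of the `B k`. -/
def KK (J : Finset ι) (B : κ → Set ℂ) : Set X :=
  C.pt '' {p | p.1 ≠ 0 ∧ (∀ k, p.2 k ∈ B k) ∧ ∀ i ∈ J, ∀ l, ‖p.1 l‖ ≤ ‖p.1 i‖}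

omit [DecidableEq ι] in
theorem pt_mem_KK {J : Finset ι} {B : κ → Set ℂ} {p : (ι → ℂ) × (κ → ℂ)} (hp : p.1 ≠ 0) :
    C.pt p ∈ C.KK J B ↔ (∀ k, p.2 k ∈ B k) ∧ ∀ i ∈ J, ∀ l, ‖p.1 l‖ ≤ ‖p.1 i‖ := by
  constructor
  · rintro ⟨q, ⟨hq, h1, h2⟩, hqp⟩
    obtain ⟨h3, t, ht, h4⟩ := (C.pt_eq_iff _ _ hq hp).1 hqp
    refine ⟨fun k => by rw [← h3]; exact h1 k, fun i hi l => ?_⟩
    rw [h4]
    simp only [Pi.smul_apply, norm_smul]
    exact mul_le_mul_of_nonneg_left (h2 i hi l) (norm_nonneg t)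
  · rintro ⟨h1, h2⟩
    exact ⟨p, ⟨hp, h1, h2⟩, rfl⟩

omit [DecidableEq ι] in
theorem KK_anti {J J' : Finset ι} (h : J ⊆ J') (B : κ → Set ℂ) : C.KK J' B ⊆ C.KK J B := by
  rintro _ ⟨p, ⟨hp, h1, h2⟩, rfl⟩
  exact ⟨p, ⟨hp, h1, fun i hi => h2 i (h hi)⟩, rfl⟩

theorem KK_union (J J' : Finset ι) (B : κ → Set ℂ) : C.KK (J ∪ J') B = C.KK J B ∩ C.KK J' B := by
  apply subset_antisymm
  · exact Set.subset_inter (C.KK_anti Finset.subset_union_left B) (C.KK_anti Finset.subset_union_right B)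
  · rintro _ ⟨⟨p, ⟨hp, h1, h2⟩, rfl⟩, h3⟩
    rw [C.pt_mem_KK hp] at h3
    rw [C.pt_mem_KK hp]
    refine ⟨h1, fun i hi => ?_⟩
    rcases Finset.mem_union.1 hi with h | h
    · exact h2 i h
    · exact h3.2 i h

omit [DecidableEq ι] in
theorem iInter_KK {α : Type*} [Nonempty α] (s : α → ι) (J : Finset ι) (hJ : ∀ i, i ∈ J ↔ ∃ a, s a = i)
    (B : κ → Set ℂ) : ⋂ a, C.KK {s a} B = C.KK J B := by
  apply subset_antisymm
  · intro x hx
    obtain ⟨p, hp, rfl⟩ := C.exists_pt x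
    rw [C.pt_mem_KK hp]
    rw [Set.mem_iInter] at hx
    refine ⟨((C.pt_mem_KK hp).1 (hx (Classical.arbitrary α))).1, fun i hi => ?_⟩
    obtain ⟨a, rfl⟩ := (hJ i).1 hi
    exact ((C.pt_mem_KK hp).1 (hx a)).2 _ (Finset.mem_singleton_self _)
  · refine Set.subset_iInter fun a => C.KK_anti ?_ B
    rw [Finset.singleton_subset_iff]
    exact (hJ _).2 ⟨a, rfl⟩

omit [DecidableEq ι] in
theorem iUnion_KK (B : κ → Set ℂ) : ⋃ i, C.KK {i} B = C.KK ∅ B := by
  apply subset_antisymm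
  · exact Set.iUnion_subset fun i => C.KK_anti (Finset.empty_subset _) B
  · rintro _ ⟨p, ⟨hp, h1, -⟩, rfl⟩
    have hne : Nonempty ι := by
      by_contra h
      rw [not_nonempty_iff] at h
      exact hp (Subsingleton.elim _ _)
    obtain ⟨i, -, hi⟩ := Finset.exists_max_image Finset.univ (fun l => ‖p.1 l‖) Finset.univ_nonempty
    refine Set.mem_iUnion.2 ⟨i, ⟨p, ⟨hp, h1, fun i' hi' l => ?_⟩, rfl⟩⟩
    rw [Finset.mem_singleton] at hi'
    subst hi'
    exact hi l (Finset.mem_univ l)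

/-- The compact sets describing `KK J B` in the chart `z i = 1`. -/
def KB (i : ι) (J : Finset ι) (B : κ → Set ℂ) : {l : ι // l ≠ i} ⊕ κ → Set ℂ :=
  Sum.elim (fun l => if l.1 ∈ J then {z | ‖z‖ = 1} else {z | ‖z‖ ≤ 1}) B

omit [Fintype ι] [Fintype κ] in
theorem isCompact_KB (i : ι) (J : Finset ι) {B : κ → Set ℂ} (hB : ∀ k, IsCompact (B k))
    (x : {l : ι // l ≠ i} ⊕ κ) : IsCompact (KB i J B x) := by
  rcases x with l | k
  · change IsCompact (if l.1 ∈ J then {z : ℂ | ‖z‖ = 1} else {z | ‖z‖ ≤ 1})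
    have h1 : {z : ℂ | ‖z‖ ≤ 1} = Metric.closedBall 0 1 := by
      ext z
      simp
    have h2 : {z : ℂ | ‖z‖ = 1} = Metric.sphere 0 1 := by
      ext z
      simp
    split_ifs
    · rw [h2]
      exact isCompact_sphere 0 1
    · rw [h1]
      exact isCompact_closedBall 0 1
  · exact hB k

theorem KK_eq (i : ι) {J : Finset ι} (hi : i ∈ J) (B : κ → Set ℂ) : C.KK J B = C.σ i '' P (KB i J B) := by
  apply subset_antisymm
  · rintro _ ⟨p, ⟨hp, h1, h2⟩, rfl⟩
    have hpi : p.1 i ≠ 0 := by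
      intro h
      apply hp
      funext l
      have := h2 i hi l
      rw [h, norm_zero] at this
      exact norm_le_zero_iff.1 this
    refine ⟨crd i p, ?_, C.σ_crd i hpi⟩
    rintro (l | k)
    · change crd i p (Sum.inl l) ∈ (if l.1 ∈ J then {z : ℂ | ‖z‖ = 1} else {z | ‖z‖ ≤ 1})
      rw [crd_inl]
      have h3 : ‖p.1 l.1‖ ≤ ‖p.1 i‖ := h2 i hi l.1
      have h4 : 0 < ‖p.1 i‖ := norm_pos_iff.2 hpi
      split_ifs with h
      · have h5 : ‖p.1 i‖ ≤ ‖p.1 l.1‖ := h2 l.1 h i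
        change ‖p.1 l.1 / p.1 i‖ = 1
        rw [norm_div, le_antisymm h3 h5, div_self h4.ne']
      · change ‖p.1 l.1 / p.1 i‖ ≤ 1
        rw [norm_div]
        exact (div_le_one h4).2 h3
    · exact h1 k
  · rintro _ ⟨u, hu, rfl⟩
    unfold σ
    rw [C.pt_mem_KK (aff_fst_ne_zero i u)]
    refine ⟨fun k => hu (Sum.inr k), fun i' hi' l => ?_⟩
    have key : ∀ l, ‖(aff i u).1 l‖ ≤ 1 := by
      intro l
      by_cases hl : l = i
      · subst hl
        rw [aff_fst_self, norm_one]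
      · rw [aff_fst_of_ne _ _ hl]
        have h1 : u (Sum.inl ⟨l, hl⟩) ∈ (if l ∈ J then {z : ℂ | ‖z‖ = 1} else {z | ‖z‖ ≤ 1}) :=
          hu (Sum.inl ⟨l, hl⟩)
        split_ifs at h1
        · exact le_of_eq h1
        · exact h1
    have key2 : ‖(aff i u).1 i'‖ = 1 := by
      by_cases hl : i' = i
      · subst hl
        rw [aff_fst_self, norm_one]
      · rw [aff_fst_of_ne _ _ hl]
        have h1 : u (Sum.inl ⟨i', hl⟩) ∈ (if i' ∈ J then {z : ℂ | ‖z‖ = 1} else {z | ‖z‖ ≤ 1}) :=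
          hu (Sum.inl ⟨i', hl⟩)
        rw [if_pos hi'] at h1
        exact h1
    rw [key2]
    exact key l

theorem isCompact_KK {J : Finset ι} (hJ : J.Nonempty) {B : κ → Set ℂ} (hB : ∀ k, IsCompact (B k)) :
    IsCompact (C.KK J B) := by
  obtain ⟨i, hi⟩ := hJ
  rw [C.KK_eq i hi B]
  exact (isCompact_P (isCompact_KB i J hB)).image (C.continuous_σ i)

end HomCoords

namespace HomSheaf

variable {C : HomCoords X ι κ} {F : CohTop.Ab X} {j : ℤ} (H : HomSheaf C F j)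

omit [DecidableEq ι] in
include H in
theorem ev_sub (W : Opens X) (s t : F.obj.obj (op W)) {p : (ι → ℂ) × (κ → ℂ)} (hp : p ∈ C.cone W) :
    H.ev W (s - t) p = H.ev W s p - H.ev W t p := by
  have := H.ev_add W (s - t) t p hp
  rw [sub_add_cancel] at this
  rw [this, add_sub_cancel_right]

/-- The standard charts are holomorphic charts. -/
def holChart (i : ι) : HolChart F (C.σ i) where
  emb := C.isOpenEmbedding_σ i
  ev W s u := H.ev W s (aff i u)
  ev_sub W _ s t u hu := H.ev_sub W s t ⟨aff_fst_ne_zero i u, hu⟩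
  ev_res V W _ h s u hu := H.ev_res V W h s _ ⟨aff_fst_ne_zero i u, hu⟩
  ev_diff W _ s := by
    refine (H.ev_diff W s).comp (differentiable_aff i).differentiableOn fun u hu => ?_
    exact ⟨aff_fst_ne_zero i u, hu⟩
  ev_inj W hW s t h := H.ev_inj W s t fun p hp => by
    have hpi : p.1 i ≠ 0 := (C.mem_range_σ_iff i hp.1).1 (hW hp.2)
    have hu : C.σ i (crd i p) ∈ W := by
      rw [C.σ_crd i hpi]
      exact hp.2
    have h1 := h _ hu
    have e : p = (p.1 i • (aff i (crd i p)).1, (aff i (crd i p)).2) := by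
      rw [aff_crd i hpi]
      refine Prod.ext ?_ rfl
      simp only [smul_smul, mul_inv_cancel₀ hpi, one_smul]
    have hc : aff i (crd i p) ∈ C.cone W := ⟨aff_fst_ne_zero i _, hu⟩
    rw [e, H.ev_hom W s _ hc _ hpi, H.ev_hom W t _ hc _ hpi, h1]
  ev_surj W hW f hf := by
    have hcone : ∀ p ∈ C.cone W, p.1 i ≠ 0 := fun p hp => (C.mem_range_σ_iff i hp.1).1 (hW hp.2)
    have hmem : ∀ p ∈ C.cone W, C.σ i (crd i p) ∈ W := fun p hp => by
      rw [C.σ_crd i (hcone p hp)]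
      exact hp.2
    obtain ⟨s, hs⟩ := H.ev_surj W (fun p => (p.1 i) ^ j * f (crd i p)) (fun p hp => by
        have h1 : DifferentiableAt ℂ (fun q : (ι → ℂ) × (κ → ℂ) => (q.1 i) ^ j) p := by
          have h2 : DifferentiableAt ℂ (fun q : (ι → ℂ) × (κ → ℂ) => q.1 i) p := by fun_prop
          exact h2.zpow (Or.inl (hcone p hp))
        have h3 : DifferentiableAt ℂ f (crd i p) :=
          hf.differentiableAt ((W.2.preimage (C.continuous_σ i)).mem_nhds (hmem p hp))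
        exact (h1.mul (h3.comp p (differentiableAt_crd i (hcone p hp)))).differentiableWithinAt)
      (fun p hp t ht => by
        have e : crd i (t • p.1, p.2) = crd i p := by
          funext x
          rcases x with l | k
          · simp only [crd_inl, Pi.smul_apply, smul_eq_mul]
            rw [mul_div_mul_left _ _ ht]
          · rfl
        simp only [e, Pi.smul_apply, smul_eq_mul, mul_zpow]
        ring)
    refine ⟨s, fun u hu => ?_⟩
    rw [hs _ ⟨aff_fst_ne_zero i u, hu⟩, aff_fst_self, one_zpow, one_mul, crd_aff]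

open Groth.Agent.Gaga.H41.Ind in
include H in
/-- **Theorem A** along the compact sets `KK J B`. -/
theorem indZero_KK [T2Space X] {J : Finset ι} (hJ : J.Nonempty) {B : κ → Set ℂ} (hB : ∀ k, IsCompact (B k))
    {q : ℕ} (hq : 1 ≤ q) : IndZero F (C.KK J B) q := by
  obtain ⟨i, hi⟩ := hJ
  rw [C.KK_eq i hi B]
  intro U hU a
  exact dies_of_holChart (H.holChart i) hq a _ (HomCoords.isCompact_KB i J hB) hU

end HomSheaf

end Groth.Agent.Gaga.H294.Cone
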