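import Mathlib.Analysis.Complex.CauchyIntegral
import Mathlib.Analysis.Complex.RemovableSingularity
import Mathlib.Analysis.SpecialFunctions.Complex.LogDeriv
import Mathlib.MeasureTheory.Integral.IntervalIntegral.FundThmCalculus

/-!
# The Cauchy integral formula on a rectangle

`bdry a b c d g` is the integral of `g` over the boundary of `[a,b] × [c,d]` (counterclockwise).
* `bdry_eq_zero`, `bdry_inv` (the winding number), `bdry_cauchy`, `bdry_cauchy_outside`.
-/

set_option autoImplicit false

open MeasureTheory Set Filter Topology Complex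

namespace Groth.Agent.Gaga.H294.Rect

/-- The integral of `g` over the boundary of the rectangle `[a,b] × [c,d]`. -/
noncomputable def bdry (a b c d : ℝ) (g : ℂ → ℂ) : ℂ :=
  (∫ t : ℝ in a..b, g (t + c * I)) - (∫ t : ℝ in a..b, g (t + d * I)) +
    I * (∫ t : ℝ in c..d, g (b + t * I)) - I * (∫ t : ℝ in c..d, g (a + t * I))

/-- The boundary of the rectangle. -/
def frame (a b c d : ℝ) : Set ℂ :=
  {z | z.re ∈ Icc a b ∧ z.im ∈ Icc c d ∧ (z.re = a ∨ z.re = b ∨ z.im = c ∨ z.im = d)}

theorem bdry_congr {a b c d : ℝ} (hab : a ≤ b) (hcd : c ≤ d) {g h : ℂ → ℂ}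
    (hgh : ∀ z ∈ frame a b c d, g z = h z) : bdry a b c d g = bdry a b c d h := by
  unfold bdry
  have h1 : (∫ t : ℝ in a..b, g (t + c * I)) = ∫ t : ℝ in a..b, h (t + c * I) := by
    refine intervalIntegral.integral_congr (fun t ht => hgh _ ?_)
    rw [uIcc_of_le hab] at ht
    exact ⟨by simpa using ht, by simpa using hcd, by simp⟩
  have h2 : (∫ t : ℝ in a..b, g (t + d * I)) = ∫ t : ℝ in a..b, h (t + d * I) := by
    refine intervalIntegral.integral_congr (fun t ht => hgh _ ?_)
    rw [uIcc_of_le hab] at ht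
    exact ⟨by simpa using ht, by simpa using hcd, by simp⟩
  have h3 : (∫ t : ℝ in c..d, g (b + t * I)) = ∫ t : ℝ in c..d, h (b + t * I) := by
    refine intervalIntegral.integral_congr (fun t ht => hgh _ ?_)
    rw [uIcc_of_le hcd] at ht
    exact ⟨by simpa using hab, by simpa using ht, by simp⟩
  have h4 : (∫ t : ℝ in c..d, g (a + t * I)) = ∫ t : ℝ in c..d, h (a + t * I) := by
    refine intervalIntegral.integral_congr (fun t ht => hgh _ ?_)
    rw [uIcc_of_le hcd] at ht
    exact ⟨by simpa using hab, by simpa using ht, by simp⟩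
  rw [h1, h2, h3, h4]

theorem bdry_add {a b c d : ℝ} (hab : a ≤ b) (hcd : c ≤ d) {g h : ℂ → ℂ}
    (hg : ContinuousOn g (frame a b c d)) (hh : ContinuousOn h (frame a b c d)) :
    bdry a b c d (fun z => g z + h z) = bdry a b c d g + bdry a b c d h := by
  have hor : ∀ (f : ℂ → ℂ), ContinuousOn f (frame a b c d) → ∀ y : ℝ, (y = c ∨ y = d) →
      IntervalIntegrable (fun t : ℝ => f (t + y * I)) volume a b := by
    intro f hf y hy
    refine ContinuousOn.intervalIntegrable ?_
    rw [uIcc_of_le hab]
    refine hf.comp (by fun_prop) (fun t ht => ?_)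
    rcases hy with rfl | rfl
    · exact ⟨by simpa using ht, by simpa using hcd, by simp⟩
    · exact ⟨by simpa using ht, by simpa using hcd, by simp⟩
  have ver : ∀ (f : ℂ → ℂ), ContinuousOn f (frame a b c d) → ∀ x : ℝ, (x = a ∨ x = b) →
      IntervalIntegrable (fun t : ℝ => f (x + t * I)) volume c d := by
    intro f hf x hx
    refine ContinuousOn.intervalIntegrable ?_
    rw [uIcc_of_le hcd]
    refine hf.comp (by fun_prop) (fun t ht => ?_)
    rcases hx with rfl | rfl
    · exact ⟨by simpa using hab, by simpa using ht, by simp⟩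
    · exact ⟨by simpa using hab, by simpa using ht, by simp⟩
  unfold bdry
  rw [intervalIntegral.integral_add (hor g hg c (Or.inl rfl)) (hor h hh c (Or.inl rfl)),
    intervalIntegral.integral_add (hor g hg d (Or.inr rfl)) (hor h hh d (Or.inr rfl)),
    intervalIntegral.integral_add (ver g hg b (Or.inr rfl)) (ver h hh b (Or.inr rfl)),
    intervalIntegral.integral_add (ver g hg a (Or.inl rfl)) (ver h hh a (Or.inl rfl))]
  ring

theorem bdry_const_mul (a b c d : ℝ) (k : ℂ) (g : ℂ → ℂ) :
    bdry a b c d (fun z => k * g z) = k * bdry a b c d g := by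
  unfold bdry
  rw [intervalIntegral.integral_const_mul, intervalIntegral.integral_const_mul,
    intervalIntegral.integral_const_mul, intervalIntegral.integral_const_mul]
  ring

/-- Cauchy's theorem. -/
theorem bdry_eq_zero {a b c d : ℝ} (hab : a ≤ b) (hcd : c ≤ d) {g : ℂ → ℂ}
    (hg : DifferentiableOn ℂ g {z | z.re ∈ Icc a b ∧ z.im ∈ Icc c d}) : bdry a b c d g = 0 := by
  have h := integral_boundary_rect_eq_zero_of_differentiableOn g (a + c * I) (b + d * I) (by
    refine hg.mono (fun z hz => ?_)
    rw [mem_reProdIm] at hz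
    simp only [add_re, ofReal_re, mul_re, I_re, mul_zero, ofReal_im, I_im, mul_one, sub_self, add_zero,
      add_im, mul_im, zero_add] at hz
    rw [uIcc_of_le hab, uIcc_of_le hcd] at hz
    exact hz)
  simp only [add_re, ofReal_re, mul_re, I_re, mul_zero, ofReal_im, I_im, mul_one, sub_self, add_zero,
      add_im, mul_im, zero_add, smul_eq_mul] at h
  exact h

/-- The winding number of the boundary of a rectangle. -/
theorem bdry_inv {a b c d : ℝ} {z : ℂ} (ha : a < z.re) (hb : z.re < b) (hc : c < z.im) (hd : z.im < d) :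
    bdry a b c d (fun ζ => 1 / (ζ - z)) = 2 * Real.pi * I := by
  -- horizontal sides
  have hor : ∀ y : ℝ, y ≠ z.im → (∫ t : ℝ in a..b, 1 / ((t : ℂ) + y * I - z)) =
      log (b + y * I - z) - log (a + y * I - z) := by
    intro y hy
    have hsl : ∀ t : ℝ, ((t : ℂ) + y * I - z) ∈ slitPlane := by
      intro t
      refine Or.inr ?_
      simp only [sub_im, add_im, ofReal_im, mul_im, ofReal_re, I_im, mul_one, I_re, mul_zero, add_zero,
        zero_add]
      exact sub_ne_zero.2 hy
    have hne : ∀ t : ℝ, ((t : ℂ) + y * I - z) ≠ 0 := fun t => slitPlane_ne_zero (hsl t)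
    refine intervalIntegral.integral_eq_sub_of_hasDerivAt (f := fun t : ℝ => log ((t : ℂ) + y * I - z)) ?_ ?_
    · intro t _
      have h1 : HasDerivAt (fun t : ℝ => (t : ℂ) + y * I - z) 1 t :=
        ((Complex.ofRealCLM.hasDerivAt (x := t)).add_const _).sub_const _
      exact h1.clog_real (hsl t)
    · refine Continuous.intervalIntegrable ?_ _ _
      exact continuous_const.div (by fun_prop) hne
  have ver_b : (∫ t : ℝ in c..d, 1 / ((b : ℂ) + t * I - z)) =
      (log (b + d * I - z) - log (b + c * I - z)) / I := by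
    have hsl : ∀ t : ℝ, ((b : ℂ) + t * I - z) ∈ slitPlane := by
      intro t
      refine Or.inl ?_
      simp only [sub_re, add_re, ofReal_re, mul_re, I_re, mul_zero, ofReal_im, I_im, mul_one, sub_self,
        add_zero]
      linarith
    have hne : ∀ t : ℝ, ((b : ℂ) + t * I - z) ≠ 0 := fun t => slitPlane_ne_zero (hsl t)
    have h0 : (∫ t : ℝ in c..d, I / ((b : ℂ) + t * I - z)) = log (b + d * I - z) - log (b + c * I - z) := by
      refine intervalIntegral.integral_eq_sub_of_hasDerivAt (f := fun t : ℝ => log ((b : ℂ) + t * I - z)) ?_ ?_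
      · intro t _
        have h1 : HasDerivAt (fun t : ℝ => (b : ℂ) + t * I - z) I t := by
          have := (((Complex.ofRealCLM.hasDerivAt (x := t)).mul_const I).const_add (b : ℂ)).sub_const z
          simpa using this
        exact h1.clog_real (hsl t)
      · refine Continuous.intervalIntegrable ?_ _ _
        exact continuous_const.div (by fun_prop) hne
    rw [← h0, eq_div_iff I_ne_zero, mul_comm, ← intervalIntegral.integral_const_mul]
    refine intervalIntegral.integral_congr (fun t _ => ?_)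
    ring
  have ver_a : (∫ t : ℝ in c..d, 1 / ((a : ℂ) + t * I - z)) =
      (log (-(a + d * I - z)) - log (-(a + c * I - z))) / I := by
    have hsl : ∀ t : ℝ, (-((a : ℂ) + t * I - z)) ∈ slitPlane := by
      intro t
      refine Or.inl ?_
      simp only [neg_re, sub_re, add_re, ofReal_re, mul_re, I_re, mul_zero, ofReal_im, I_im, mul_one,
        sub_self, add_zero]
      linarith
    have hne : ∀ t : ℝ, ((a : ℂ) + t * I - z) ≠ 0 := fun t => neg_ne_zero.1 (slitPlane_ne_zero (hsl t))
    have h0 : (∫ t : ℝ in c..d, (-I) / (-((a : ℂ) + t * I - z))) =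
        log (-(a + d * I - z)) - log (-(a + c * I - z)) := by
      refine intervalIntegral.integral_eq_sub_of_hasDerivAt
        (f := fun t : ℝ => log (-((a : ℂ) + t * I - z))) ?_ ?_
      · intro t _
        have h1 : HasDerivAt (fun t : ℝ => -((a : ℂ) + t * I - z)) (-I) t := by
          have h2 : HasDerivAt (fun t : ℝ => (a : ℂ) + t * I - z) I t := by
            have := (((Complex.ofRealCLM.hasDerivAt (x := t)).mul_const I).const_add (a : ℂ)).sub_const z
            simpa using this
          exact h2.neg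
        exact h1.clog_real (hsl t)
      · refine Continuous.intervalIntegrable ?_ _ _
        exact continuous_const.div (by fun_prop) (fun t => neg_ne_zero.2 (hne t))
    rw [← h0, eq_div_iff I_ne_zero, mul_comm, ← intervalIntegral.integral_const_mul]
    refine intervalIntegral.integral_congr (fun t _ => ?_)
    change I * (1 / ((a : ℂ) + t * I - z)) = (-I) / (-((a : ℂ) + t * I - z))
    rw [neg_div_neg_eq]
    ring
  unfold bdry
  rw [hor c hc.ne, hor d hd.ne', ver_b, ver_a, mul_div_cancel₀ _ I_ne_zero, mul_div_cancel₀ _ I_ne_zero]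
  have e1 : log (-(a + d * I - z)) = log (a + d * I - z) - Real.pi * I := by
    have him : 0 < ((a : ℂ) + d * I - z).im := by simp; linarith
    rw [log, log, norm_neg, arg_neg_eq_arg_sub_pi_of_im_pos him]
    push_cast
    ring
  have e2 : log (-(a + c * I - z)) = log (a + c * I - z) + Real.pi * I := by
    have him : ((a : ℂ) + c * I - z).im < 0 := by simp; linarith
    rw [log, log, norm_neg, arg_neg_eq_arg_add_pi_of_im_neg him]
    push_cast
    ring
  rw [e1, e2]
  ring

/-- The Cauchy integral formula. -/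
theorem bdry_cauchy {a b c d : ℝ} {g : ℂ → ℂ} {z : ℂ} (ha : a < z.re) (hb : z.re < b) (hc : c < z.im)
    (hd : z.im < d) (hg : DifferentiableOn ℂ g {z | z.re ∈ Icc a b ∧ z.im ∈ Icc c d}) :
    bdry a b c d (fun ζ => g ζ / (ζ - z)) = 2 * Real.pi * I * g z := by
  have hab : a ≤ b := (ha.trans hb).le
  have hcd : c ≤ d := (hc.trans hd).le
  have hnhds : {z : ℂ | z.re ∈ Icc a b ∧ z.im ∈ Icc c d} ∈ 𝓝 z := by
    have h1 : {z : ℂ | z.re ∈ Ioo a b ∧ z.im ∈ Ioo c d} ∈ 𝓝 z := by
      refine IsOpen.mem_nhds ?_ ⟨⟨ha, hb⟩, ⟨hc, hd⟩⟩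
      exact (isOpen_Ioo.preimage continuous_re).inter (isOpen_Ioo.preimage continuous_im)
    exact mem_of_superset h1 (fun w hw => ⟨Ioo_subset_Icc_self hw.1, Ioo_subset_Icc_self hw.2⟩)
  have hne : ∀ ζ ∈ frame a b c d, ζ - z ≠ 0 := by
    rintro ζ ⟨h1, h2, h3⟩ h0
    have h4 : ζ = z := sub_eq_zero.1 h0
    subst h4
    rcases h3 with h | h | h | h <;> linarith
  have hds : DifferentiableOn ℂ (dslope g z) {z | z.re ∈ Icc a b ∧ z.im ∈ Icc c d} :=
    (differentiableOn_dslope hnhds).2 hg
  have h1 : bdry a b c d (fun ζ => g ζ / (ζ - z)) =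
      bdry a b c d (fun ζ => dslope g z ζ + g z * (1 / (ζ - z))) := by
    refine bdry_congr hab hcd (fun ζ hζ => ?_)
    have hζz : ζ ≠ z := sub_ne_zero.1 (hne ζ hζ)
    rw [dslope_of_ne _ hζz, slope_def_field]
    have := hne ζ hζ
    field_simp
    ring
  rw [h1, bdry_add hab hcd, bdry_eq_zero hab hcd hds, bdry_const_mul, bdry_inv ha hb hc hd, zero_add]
  · ring
  · exact hds.continuousOn.mono (fun ζ hζ => ⟨hζ.1, hζ.2.1⟩)
  · refine ContinuousOn.mul continuousOn_const ?_
    exact ContinuousOn.div continuousOn_const (by fun_prop) hne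

/-- The Cauchy integral vanishes outside. -/
theorem bdry_cauchy_outside {a b c d : ℝ} (hab : a ≤ b) (hcd : c ≤ d) {g : ℂ → ℂ} {z : ℂ}
    (hz : ¬ (z.re ∈ Icc a b ∧ z.im ∈ Icc c d))
    (hg : DifferentiableOn ℂ g {z | z.re ∈ Icc a b ∧ z.im ∈ Icc c d}) :
    bdry a b c d (fun ζ => g ζ / (ζ - z)) = 0 := by
  refine bdry_eq_zero hab hcd (hg.div (by fun_prop) (fun ζ hζ h0 => hz ?_))
  rw [← sub_eq_zero.1 h0]
  exact hζ

end Groth.Agent.Gaga.H294.Rect
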