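import Groth.Agent.Gaga.H294.Scv
import Groth.Agent.Gaga.H294.Rect
import Groth.Agent.Gaga.H294.Intervals

/-!
# Cousin splitting for products of compact subsets of the plane

`K : ι → Set ℂ` compact sets, `j : ι`. A function `f` holomorphic near the part of `∏ K i` where `Im z_j = c`
(resp. `Re z_j = c`) is the difference of a function holomorphic near the part where `Im z_j ≤ c` and one holomorphic
near the part where `Im z_j ≥ c`: `cousin_im`, `cousin_re`.
-/

set_option autoImplicit false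
set_option linter.unusedSectionVars false

open MeasureTheory Set Filter Topology Complex Function

namespace Groth.Agent.Gaga.H294.Cousin

open Groth.Agent.Gaga.H294.Rect Groth.Agent.Gaga.H294.Scv Groth.Agent.Gaga.H294.Intervals

variable {ι : Type*} [Fintype ι] [DecidableEq ι]

theorem differentiable_update_left (j : ι) (c : ℂ) : Differentiable ℂ (fun x : ι → ℂ => update x j c) := by
  rw [differentiable_pi]
  intro i
  by_cases h : i = j
  · subst h
    simp only [update_self]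
    exact differentiable_const _
  · simp only [update_of_ne h]
    exact differentiable_apply i

omit [Fintype ι] in
theorem continuous_update₂ (j : ι) : Continuous (fun p : ℂ × (ι → ℂ) => update p.2 j p.1) :=
  continuous_snd.update j continuous_fst

omit [Fintype ι] in
theorem continuous_coord (j : ι) : Continuous (fun x : ι → ℂ => x j) := continuous_apply j

theorem differentiable_update_right (x : ι → ℂ) (j : ι) : Differentiable ℂ (fun z : ℂ => update x j z) := by
  rw [differentiable_pi]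
  intro i
  by_cases h : i = j
  · subst h
    simp only [update_self]
    exact differentiable_id
  · simp only [update_of_ne h]
    exact differentiable_const _

/-- Integrals of `f(x with x_j = γ t) / (γ t - x_j)` are holomorphic in `x`. -/
theorem differentiableOn_side {D W : Set (ι → ℂ)} (hW : IsOpen W) {f : (ι → ℂ) → ℂ}
    (hf : DifferentiableOn ℂ f D) (j : ι) {γ : ℝ → ℂ} (hγ : Continuous γ) {a b : ℝ} (hab : a ≤ b)
    (h : ∀ x ∈ W, ∀ t ∈ Icc a b, update x j (γ t) ∈ D ∧ γ t ≠ x j) :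
    DifferentiableOn ℂ (fun x => ∫ t in a..b, f (update x j (γ t)) / (γ t - x j)) W := by
  refine differentiableOn_integral (F := fun t x => f (update x j (γ t)) / (γ t - x j)) hW hab ?_ ?_
  · refine ContinuousOn.div ?_ ?_ ?_
    · have h1 : Continuous (fun p : ℝ × (ι → ℂ) => update p.2 j (γ p.1)) :=
        (continuous_update₂ j).comp ((hγ.comp continuous_fst).prodMk continuous_snd)
      exact hf.continuousOn.comp h1.continuousOn (fun p hp => (h p.2 hp.2 p.1 hp.1).1)
    · exact ((hγ.comp continuous_fst).sub ((continuous_apply j).comp continuous_snd)).continuousOn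
    · intro p hp
      exact sub_ne_zero.2 (h p.2 hp.2 p.1 hp.1).2
  · intro t ht
    have h1 : DifferentiableOn ℂ (fun x : ι → ℂ => f (update x j (γ t))) W :=
      hf.comp (differentiable_update_left j (γ t)).differentiableOn (fun x hx => (h x hx t ht).1)
    have h2 : DifferentiableOn ℂ (fun x : ι → ℂ => γ t - x j) W :=
      ((differentiable_const _).sub (differentiable_apply j)).differentiableOn
    have h3 := h1.mul (h2.inv (fun x hx => sub_ne_zero.2 (h x hx t ht).2))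
    refine h3.congr (fun x _ => ?_)
    simp only [Pi.mul_apply, Pi.inv_apply, div_eq_mul_inv]

/-- Cousin splitting along a horizontal line. -/
theorem cousin_im (K : ι → Set ℂ) (hK : ∀ i, IsCompact (K i)) (j : ι) (c : ℝ) {W : Set (ι → ℂ)}
    (hW : IsOpen W) (hKW : ∀ x : ι → ℂ, (∀ i, x i ∈ K i) → (x j).im = c → x ∈ W)
    {f : (ι → ℂ) → ℂ} (hf : DifferentiableOn ℂ f W) :
    ∃ (W₁ W₂ : Set (ι → ℂ)) (f₁ f₂ : (ι → ℂ) → ℂ), IsOpen W₁ ∧ IsOpen W₂ ∧
      (∀ x : ι → ℂ, (∀ i, x i ∈ K i) → (x j).im ≤ c → x ∈ W₁) ∧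
      (∀ x : ι → ℂ, (∀ i, x i ∈ K i) → c ≤ (x j).im → x ∈ W₂) ∧
      DifferentiableOn ℂ f₁ W₁ ∧ DifferentiableOn ℂ f₂ W₂ ∧ W₁ ∩ W₂ ⊆ W ∧
      ∀ x ∈ W₁ ∩ W₂, f x = f₁ x - f₂ x := by
  classical
  -- the compact sets
  set A : Set ℂ := {z ∈ K j | z.im = c} with hA
  have hAc : IsCompact A := (hK j).inter_right (isClosed_eq continuous_im continuous_const)
  set P : Set (ι → ℂ) := Set.pi univ K with hP
  have hPc : IsCompact P := isCompact_univ_pi hK
  have hn : IsOpen ((fun p : ℂ × (ι → ℂ) => update p.2 j p.1) ⁻¹' W) := hW.preimage (continuous_update₂ j)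
  have hAP : A ×ˢ P ⊆ (fun p : ℂ × (ι → ℂ) => update p.2 j p.1) ⁻¹' W := by
    rintro ⟨z, x⟩ ⟨hz, hx⟩
    refine hKW _ (fun i => ?_) ?_
    · by_cases h : i = j
      · subst h
        simp only [update_self]
        exact hz.1
      · simp only [update_of_ne h]
        exact hx i (mem_univ i)
    · simp only [update_self]
      exact hz.2
  obtain ⟨A', Ω, hA'o, hΩo, hAA', hPΩ, hA'Ω⟩ := generalized_tube_lemma hAc hPc hn hAP
  have hmem : ∀ x ∈ Ω, ∀ z ∈ A', update x j z ∈ W := fun x hx z hz => hA'Ω (show (z, x) ∈ A' ×ˢ Ω from ⟨hz, hx⟩)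
  -- the intervals
  have hΛ : IsCompact (re '' A) := hAc.image continuous_re
  have hGo : IsOpen {s : ℝ | ((s : ℂ) + c * I) ∈ A'} := hA'o.preimage (by fun_prop)
  have hΛG : re '' A ⊆ {s : ℝ | ((s : ℂ) + c * I) ∈ A'} := by
    rintro _ ⟨z, hz, rfl⟩
    have : ((z.re : ℂ) + c * I) = z := by rw [← hz.2]; exact re_add_im z
    change ((z.re : ℂ) + c * I) ∈ A'
    rw [this]
    exact hAA' hz
  have hΛK : ∀ s : ℝ, s ∉ re '' A → ((s : ℂ) + c * I) ∉ K j := by
    intro s hs hsK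
    exact hs ⟨_, ⟨hsK, by simp⟩, by simp⟩
  obtain ⟨S, hS1, hS2, hS3⟩ := exists_intervals hΛ hGo hΛG
  -- the height
  have hKcl : IsClosed (K j) := (hK j).isClosed
  have hev : ∀ᶠ η : ℝ in 𝓝 0, ∀ J ∈ S, (∀ s ∈ Icc J.1 J.2, ((s : ℂ) + (c + η : ℝ) * I) ∈ A') ∧
      ((J.1 : ℂ) + (c + η : ℝ) * I) ∉ K j ∧ ((J.2 : ℂ) + (c + η : ℝ) * I) ∉ K j := by
    rw [Filter.eventually_all_finset]
    intro J hJ
    obtain ⟨h1, h2, h3, h4⟩ := hS1 J hJ
    refine Filter.Eventually.and ?_ (Filter.Eventually.and ?_ ?_)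
    · refine isCompact_Icc.eventually_forall_of_forall_eventually (fun s hs => ?_)
      have hc : Continuous (fun p : ℝ × ℝ => ((p.2 : ℂ) + (c + p.1 : ℝ) * I)) := by fun_prop
      refine hc.continuousAt.eventually (hA'o.mem_nhds ?_)
      simpa using h2 hs
    · have hc : Continuous (fun η : ℝ => ((J.1 : ℂ) + (c + η : ℝ) * I)) := by fun_prop
      refine hc.continuousAt.eventually (hKcl.isOpen_compl.mem_nhds ?_)
      simpa using hΛK _ h3
    · have hc : Continuous (fun η : ℝ => ((J.2 : ℂ) + (c + η : ℝ) * I)) := by fun_prop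
      refine hc.continuousAt.eventually (hKcl.isOpen_compl.mem_nhds ?_)
      simpa using hΛK _ h4
  obtain ⟨δ₀, hδ₀, hδ₀'⟩ := Metric.eventually_nhds_iff.1 hev
  set δ := δ₀ / 2 with hδ
  have hδpos : 0 < δ := by positivity
  have hδ' : ∀ t ∈ Icc (c - δ) (c + δ), ∀ J ∈ S, (∀ s ∈ Icc J.1 J.2, ((s : ℂ) + t * I) ∈ A') ∧
      ((J.1 : ℂ) + t * I) ∉ K j ∧ ((J.2 : ℂ) + t * I) ∉ K j := by
    intro t ht J hJ
    have h1 : dist (t - c) 0 < δ₀ := by
      rw [Real.dist_eq, sub_zero]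
      have : |t - c| ≤ δ := abs_le.2 ⟨by linarith [ht.1], by linarith [ht.2]⟩
      linarith
    have h2 := hδ₀' h1 J hJ
    rwa [add_sub_cancel] at h2
  have hcd : c - δ ≤ c + δ := by linarith
  have hrect : ∀ J ∈ S, ∀ z : ℂ, z.re ∈ Icc J.1 J.2 → z.im ∈ Icc (c - δ) (c + δ) → z ∈ A' := by
    intro J hJ z hz1 hz2
    have := (hδ' z.im hz2 J hJ).1 z.re hz1
    rwa [re_add_im] at this
  -- the parts of the contours
  set T₁ : Set ℂ := ⋃ J ∈ S, ({z : ℂ | z.re ∈ Icc J.1 J.2 ∧ z.im = c + δ} ∪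
    ({z : ℂ | z.re = J.1 ∧ z.im ∈ Icc (c - δ) (c + δ)} ∪ {z : ℂ | z.re = J.2 ∧ z.im ∈ Icc (c - δ) (c + δ)})) with hT₁
  set T₂ : Set ℂ := ⋃ J ∈ S, {z : ℂ | z.re ∈ Icc J.1 J.2 ∧ z.im = c - δ} with hT₂
  have hT₁c : IsClosed T₁ := by
    refine S.finite_toSet.isClosed_biUnion (fun J _ => IsClosed.union ?_ (IsClosed.union ?_ ?_))
    · exact (isClosed_Icc.preimage continuous_re).inter (isClosed_eq continuous_im continuous_const)
    · exact (isClosed_eq continuous_re continuous_const).inter (isClosed_Icc.preimage continuous_im)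
    · exact (isClosed_eq continuous_re continuous_const).inter (isClosed_Icc.preimage continuous_im)
  have hT₂c : IsClosed T₂ := by
    refine S.finite_toSet.isClosed_biUnion (fun J _ => ?_)
    exact (isClosed_Icc.preimage continuous_re).inter (isClosed_eq continuous_im continuous_const)
  set O : Set ℂ := ⋃ J ∈ S, {z : ℂ | z.re ∈ Ioo J.1 J.2 ∧ z.im ∈ Ioo (c - δ) (c + δ)} with hO
  have hOo : IsOpen O := isOpen_biUnion (fun J _ =>
    (isOpen_Ioo.preimage continuous_re).inter (isOpen_Ioo.preimage continuous_im))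
  obtain ⟨U₁, U₂, hU₁o, hU₂o, hAU₁, hAU₂, hU⟩ := exists_separate_mod
    (A := {z ∈ K j | z.im ≤ c}) (B := {z ∈ K j | c ≤ z.im}) (O := O)
    ((hK j).inter_right (isClosed_le continuous_im continuous_const))
    ((hK j).inter_right (isClosed_le continuous_const continuous_im)) hOo (by
      rintro z ⟨⟨hz1, hz2⟩, ⟨-, hz3⟩⟩
      have hz : z ∈ A := ⟨hz1, le_antisymm hz2 hz3⟩
      obtain ⟨J, hJ, hzJ⟩ := hS2 _ (mem_image_of_mem re hz)
      refine mem_iUnion₂.2 ⟨J, hJ, hzJ, ?_⟩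
      rw [hz.2]
      exact ⟨by linarith, by linarith⟩)
  -- the functions
  let H : ℝ × ℝ → ℝ → (ι → ℂ) → ℂ := fun J y x =>
    ∫ t : ℝ in J.1..J.2, f (update x j (t + y * I)) / ((t + y * I) - x j)
  let V : ℝ → (ι → ℂ) → ℂ := fun a x =>
    ∫ t : ℝ in (c - δ)..(c + δ), f (update x j (a + t * I)) / ((a + t * I) - x j)
  let f₁ : (ι → ℂ) → ℂ := fun x => (2 * Real.pi * I : ℂ)⁻¹ *
    ∑ J ∈ S, (-(H J (c + δ) x) + I * V J.2 x - I * V J.1 x)
  let f₂ : (ι → ℂ) → ℂ := fun x => (2 * Real.pi * I : ℂ)⁻¹ * ∑ J ∈ S, (-(H J (c - δ) x))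
  let W₁ : Set (ι → ℂ) := Ω ∩ {x | x j ∉ T₁ ∧ x j ∈ U₁}
  let W₂ : Set (ι → ℂ) := Ω ∩ {x | x j ∉ T₂ ∧ x j ∈ U₂}
  have hW₁o : IsOpen W₁ := hΩo.inter
    ((hT₁c.isOpen_compl.preimage (continuous_coord j)).inter (hU₁o.preimage (continuous_coord j)))
  have hW₂o : IsOpen W₂ := hΩo.inter
    ((hT₂c.isOpen_compl.preimage (continuous_coord j)).inter (hU₂o.preimage (continuous_coord j)))
  have hWW : ∀ x ∈ W₁ ∩ W₂, x ∈ Ω ∧ x j ∈ O := fun x hx => ⟨hx.1.1, hU ⟨hx.1.2.2, hx.2.2.2⟩⟩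
  have hOA' : ∀ z ∈ O, z ∈ A' := by
    intro z hz
    obtain ⟨J, hJ, hz1, hz2⟩ := mem_iUnion₂.1 hz
    exact hrect J hJ z (Ioo_subset_Icc_self hz1) (Ioo_subset_Icc_self hz2)
  refine ⟨W₁, W₂, f₁, f₂, hW₁o, hW₂o, ?_, ?_, ?_, ?_, ?_, ?_⟩
  · intro x hx hxc
    refine ⟨hPΩ (fun i _ => hx i), ?_, hAU₁ ⟨hx j, hxc⟩⟩
    intro hxT
    obtain ⟨J, hJ, hxJ⟩ := mem_iUnion₂.1 hxT
    rcases hxJ with ⟨-, h⟩ | ⟨h, h'⟩ | ⟨h, h'⟩
    · linarith
    · have := (hδ' _ h' J hJ).2.1
      rw [← h, re_add_im] at this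
      exact this (hx j)
    · have := (hδ' _ h' J hJ).2.2
      rw [← h, re_add_im] at this
      exact this (hx j)
  · intro x hx hxc
    refine ⟨hPΩ (fun i _ => hx i), ?_, hAU₂ ⟨hx j, hxc⟩⟩
    intro hxT
    obtain ⟨J, hJ, -, h⟩ := mem_iUnion₂.1 hxT
    linarith
  · -- `f₁` is holomorphic
    have hHd : ∀ J ∈ S, DifferentiableOn ℂ (H J (c + δ)) W₁ := by
      intro J hJ
      refine differentiableOn_side hW₁o hf j (γ := fun t : ℝ => (t : ℂ) + (c + δ : ℝ) * I)
        (by fun_prop) (hS1 J hJ).1.le (fun x hx t ht => ⟨hmem x hx.1 _ (hrect J hJ _ ?_ ?_), ?_⟩)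
      · simpa using ht
      · simp only [add_im, ofReal_im, mul_im, ofReal_re, I_im, mul_one, I_re, mul_zero, add_zero, zero_add]
        exact ⟨by linarith, le_refl _⟩
      · intro he
        refine hx.2.1 (mem_iUnion₂.2 ⟨J, hJ, Or.inl ⟨?_, ?_⟩⟩)
        · rw [← he]; simpa using ht
        · rw [← he]; simp
    have hVd1 : ∀ J ∈ S, DifferentiableOn ℂ (V J.1) W₁ := by
      intro J hJ
      refine differentiableOn_side hW₁o hf j (γ := fun t : ℝ => (J.1 : ℂ) + t * I)
        (by fun_prop) hcd (fun x hx t ht => ⟨hmem x hx.1 _ (hrect J hJ _ ?_ ?_), ?_⟩)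
      · simpa using (hS1 J hJ).1.le
      · simpa using ht
      · intro he
        refine hx.2.1 (mem_iUnion₂.2 ⟨J, hJ, Or.inr (Or.inl ⟨?_, ?_⟩)⟩)
        · rw [← he]; simp
        · rw [← he]; simpa using ht
    have hVd2 : ∀ J ∈ S, DifferentiableOn ℂ (V J.2) W₁ := by
      intro J hJ
      refine differentiableOn_side hW₁o hf j (γ := fun t : ℝ => (J.2 : ℂ) + t * I)
        (by fun_prop) hcd (fun x hx t ht => ⟨hmem x hx.1 _ (hrect J hJ _ ?_ ?_), ?_⟩)
      · simpa using (hS1 J hJ).1.le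
      · simpa using ht
      · intro he
        refine hx.2.1 (mem_iUnion₂.2 ⟨J, hJ, Or.inr (Or.inr ⟨?_, ?_⟩)⟩)
        · rw [← he]; simp
        · rw [← he]; simpa using ht
    refine DifferentiableOn.const_mul (DifferentiableOn.fun_sum fun J hJ => ?_) _
    exact ((hHd J hJ).neg.add ((hVd2 J hJ).const_mul I)).sub ((hVd1 J hJ).const_mul I)
  · -- `f₂` is holomorphic
    have hHd : ∀ J ∈ S, DifferentiableOn ℂ (H J (c - δ)) W₂ := by
      intro J hJ
      refine differentiableOn_side hW₂o hf j (γ := fun t : ℝ => (t : ℂ) + (c - δ : ℝ) * I)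
        (by fun_prop) (hS1 J hJ).1.le (fun x hx t ht => ⟨hmem x hx.1 _ (hrect J hJ _ ?_ ?_), ?_⟩)
      · simpa using ht
      · simp only [add_im, ofReal_im, mul_im, ofReal_re, I_im, mul_one, I_re, mul_zero, add_zero, zero_add]
        exact ⟨le_refl _, by linarith⟩
      · intro he
        refine hx.2.1 (mem_iUnion₂.2 ⟨J, hJ, ⟨?_, ?_⟩⟩)
        · rw [← he]; simpa using ht
        · rw [← he]; simp
    exact DifferentiableOn.const_mul (DifferentiableOn.fun_sum fun J hJ => (hHd J hJ).neg) _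
  · intro x hx
    obtain ⟨h1, h2⟩ := hWW x hx
    have := hmem x h1 _ (hOA' _ h2)
    rwa [update_eq_self] at this
  · intro x hx
    obtain ⟨hxΩ, hxO⟩ := hWW x hx
    have hsum : f₁ x - f₂ x = (2 * Real.pi * I : ℂ)⁻¹ *
        ∑ J ∈ S, bdry J.1 J.2 (c - δ) (c + δ) (fun ζ => f (update x j ζ) / (ζ - x j)) := by
      simp only [f₁, f₂]
      rw [← mul_sub, ← Finset.sum_sub_distrib]
      congr 1
      refine Finset.sum_congr rfl (fun J _ => ?_)
      simp only [H, V, bdry]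
      ring
    have hgd : ∀ J ∈ S, DifferentiableOn ℂ (fun ζ => f (update x j ζ))
        {z | z.re ∈ Icc J.1 J.2 ∧ z.im ∈ Icc (c - δ) (c + δ)} := by
      intro J hJ
      exact hf.comp (differentiable_update_right x j).differentiableOn
        (fun z hz => hmem x hxΩ z (hrect J hJ z hz.1 hz.2))
    obtain ⟨J₀, hJ₀, hz1, hz2⟩ := mem_iUnion₂.1 hxO
    rw [hsum, Finset.sum_eq_single J₀]
    · rw [bdry_cauchy (g := fun ζ => f (update x j ζ)) hz1.1 hz1.2 hz2.1 hz2.2 (hgd J₀ hJ₀), update_eq_self,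
        ← mul_assoc, inv_mul_cancel₀ two_pi_I_ne_zero, one_mul]
    · intro J hJ hne
      refine bdry_cauchy_outside (hS1 J hJ).1.le hcd (fun h => ?_) (hgd J hJ)
      exact Set.disjoint_left.1 (hS3 J hJ J₀ hJ₀ hne) h.1 (Ioo_subset_Icc_self hz1)
    · intro h
      exact absurd hJ₀ h

/-- Cousin splitting along a vertical line. -/
theorem cousin_re (K : ι → Set ℂ) (hK : ∀ i, IsCompact (K i)) (j : ι) (c : ℝ) {W : Set (ι → ℂ)}
    (hW : IsOpen W) (hKW : ∀ x : ι → ℂ, (∀ i, x i ∈ K i) → (x j).re = c → x ∈ W)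
    {f : (ι → ℂ) → ℂ} (hf : DifferentiableOn ℂ f W) :
    ∃ (W₁ W₂ : Set (ι → ℂ)) (f₁ f₂ : (ι → ℂ) → ℂ), IsOpen W₁ ∧ IsOpen W₂ ∧
      (∀ x : ι → ℂ, (∀ i, x i ∈ K i) → (x j).re ≤ c → x ∈ W₁) ∧
      (∀ x : ι → ℂ, (∀ i, x i ∈ K i) → c ≤ (x j).re → x ∈ W₂) ∧
      DifferentiableOn ℂ f₁ W₁ ∧ DifferentiableOn ℂ f₂ W₂ ∧ W₁ ∩ W₂ ⊆ W ∧
      ∀ x ∈ W₁ ∩ W₂, f x = f₁ x - f₂ x := by
  classical
  -- multiplication by `I`, resp. `-I`, on the `j`-th coordinate
  let L : ℂ → (ι → ℂ) → (ι → ℂ) := fun a x => update x j (a * x j)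
  have hL : ∀ a, Differentiable ℂ (L a) := by
    intro a
    rw [differentiable_pi]
    intro i
    by_cases h : i = j
    · subst h
      simp only [L, update_self]
      exact (differentiable_apply (𝕜 := ℂ) i).const_mul a
    · simp only [L, update_of_ne h]
      exact differentiable_apply i
  have hLL : ∀ a b : ℂ, a * b = 1 → ∀ x, L a (L b x) = x := by
    intro a b hab x
    funext i
    by_cases h : i = j
    · subst h
      simp only [L, update_self]
      rw [← mul_assoc, hab, one_mul]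
    · simp only [L, update_of_ne h]
  have hIn : I * (-I) = 1 := by simp
  have hnI : (-I) * I = 1 := by simp
  let K' : ι → Set ℂ := update K j ((fun z => I * z) '' K j)
  have hK' : ∀ i, IsCompact (K' i) := by
    intro i
    by_cases h : i = j
    · subst h
      simp only [K', update_self]
      exact (hK i).image (by fun_prop)
    · simp only [K', update_of_ne h]
      exact hK i
  have hmemK : ∀ x : ι → ℂ, (∀ i, x i ∈ K i) → ∀ i, L I x i ∈ K' i := by
    intro x hx i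
    by_cases h : i = j
    · subst h
      simp only [K', L, update_self]
      exact ⟨x i, hx i, rfl⟩
    · simp only [K', L, update_of_ne h]
      exact hx i
  have hmemK' : ∀ x : ι → ℂ, (∀ i, x i ∈ K' i) → ∀ i, L (-I) x i ∈ K i := by
    intro x hx i
    by_cases h : i = j
    · subst h
      have := hx i
      simp only [K', update_self] at this
      obtain ⟨z, hz, hzx⟩ := this
      simp only [L, update_self]
      rw [← hzx, ← mul_assoc, hnI, one_mul]
      exact hz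
    · have := hx i
      simp only [K', update_of_ne h] at this
      simp only [L, update_of_ne h]
      exact this
  have him : ∀ x : ι → ℂ, (L I x j).im = (x j).re := by
    intro x
    simp [L]
  have hre : ∀ x : ι → ℂ, (L (-I) x j).re = (x j).im := by
    intro x
    simp [L]
  obtain ⟨W₁, W₂, f₁, f₂, h1, h2, h3, h4, h5, h6, h7, h8⟩ := cousin_im K' hK' j c
    (W := L (-I) ⁻¹' W) (hW.preimage (hL _).continuous)
    (fun x hx hxc => hKW _ (hmemK' x hx) (by rw [hre]; exact hxc))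
    (f := fun x => f (L (-I) x)) (hf.comp (hL _).differentiableOn (fun x hx => hx))
  refine ⟨L I ⁻¹' W₁, L I ⁻¹' W₂, fun x => f₁ (L I x), fun x => f₂ (L I x),
    h1.preimage (hL _).continuous, h2.preimage (hL _).continuous, ?_, ?_, ?_, ?_, ?_, ?_⟩
  · intro x hx hxc
    exact h3 _ (hmemK x hx) (by rw [him]; exact hxc)
  · intro x hx hxc
    exact h4 _ (hmemK x hx) (by rw [him]; exact hxc)
  · exact h5.comp (hL _).differentiableOn (fun x hx => hx)
  · exact h6.comp (hL _).differentiableOn (fun x hx => hx)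
  · intro x hx
    have := h7 ⟨hx.1, hx.2⟩
    change L (-I) (L I x) ∈ W at this
    rwa [hLL _ _ hnI] at this
  · intro x hx
    have := h8 (L I x) ⟨hx.1, hx.2⟩
    simp only [hLL _ _ hnI] at this
    exact this

end Groth.Agent.Gaga.H294.Cousin
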