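import Groth.Agent.Gaga.H986.Pull

/-!
# A criterion for `f^* M ⟶ P` to be an isomorphism

Setting of `H986.Pull` : `L` left adjoint to the direct image of modules along a morphism of ringed spaces.
`bijective_stMap_lft` : if near `f y` the module `M` is generated by finitely many sections `s i` whose images form a
basis of `P` near `y`, then the morphism `L M ⟶ P` adjoint to `g : M ⟶ push P` is bijective on stalks at `y`.
`isIso_lft` : the global version; `isIso_analytify_adj` : the version for analytification.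
-/

set_option autoImplicit false

open CategoryTheory TopologicalSpace Opposite AlgebraicGeometry

noncomputable section

namespace Groth.Agent.Gaga.H294.GenIso

open Groth.Agent.Gaga.H975.ModSec Groth.Agent.Gaga.H986.Stalk Groth.Agent.Gaga.H986.Sky
  Groth.Agent.Gaga.H986.Pull

variable {T T1 : TopCat.{0}} {f : T1 ⟶ T} {R : TopCat.Sheaf CommRingCat.{0} T} {R1 : TopCat.Sheaf CommRingCat.{0} T1}
  [(Opens.map f).IsContinuous (Opens.grothendieckTopology T) (Opens.grothendieckTopology T1)]
  {φ : ringSheaf R ⟶ ((Opens.map f).sheafPushforwardContinuous RingCat.{0}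
    (Opens.grothendieckTopology T) (Opens.grothendieckTopology T1)).obj (ringSheaf R1)}
  {L : Mod R ⥤ Mod R1} (adj : L ⊣ push φ)

/-- `s i`, `i : Fin n`, generate the germs of `M` at `x`. -/
def Gens (M : Mod R) (x : T) {n : ℕ} {U : Opens T} (s : Fin n → Sec M U) : Prop :=
  ∀ (V : Opens T), x ∈ V → ∀ m : Sec M V, ∃ (W : Opens T) (hWV : W ≤ V) (hWU : W ≤ U), x ∈ W ∧
    ∃ a : Fin n → O R W, res M hWV m = ∑ i, a i • res M hWU (s i)

/-- The germs of `s i`, `i : Fin n`, are linearly independent at `x`. -/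
def Indep (M : Mod R) (x : T) {n : ℕ} {U : Opens T} (s : Fin n → Sec M U) : Prop :=
  ∀ (V : Opens T) (hVU : V ≤ U), x ∈ V → ∀ a : Fin n → O R V, ∑ i, a i • res M hVU (s i) = 0 →
    ∃ (W : Opens T) (hWV : W ≤ V), x ∈ W ∧ ∀ i, resO hWV (a i) = 0

theorem Gens.exists_germ {M : Mod R} {x : T} {n : ℕ} {U : Opens T} {s : Fin n → Sec M U} (hU : x ∈ U)
    (h : Gens M x s) (t : St M x) : ∃ c : Fin n → StO R x, t = ∑ i, c i • gm M x U hU (s i) := by
  obtain ⟨V, hV, m, rfl⟩ := exists_gm M x t
  obtain ⟨W, hWV, hWU, hxW, a, ha⟩ := h V hV m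
  refine ⟨fun i => gmO R x W hxW (a i), ?_⟩
  rw [← gm_res M x hWV hxW, ha, map_sum]
  refine Finset.sum_congr rfl fun i _ => ?_
  rw [gm_smul, gm_res]

theorem Indep.eq_zero {M : Mod R} {x : T} {n : ℕ} {U : Opens T} {s : Fin n → Sec M U} (hU : x ∈ U)
    (h : Indep M x s) (c : Fin n → StO R x) (hc : ∑ i, c i • gm M x U hU (s i) = 0) : ∀ i, c i = 0 := by
  obtain ⟨V, hV, a, ha⟩ := exists_gmO_fin (R := R) x c
  have hx : x ∈ V ⊓ U := ⟨hV, hU⟩
  have h1 : gm M x (V ⊓ U) hx (∑ i, resO (inf_le_left : V ⊓ U ≤ V) (a i) •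
      res M (inf_le_right : V ⊓ U ≤ U) (s i)) = 0 := by
    rw [map_sum, ← hc]
    refine Finset.sum_congr rfl fun i _ => ?_
    rw [gm_smul, gm_res, gmO_resO, ha]
  obtain ⟨W, hxW, hW, e⟩ := exists_res_eq_zero M hx h1
  rw [map_sum] at e
  have e2 : ∑ i, resO (hW.trans inf_le_left) (a i) • res M (hW.trans inf_le_right) (s i) = 0 := by
    rw [← e]
    refine Finset.sum_congr rfl fun i _ => ?_
    rw [res_smul, resO_resO, res_res]
  obtain ⟨W', hW'W, hxW', h0⟩ := h W (hW.trans inf_le_right) hxW _ e2
  intro i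
  have h2 := congrArg (gmO R x W' hxW') (h0 i)
  rw [map_zero, resO_resO, gmO_resO, ha] at h2
  exact h2

variable {M : Mod R} {P : Mod R1} (g : M ⟶ (push φ).obj P)

theorem stMap_lft_can (y : T1) {V : Opens T} (hV : f y ∈ V) (m : Sec M V) :
    stMap (lft adj g) y (can adj M y (gm M (f y) V hV m)) =
      gm P y (pre f V) hV (ofPush φ (app g V m)) := by
  rw [can_gm, stMap_gm, app_lft_us]

theorem bijective_stMap_lft (y : T1) {n : ℕ} {U : Opens T} (hU : f y ∈ U) (s : Fin n → Sec M U)
    (hM : Gens M (f y) s) (hP : Gens P y (fun i => ofPush φ (app g U (s i))))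
    (hP' : Indep P y (fun i => ofPush φ (app g U (s i)))) : Function.Bijective (stMap (lft adj g) y) := by
  have hU' : y ∈ pre f U := hU
  have key : ∀ i, stMap (lft adj g) y (can adj M y (gm M (f y) U hU (s i))) =
      gm P y (pre f U) hU' (ofPush φ (app g U (s i))) := fun i => stMap_lft_can adj g y hU (s i)
  refine ⟨?_, fun p => ?_⟩
  · rw [injective_iff_map_eq_zero]
    intro t ht
    have hspan : t ∈ Submodule.span (StO R1 y) (Set.range fun i => can adj M y (gm M (f y) U hU (s i))) := by
      have h1 : Set.range (can adj M y) ⊆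
          Submodule.span (StO R1 y) (Set.range fun i => can adj M y (gm M (f y) U hU (s i))) := by
        rintro _ ⟨m, rfl⟩
        obtain ⟨c, rfl⟩ := hM.exists_germ hU m
        rw [map_sum]
        refine Submodule.sum_mem _ fun i _ => ?_
        rw [can_smul]
        exact Submodule.smul_mem _ _ (Submodule.subset_span ⟨i, rfl⟩)
      have h2 := Submodule.span_le.2 h1
      rw [span_range_can] at h2
      exact h2 trivial
    rw [Submodule.mem_span_range_iff_exists_fun] at hspan
    obtain ⟨c, rfl⟩ := hspan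
    rw [map_sum] at ht
    simp only [map_smul, key] at ht
    have h0 := hP'.eq_zero hU' c ht
    exact Finset.sum_eq_zero fun i _ => by rw [h0 i, zero_smul]
  · obtain ⟨c, rfl⟩ := hP.exists_germ hU' p
    refine ⟨∑ i, c i • can adj M y (gm M (f y) U hU (s i)), ?_⟩
    rw [map_sum]
    exact Finset.sum_congr rfl fun i _ => by rw [map_smul, key]

/-- The criterion: near every point of the source there are finitely many generators of `M` mapping to a basis
of `P`. -/
theorem isIso_lft (h : ∀ y : T1, ∃ (n : ℕ) (U : Opens T) (_ : f y ∈ U) (s : Fin n → Sec M U),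
    Gens M (f y) s ∧ Gens P y (fun i => ofPush φ (app g U (s i))) ∧
      Indep P y (fun i => ofPush φ (app g U (s i)))) : IsIso (lft adj g) := by
  rw [isIso_iff_stMap]
  intro y
  obtain ⟨n, U, hU, s, h1, h2, h3⟩ := h y
  exact bijective_stMap_lft adj g y hU s h1 h2 h3

/-- The criterion for analytification. -/
theorem isIso_analytify_adj {X : AlgebraicGeometry.Scheme.{0}} [X.Over An.SC] {M : X.Modules} {N : An.AnMod X}
    (g : M ⟶ (An.anPush X).obj N)
    (h : ∀ x : An.Pts X, ∃ (n : ℕ) (U : X.Opens) (_ : x.pt ∈ U)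
      (s : Fin n → Sec (R := X.sheaf) M U),
      Gens (R := X.sheaf) M x.pt s ∧
      Gens (R := An.hol X) N x (fun i => ofPush (An.anRingHom X) (app (R := X.sheaf) g U (s i))) ∧
      Indep (R := An.hol X) N x (fun i => ofPush (An.anRingHom X) (app (R := X.sheaf) g U (s i)))) :
    IsIso (((An.analytifyAdj X).homEquiv M N).symm g) :=
  isIso_lft (R := X.sheaf) (R1 := An.hol X) (φ := An.anRingHom X) (L := An.analytify X) (An.analytifyAdj X) g h

section baseChange

variable {X Y : AlgebraicGeometry.Scheme.{0}} [X.Over An.SC] [Y.Over An.SC] (f : X ⟶ Y) [f.IsOver An.SC]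

/-- The complex points over an open subset of the target. -/
abbrev preA (W : Opens (An.top Y)) : Opens (An.top X) := (An.mapF f).obj W

/-- Holomorphic functions pulled back along `f^an`. -/
def cmA (W : Opens (An.top Y)) : O (An.hol Y) W →+* O (An.hol X) (preA f W) :=
  ((An.anMapRingHom f).hom.app (op W)).hom

/-- Sections of `f^an_* N`. -/
def toPushA {N : An.AnMod X} {W : Opens (An.top Y)} :
    Sec (R := An.hol X) N (preA f W) →+ Sec (R := An.hol Y) ((An.anPushMap f).obj N) W where
  toFun s := s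
  map_zero' := rfl
  map_add' _ _ := rfl

theorem smul_toPushA {N : An.AnMod X} {W : Opens (An.top Y)} (a : O (An.hol Y) W)
    (s : Sec (R := An.hol X) N (preA f W)) : a • toPushA f s = toPushA f (cmA f W a • s) := rfl

theorem res_toPushA {N : An.AnMod X} {V W : Opens (An.top Y)} (h : V ≤ W)
    (s : Sec (R := An.hol X) N (preA f W)) :
    res (R := An.hol Y) ((An.anPushMap f).obj N) h (toPushA f s) =
      toPushA f (res (R := An.hol X) N (fun _ hx => h hx) s) := rfl

/-- Sections of `f_* M`. -/
def toPushM {M : X.Modules} {U : Y.Opens} (s : Sec (R := X.sheaf) M (f ⁻¹ᵁ U)) :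
    Sec (R := Y.sheaf) ((An.pushMod f).obj M) U := s

/-- The analytification of a section of `M`. -/
def anS {M : X.Modules} {U : X.Opens} (s : Sec (R := X.sheaf) M U) :
    Sec (R := An.hol X) ((An.analytify X).obj M) ((An.baseF X).obj U) :=
  ofPush (An.anRingHom X) (app (R := X.sheaf) ((An.analytifyAdj X).unit.app M) U s)

/-- The criterion for base change maps. -/
theorem isIso_anBaseChange (M : X.Modules)
    (h : ∀ y : An.Pts Y, ∃ (n : ℕ) (U : Y.Opens) (_ : y.pt ∈ U)
      (s : Fin n → Sec (R := X.sheaf) M (f ⁻¹ᵁ U)),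
      Gens (R := Y.sheaf) ((An.pushMod f).obj M) y.pt (fun i => toPushM f (s i)) ∧
      Gens (R := An.hol Y) ((An.anPushMap f).obj ((An.analytify X).obj M)) y (U := (An.baseF Y).obj U)
        (fun i => toPushA f (anS (s i))) ∧
      Indep (R := An.hol Y) ((An.anPushMap f).obj ((An.analytify X).obj M)) y (U := (An.baseF Y).obj U)
        (fun i => toPushA f (anS (s i)))) :
    IsIso (An.anBaseChange f M) := by
  refine isIso_analytify_adj (X := Y) (M := (An.pushMod f).obj M)
    (N := (An.anPushMap f).obj ((An.analytify X).obj M))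
    ((An.pushMod f).map ((An.analytifyAdj X).unit.app M) ≫ (An.pushCompIso f).hom.app ((An.analytify X).obj M))
    fun y => ?_
  obtain ⟨n, U, hU, s, h1, h2, h3⟩ := h y
  exact ⟨n, U, hU, fun i => toPushM f (s i), h1, h2, h3⟩

end baseChange

end Groth.Agent.Gaga.H294.GenIso
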