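import Mathlib.Analysis.Complex.CauchyIntegral
import Mathlib.Analysis.Complex.Liouville
import Mathlib.Analysis.Calculus.ParametricIntervalIntegral
import Mathlib.Analysis.Calculus.FDeriv.Pi
import Mathlib.Analysis.Normed.Module.FiniteDimension
import Mathlib.MeasureTheory.Integral.DominatedConvergence

/-!
# Holomorphic functions of several complex variables: continuity of the derivative, parametric integrals

`E` a finite dimensional complex normed space, `W ⊆ E` open.
* `continuousOn_fderiv_param`: if `F : T → E → ℂ` is continuous on `T × W` and holomorphic in `x ∈ W`, then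
  `(t, x) ↦ fderiv ℂ (F t) x` is continuous on `T × W`;
* `differentiableOn_integral`: then `x ↦ ∫ t in a..b, F t x` is holomorphic on `W`.
-/

set_option autoImplicit false

open MeasureTheory Set Filter Topology Complex Metric

namespace Groth.Agent.Gaga.H294.Scv

variable {T : Type*} [TopologicalSpace T] {E : Type*} [NormedAddCommGroup E] [NormedSpace ℂ E]

/-- The Cauchy formula for directional derivatives. -/
theorem fderiv_apply_eq_circleIntegral {f : E → ℂ} {W : Set E} (hW : IsOpen W)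
    (hf : DifferentiableOn ℂ f W) {x v : E} {r : ℝ} (hr : 0 < r)
    (h : ∀ ζ : ℂ, ‖ζ‖ ≤ r → x + ζ • v ∈ W) :
    fderiv ℂ f x v = (2 * Real.pi * I : ℂ)⁻¹ • ∮ z in C(0, r), (1 / (z - 0) ^ 2) • f (x + z • v) := by
  have hx : x ∈ W := by simpa using h 0 (by simpa using hr.le)
  have hl : ∀ z : ℂ, HasDerivAt (fun z : ℂ => x + z • v) v z := by
    intro z
    have := ((hasDerivAt_id z).smul_const v).const_add x
    simpa using this
  have hd : DifferentiableOn ℂ (fun z : ℂ => f (x + z • v)) (closedBall 0 r) := by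
    intro z hz
    have hz' : x + z • v ∈ W := h z (by simpa using hz)
    have h1 : DifferentiableAt ℂ f (x + z • v) := (hf _ hz').differentiableAt (hW.mem_nhds hz')
    exact (h1.comp z (hl z).differentiableAt).differentiableWithinAt
  have h3 := hd.deriv_eq_smul_circleIntegral hr
  have h2pi : (2 * Real.pi * I : ℂ) ≠ 0 := two_pi_I_ne_zero
  have h3' : deriv (fun z : ℂ => f (x + z • v)) 0 =
      (2 * Real.pi * I : ℂ)⁻¹ • ∮ z in C(0, r), (1 / (z - 0) ^ 2) • f (x + z • v) := by
    rw [h3, smul_smul, inv_mul_cancel₀ h2pi, one_smul]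
  rw [← h3']
  have h4 : DifferentiableAt ℂ f (x + (0 : ℂ) • v) := by
    have : x + (0 : ℂ) • v ∈ W := by simpa using hx
    exact (hf _ this).differentiableAt (hW.mem_nhds this)
  have h5 := h4.hasFDerivAt.comp_hasDerivAt (0 : ℂ) (hl 0)
  have h6 : deriv (fun z : ℂ => f (x + z • v)) 0 = fderiv ℂ f (x + (0 : ℂ) • v) v := h5.deriv
  rw [h6]
  simp

/-- Joint continuity of the derivative of a holomorphic family. -/
theorem continuousOn_fderiv_param [FiniteDimensional ℂ E] {F : T → E → ℂ} {W : Set E} (hW : IsOpen W)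
    (hc : ContinuousOn (fun p : T × E => F p.1 p.2) (univ ×ˢ W))
    (hf : ∀ t, DifferentiableOn ℂ (F t) W) :
    ContinuousOn (fun p : T × E => fderiv ℂ (F p.1) p.2) (univ ×ˢ W) := by
  rw [continuousOn_clm_apply]
  intro v
  rintro ⟨t₀, x₀⟩ ⟨-, hx₀⟩
  obtain ⟨r₀, hr₀, hball⟩ := Metric.isOpen_iff.1 hW x₀ hx₀
  -- choose `r` with `r * ‖v‖ < r₀ / 2`
  obtain ⟨r, hr, hrv⟩ : ∃ r : ℝ, 0 < r ∧ r * ‖v‖ < r₀ / 2 := by
    refine ⟨r₀ / (2 * (‖v‖ + 1)), by positivity, ?_⟩
    have h1 : 0 < ‖v‖ + 1 := by positivity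
    have h2 : r₀ / (2 * (‖v‖ + 1)) * ‖v‖ = (r₀ / 2) * (‖v‖ / (‖v‖ + 1)) := by field_simp
    rw [h2]
    have h3 : ‖v‖ / (‖v‖ + 1) < 1 := by rw [div_lt_one h1]; linarith
    nlinarith
  have hmem : ∀ x ∈ ball x₀ (r₀ / 2), ∀ ζ : ℂ, ‖ζ‖ ≤ r → x + ζ • v ∈ W := by
    intro x hx ζ hζ
    apply hball
    rw [mem_ball, dist_eq_norm] at hx ⊢
    have : x + ζ • v - x₀ = (x - x₀) + ζ • v := by abel
    rw [this]
    calc ‖(x - x₀) + ζ • v‖ ≤ ‖x - x₀‖ + ‖ζ • v‖ := norm_add_le _ _
      _ < r₀ / 2 + r₀ / 2 := by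
        refine add_lt_add_of_lt_of_le hx ?_
        rw [norm_smul]
        exact (mul_le_mul_of_nonneg_right hζ (norm_nonneg _)).trans hrv.le
      _ = r₀ := by ring
  -- on `univ ×ˢ ball x₀ (r₀/2)` we have the integral formula
  have key : ContinuousOn (fun p : T × E => fderiv ℂ (F p.1) p.2 v) (univ ×ˢ ball x₀ (r₀ / 2)) := by
    have h0 : ContinuousOn (fun p : T × E =>
        ∮ z in C(0, r), (1 / (z - 0) ^ 2) • F p.1 (p.2 + z • v)) (univ ×ˢ ball x₀ (r₀ / 2)) := by
      rw [continuousOn_iff_continuous_domRestrict]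
      unfold circleIntegral
      have h2 : Continuous (fun q : (↥(univ ×ˢ ball x₀ (r₀ / 2) : Set (T × E))) × ℝ =>
          deriv (circleMap 0 r) q.2 • (1 / (circleMap 0 r q.2 - 0) ^ 2) •
            F q.1.1.1 (q.1.1.2 + circleMap 0 r q.2 • v)) := by
        have h3 : Continuous (fun q : (↥(univ ×ˢ ball x₀ (r₀ / 2) : Set (T × E))) × ℝ =>
            F q.1.1.1 (q.1.1.2 + circleMap 0 r q.2 • v)) := by
          have h4 : Continuous (fun q : (↥(univ ×ˢ ball x₀ (r₀ / 2) : Set (T × E))) × ℝ =>
              ((q.1.1.1, q.1.1.2 + circleMap 0 r q.2 • v) : T × E)) := by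
            have := (continuous_circleMap (0 : ℂ) r)
            fun_prop
          refine hc.comp_continuous h4 ?_
          rintro ⟨⟨⟨t, x⟩, ⟨-, hx⟩⟩, θ⟩
          refine ⟨mem_univ _, hmem x hx _ ?_⟩
          simp [abs_of_pos hr]
        have h5 : Continuous (fun θ : ℝ => deriv (circleMap 0 r) θ) := by
          have : (fun θ : ℝ => deriv (circleMap 0 r) θ) = fun θ => circleMap 0 r θ * I := by
            funext θ; simp
          rw [this]
          exact (continuous_circleMap 0 r).mul continuous_const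
        have h6 : Continuous (fun θ : ℝ => (1 / (circleMap 0 r θ - 0) ^ 2)) := by
          refine continuous_const.div (((continuous_circleMap 0 r).sub continuous_const).pow 2) (fun θ => ?_)
          simp [hr.ne']
        exact (h5.comp continuous_snd).smul ((h6.comp continuous_snd).smul h3)
      exact intervalIntegral.continuous_parametric_intervalIntegral_of_continuous' h2 _ _
    have h1 : ContinuousOn (fun p : T × E => (2 * Real.pi * I : ℂ)⁻¹ •
        ∮ z in C(0, r), (1 / (z - 0) ^ 2) • F p.1 (p.2 + z • v)) (univ ×ˢ ball x₀ (r₀ / 2)) := by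
      simp only [smul_eq_mul] at h0 ⊢
      exact continuousOn_const.mul h0
    refine h1.congr ?_
    rintro ⟨t, x⟩ ⟨-, hx⟩
    exact fderiv_apply_eq_circleIntegral hW (hf t) hr (hmem x hx)
  have hnhds : (univ ×ˢ ball x₀ (r₀ / 2) : Set (T × E)) ∈ 𝓝 (t₀, x₀) :=
    (isOpen_univ.prod isOpen_ball).mem_nhds ⟨mem_univ _, mem_ball_self (by positivity)⟩
  exact (key.continuousAt hnhds).continuousWithinAt

/-- The derivative of a holomorphic function is continuous. -/
theorem continuousOn_fderiv [FiniteDimensional ℂ E] {f : E → ℂ} {W : Set E} (hW : IsOpen W)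
    (hf : DifferentiableOn ℂ f W) : ContinuousOn (fun x => fderiv ℂ f x) W := by
  have h := continuousOn_fderiv_param (T := PUnit.{1}) (F := fun _ => f) hW
    (hf.continuousOn.comp continuousOn_snd (fun p hp => hp.2)) (fun _ => hf)
  have h2 : ContinuousOn (fun x : E => ((PUnit.unit, x) : PUnit.{1} × E)) W := by fun_prop
  exact h.comp h2 (fun x hx => ⟨mem_univ _, hx⟩)

/-- Parametric integrals of a holomorphic family are holomorphic. -/
theorem differentiableOn_integral [FiniteDimensional ℂ E] {F : ℝ → E → ℂ} {W : Set E} (hW : IsOpen W)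
    {a b : ℝ} (hab : a ≤ b) (hc : ContinuousOn (fun p : ℝ × E => F p.1 p.2) (Icc a b ×ˢ W))
    (hf : ∀ t ∈ Icc a b, DifferentiableOn ℂ (F t) W) :
    DifferentiableOn ℂ (fun x => ∫ t in a..b, F t x) W := by
  -- replace `F` by its extension `F ∘ projIcc`
  set G : ℝ → E → ℂ := fun t => F (projIcc a b hab t) with hG
  have hGc : ContinuousOn (fun p : ℝ × E => G p.1 p.2) (univ ×ˢ W) := by
    have h1 : Continuous (fun p : ℝ × E => (((projIcc a b hab p.1 : Icc a b) : ℝ), p.2)) := by
      have := continuous_projIcc (a := a) (b := b) (h := hab)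
      fun_prop
    exact hc.comp h1.continuousOn (fun p hp => ⟨(projIcc a b hab p.1).2, hp.2⟩)
  have hGf : ∀ t, DifferentiableOn ℂ (G t) W := fun t => hf _ (projIcc a b hab t).2
  have heq : (fun x => ∫ t in a..b, F t x) = fun x => ∫ t in a..b, G t x := by
    funext x
    refine intervalIntegral.integral_congr (fun t ht => ?_)
    rw [uIcc_of_le hab] at ht
    simp only [hG]
    rw [projIcc_of_mem hab ht]
  rw [heq]
  intro x₀ hx₀
  have hD := continuousOn_fderiv_param hW hGc hGf
  obtain ⟨r, hr, hball⟩ := Metric.isOpen_iff.1 hW x₀ hx₀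
  have : ProperSpace E := FiniteDimensional.proper_rclike ℂ E
  have hcb : closedBall x₀ (r / 2) ⊆ W := (closedBall_subset_ball (by linarith)).trans hball
  have hcomp : IsCompact (Icc a b ×ˢ closedBall x₀ (r / 2)) := isCompact_Icc.prod (isCompact_closedBall _ _)
  obtain ⟨C, hC⟩ := hcomp.bddAbove_image (f := fun p : ℝ × E => ‖fderiv ℂ (G p.1) p.2‖)
    ((hD.mono (prod_mono (subset_univ _) hcb)).norm)
  have hGx : ∀ x ∈ W, Continuous (fun t => G t x) := by
    intro x hx
    have h1 : Continuous (fun t : ℝ => ((t, x) : ℝ × E)) := by fun_prop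
    exact hGc.comp_continuous h1 (fun t => ⟨mem_univ _, hx⟩)
  have hW' : ∀ᶠ x in 𝓝 x₀, x ∈ W := hW.mem_nhds hx₀
  have hmain := intervalIntegral.hasFDerivAt_integral_of_dominated_of_fderiv_le (𝕜 := ℂ) (μ := volume)
    (F := fun x t => G t x) (F' := fun x t => fderiv ℂ (G t) x) (x₀ := x₀) (a := a) (b := b)
    (s := closedBall x₀ (r / 2)) (bound := fun _ => C) (closedBall_mem_nhds _ (by linarith))
    (hW'.mono fun x hx => (hGx x hx).aestronglyMeasurable)
    ((hGx x₀ hx₀).intervalIntegrable _ _)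
    (by
      have h0 : Continuous (fun t : ℝ => ((t, x₀) : ℝ × E)) := by fun_prop
      have h1 : Continuous (fun t => fderiv ℂ (G t) x₀) :=
        hD.comp_continuous h0 (fun t => ⟨mem_univ _, hx₀⟩)
      exact h1.aestronglyMeasurable)
    (ae_of_all _ fun t ht x hx => by
      rw [uIoc_of_le hab] at ht
      exact hC ⟨(t, x), ⟨Ioc_subset_Icc_self ht, hx⟩, rfl⟩)
    intervalIntegrable_const
    (ae_of_all _ fun t _ x hx =>
      ((hGf t x (hcb hx)).differentiableAt (hW.mem_nhds (hcb hx))).hasFDerivAt)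
  exact hmain.differentiableAt.differentiableWithinAt

end Groth.Agent.Gaga.H294.Scv
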