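import Groth.Agent.Gaga.H294.MVNear
import Groth.Agent.Gaga.H294.Cousin

/-!
# Acyclicity of the sheaf of holomorphic functions along products of compact sets

`HolChart F σ` : a holomorphic chart for the abelian sheaf `F` on `X` : an open embedding `σ : ℂ^ι → X` such that the
sections of `F` on opens `W` of the image of `σ` are the holomorphic functions on `σ⁻¹ W`.

`dies_of_holChart` : (Theorem A) for `K = ∏ K_i`, `K_i ⊂ ℂ` compact, and `q ≥ 1`, every class in `H^q(U, F)`, `U` a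
neighbourhood of `σ(K)`, vanishes on a smaller neighbourhood of `σ(K)`.
-/

set_option autoImplicit false

open CategoryTheory TopologicalSpace Opposite Topology
open Groth.Agent.CohtopA Groth.Agent.Gaga.H294.MVNear

noncomputable section

namespace Groth.Agent.Gaga.H294.ThmA

variable {X : TopCat.{0}} {ι : Type} [Fintype ι]

/-- A holomorphic chart `σ : ℂ^ι → X` for the abelian sheaf `F`. -/
structure HolChart (F : CohTop.Ab X) (σ : (ι → ℂ) → X) where
  emb : IsOpenEmbedding σ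
  /-- the value of a section in the chart (only used for `W` in the range of `σ`, at `x ∈ σ⁻¹ W`) -/
  ev : ∀ W : Opens X, F.obj.obj (op W) → (ι → ℂ) → ℂ
  ev_sub : ∀ (W : Opens X), (W : Set X) ⊆ Set.range σ → ∀ (s t : F.obj.obj (op W)) (x : ι → ℂ), σ x ∈ W →
    ev W (s - t) x = ev W s x - ev W t x
  ev_res : ∀ (V W : Opens X), (W : Set X) ⊆ Set.range σ → ∀ (h : V ≤ W) (s : F.obj.obj (op W)) (x : ι → ℂ),
    σ x ∈ V → ev V (F.obj.map (homOfLE h).op s) x = ev W s x
  ev_diff : ∀ (W : Opens X), (W : Set X) ⊆ Set.range σ → ∀ (s : F.obj.obj (op W)),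
    DifferentiableOn ℂ (ev W s) (σ ⁻¹' (W : Set X))
  ev_inj : ∀ (W : Opens X), (W : Set X) ⊆ Set.range σ → ∀ (s t : F.obj.obj (op W)),
    (∀ x, σ x ∈ W → ev W s x = ev W t x) → s = t
  ev_surj : ∀ (W : Opens X), (W : Set X) ⊆ Set.range σ → ∀ (f : (ι → ℂ) → ℂ),
    DifferentiableOn ℂ f (σ ⁻¹' (W : Set X)) → ∃ s : F.obj.obj (op W), ∀ x, σ x ∈ W → ev W s x = f x

/-- The product of the sets `K i`. -/
def P (K : ι → Set ℂ) : Set (ι → ℂ) := {x | ∀ i, x i ∈ K i}

omit [Fintype ι] in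
theorem mem_P {K : ι → Set ℂ} {x : ι → ℂ} : x ∈ P K ↔ ∀ i, x i ∈ K i := Iff.rfl

omit [Fintype ι] in
theorem isCompact_P {K : ι → Set ℂ} (hK : ∀ i, IsCompact (K i)) : IsCompact (P K) := by
  have : P K = Set.pi Set.univ K := by
    ext x
    simp [P]
  rw [this]
  exact isCompact_univ_pi hK

/-- The real or the imaginary part. -/
def co (b : Bool) : ℂ → ℝ := if b then Complex.re else Complex.im

theorem continuous_co (b : Bool) : Continuous (co b) := by
  cases b
  · exact Complex.continuous_im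
  · exact Complex.continuous_re

open Classical in
/-- Replace `K j` by its intersection with `S`. -/
def cut (K : ι → Set ℂ) (j : ι) (S : Set ℂ) : ι → Set ℂ := fun i => if i = j then K i ∩ S else K i

omit [Fintype ι] in
theorem cut_self (K : ι → Set ℂ) (j : ι) (S : Set ℂ) : cut K j S j = K j ∩ S := if_pos rfl

omit [Fintype ι] in
theorem cut_of_ne (K : ι → Set ℂ) {i j : ι} (h : i ≠ j) (S : Set ℂ) : cut K j S i = K i := if_neg h

omit [Fintype ι] in
theorem cut_subset (K : ι → Set ℂ) (j : ι) (S : Set ℂ) (i : ι) : cut K j S i ⊆ K i := by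
  rcases eq_or_ne i j with rfl | h
  · rw [cut_self]
    exact Set.inter_subset_left
  · rw [cut_of_ne K h]

omit [Fintype ι] in
theorem isCompact_cut {K : ι → Set ℂ} (hK : ∀ i, IsCompact (K i)) (j : ι) {S : Set ℂ} (hS : IsClosed S) (i : ι) :
    IsCompact (cut K j S i) := by
  rcases eq_or_ne i j with rfl | h
  · rw [cut_self]
    exact (hK i).inter_right hS
  · rw [cut_of_ne K h]
    exact hK i

omit [Fintype ι] in
theorem mem_P_cut {K : ι → Set ℂ} {j : ι} {S : Set ℂ} {x : ι → ℂ} : x ∈ P (cut K j S) ↔ x ∈ P K ∧ x j ∈ S := by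
  constructor
  · intro h
    refine ⟨fun i => cut_subset K j S i (h i), ?_⟩
    have := h j
    rw [cut_self] at this
    exact this.2
  · rintro ⟨h, hj⟩ i
    rcases eq_or_ne i j with rfl | hij
    · rw [cut_self]
      exact ⟨h i, hj⟩
    · rw [cut_of_ne K hij]
      exact h i

/-- The additive Cousin problem in either direction. -/
theorem cousin (K : ι → Set ℂ) (hK : ∀ i, IsCompact (K i)) (j : ι) (b : Bool) (c : ℝ) {W : Set (ι → ℂ)}
    (hW : IsOpen W) (hKW : ∀ x ∈ P K, co b (x j) = c → x ∈ W) {f : (ι → ℂ) → ℂ} (hf : DifferentiableOn ℂ f W) :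
    ∃ (W₁ W₂ : Set (ι → ℂ)) (f₁ f₂ : (ι → ℂ) → ℂ), IsOpen W₁ ∧ IsOpen W₂ ∧
      (∀ x ∈ P K, co b (x j) ≤ c → x ∈ W₁) ∧ (∀ x ∈ P K, c ≤ co b (x j) → x ∈ W₂) ∧
      DifferentiableOn ℂ f₁ W₁ ∧ DifferentiableOn ℂ f₂ W₂ ∧ W₁ ∩ W₂ ⊆ W ∧
      ∀ x ∈ W₁ ∩ W₂, f x = f₁ x - f₂ x := by
  classical
  cases b
  · exact Cousin.cousin_im K hK j c hW hKW hf
  · exact Cousin.cousin_re K hK j c hW hKW hf

variable {F : CohTop.Ab X} {σ : (ι → ℂ) → X}

/-- The Cousin problem for the sections of `F`. -/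
theorem HolChart.cousin (C : HolChart F σ) (K : ι → Set ℂ) (hK : ∀ i, IsCompact (K i)) (j : ι) (b : Bool)
    (c : ℝ) (W : Opens X) (s : F.obj.obj (op W)) (hKW : ∀ x ∈ P K, co b (x j) = c → σ x ∈ W) :
    ∃ (W₁ W₂ : Opens X) (s₁ : F.obj.obj (op W₁)) (s₂ : F.obj.obj (op W₂)) (h : W₁ ⊓ W₂ ≤ W),
      (∀ x ∈ P K, co b (x j) ≤ c → σ x ∈ W₁) ∧ (∀ x ∈ P K, c ≤ co b (x j) → σ x ∈ W₂) ∧
        F.obj.map (homOfLE h).op s =
          F.obj.map (homOfLE (inf_le_left : W₁ ⊓ W₂ ≤ W₁)).op s₁ -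
            F.obj.map (homOfLE (inf_le_right : W₁ ⊓ W₂ ≤ W₂)).op s₂ := by
  let R : Opens X := ⟨Set.range σ, C.emb.isOpen_range⟩
  have hR : ((W ⊓ R : Opens X) : Set X) ⊆ Set.range σ := Set.inter_subset_right
  have hRW : W ⊓ R ≤ W := inf_le_left
  obtain ⟨V₁, V₂, f₁, f₂, hV₁, hV₂, hK₁, hK₂, hf₁, hf₂, hV, hf⟩ := ThmA.cousin K hK j b c
    ((W ⊓ R).2.preimage C.emb.continuous) (fun x hx hxc => ⟨hKW x hx hxc, ⟨x, rfl⟩⟩)
    (C.ev_diff (W ⊓ R) hR (F.obj.map (homOfLE hRW).op s))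
  let W₁ : Opens X := ⟨σ '' V₁, C.emb.isOpenMap _ hV₁⟩
  let W₂ : Opens X := ⟨σ '' V₂, C.emb.isOpenMap _ hV₂⟩
  have hR₁ : (W₁ : Set X) ⊆ Set.range σ := Set.image_subset_range _ _
  have hR₂ : (W₂ : Set X) ⊆ Set.range σ := Set.image_subset_range _ _
  have e₁ : σ ⁻¹' (W₁ : Set X) = V₁ := Set.preimage_image_eq _ C.emb.injective
  have e₂ : σ ⁻¹' (W₂ : Set X) = V₂ := Set.preimage_image_eq _ C.emb.injective
  obtain ⟨s₁, hs₁⟩ := C.ev_surj W₁ hR₁ f₁ (by rw [e₁]; exact hf₁)
  obtain ⟨s₂, hs₂⟩ := C.ev_surj W₂ hR₂ f₂ (by rw [e₂]; exact hf₂)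
  have hle' : W₁ ⊓ W₂ ≤ W ⊓ R := by
    rintro _ ⟨⟨x, hx, rfl⟩, hx₂⟩
    have hx₂' : x ∈ V₂ := by
      rw [← e₂]
      exact hx₂
    exact hV ⟨hx, hx₂'⟩
  have hle : W₁ ⊓ W₂ ≤ W := hle'.trans hRW
  refine ⟨W₁, W₂, s₁, s₂, hle, fun x hx hxc => ⟨x, hK₁ x hx hxc, rfl⟩,
    fun x hx hxc => ⟨x, hK₂ x hx hxc, rfl⟩, ?_⟩
  have hR₁₂ : ((W₁ ⊓ W₂ : Opens X) : Set X) ⊆ Set.range σ := Set.inter_subset_left.trans hR₁
  refine C.ev_inj (W₁ ⊓ W₂) hR₁₂ _ _ fun x hx => ?_
  have hx₁ : σ x ∈ W₁ := hx.1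
  have hx₂ : σ x ∈ W₂ := hx.2
  have hx₁' : x ∈ V₁ := by
    rw [← e₁]
    exact hx.1
  have hx₂' : x ∈ V₂ := by
    rw [← e₂]
    exact hx.2
  have e : F.obj.map (homOfLE hle).op s =
      F.obj.map (homOfLE hle').op (F.obj.map (homOfLE hRW).op s) := by
    rw [← ConcreteCategory.comp_apply, ← Functor.map_comp]
    rfl
  rw [C.ev_sub _ hR₁₂ _ _ _ hx, e, C.ev_res _ _ hR _ _ _ hx, C.ev_res _ _ hR₁ _ _ _ hx,
    C.ev_res _ _ hR₂ _ _ _ hx, hs₁ x hx₁, hs₂ x hx₂]
  exact hf x ⟨hx₁', hx₂'⟩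

omit [Fintype ι] in
theorem image_inter (C : HolChart F σ) (K : ι → Set ℂ) (j : ι) (b : Bool) (c : ℝ) :
    σ '' P (cut K j {z | co b z ≤ c}) ∩ σ '' P (cut K j {z | c ≤ co b z}) =
      σ '' P (cut K j {z | co b z = c}) := by
  rw [← Set.image_inter C.emb.injective]
  congr 1
  ext x
  simp only [Set.mem_inter_iff, mem_P_cut, Set.mem_ofPred_eq]
  constructor
  · rintro ⟨⟨h1, h2⟩, -, h3⟩
    exact ⟨h1, le_antisymm h2 h3⟩
  · rintro ⟨h1, h2⟩
    exact ⟨⟨h1, h2.le⟩, h1, h2.ge⟩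

omit [Fintype ι] in
theorem image_union (K : ι → Set ℂ) (j : ι) (b : Bool) (c : ℝ) :
    σ '' P (cut K j {z | co b z ≤ c}) ∪ σ '' P (cut K j {z | c ≤ co b z}) = σ '' P K := by
  rw [← Set.image_union]
  congr 1
  ext x
  simp only [Set.mem_union, mem_P_cut, Set.mem_ofPred_eq]
  constructor
  · rintro (h | h)
    · exact h.1
    · exact h.1
  · intro h
    rcases le_total (co b (x j)) c with h' | h'
    · exact Or.inl ⟨h, h'⟩
    · exact Or.inr ⟨h, h'⟩

/-- The gluing step. -/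
theorem glue_step [T2Space X] (C : HolChart F σ) {n : ℕ}
    (ih : 1 ≤ n → ∀ (K : ι → Set ℂ), (∀ i, IsCompact (K i)) → ∀ (W : Opens X) (η : CohTop.HU F n W),
      σ '' P K ⊆ (W : Set X) → Dies F (σ '' P K) η)
    {U : Opens X} (a : CohTop.HU F (n + 1) U) (K : ι → Set ℂ) (hK : ∀ i, IsCompact (K i)) (j : ι) (b : Bool)
    (c : ℝ) (h1 : Dies F (σ '' P (cut K j {z | co b z ≤ c})) a)
    (h2 : Dies F (σ '' P (cut K j {z | c ≤ co b z})) a) : Dies F (σ '' P K) a := by
  have hc1 : IsClosed {z | co b z ≤ c} := isClosed_le (continuous_co b) continuous_const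
  have hc2 : IsClosed {z | c ≤ co b z} := isClosed_le continuous_const (continuous_co b)
  have hc3 : IsClosed {z | co b z = c} := isClosed_eq (continuous_co b) continuous_const
  rw [← image_union K j b c]
  rcases Nat.eq_zero_or_pos n with rfl | hn
  · refine dies_union_one a h1 h2 fun W s hW => ?_
    rw [image_inter C] at hW
    obtain ⟨W₁, W₂, s₁, s₂, h, hW₁, hW₂, hs⟩ := C.cousin K hK j b c W s fun x hx hxc =>
      hW ⟨x, mem_P_cut.2 ⟨hx, hxc⟩, rfl⟩
    refine ⟨W₁, W₂, s₁, s₂, h, ?_, ?_, hs⟩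
    · rintro _ ⟨x, hx, rfl⟩
      rw [mem_P_cut] at hx
      exact hW₁ x hx.1 hx.2
    · rintro _ ⟨x, hx, rfl⟩
      rw [mem_P_cut] at hx
      exact hW₂ x hx.1 hx.2
  · refine dies_union_succ a ((isCompact_P (isCompact_cut hK j hc1)).image C.emb.continuous)
      ((isCompact_P (isCompact_cut hK j hc2)).image C.emb.continuous) h1 h2 fun W η hW => ?_
    rw [image_inter C] at hW ⊢
    exact ih hn _ (isCompact_cut hK j hc3) W η hW

/-- The subdivision argument. -/
theorem dies_succ [T2Space X] (C : HolChart F σ) {n : ℕ}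
    (ih : 1 ≤ n → ∀ (K : ι → Set ℂ), (∀ i, IsCompact (K i)) → ∀ (W : Opens X) (η : CohTop.HU F n W),
      σ '' P K ⊆ (W : Set X) → Dies F (σ '' P K) η)
    {U : Opens X} (a : CohTop.HU F (n + 1) U) (K₀ : ι → Set ℂ) (hK₀ : ∀ i, IsCompact (K₀ i))
    (hU : σ '' P K₀ ⊆ (U : Set X)) : Dies F (σ '' P K₀) a := by
  classical
  -- Lebesgue number
  let c : {V : Opens X // ∃ h : V ≤ U, CohTop.res F (n + 1) h a = 0} → Set (ι → ℂ) :=
    fun V => σ ⁻¹' (V.1 : Set X)
  obtain ⟨δ, hδ, hcov⟩ := lebesgue_number_lemma_of_metric (s := P K₀) (c := c) (isCompact_P hK₀)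
    (fun V => V.1.2.preimage C.emb.continuous) (fun x hx => by
      obtain ⟨V, hV, hxV, h0⟩ := dies_point (F := F) (by omega : 1 ≤ n + 1) a (σ x) (hU ⟨x, hx, rfl⟩)
      exact Set.mem_iUnion.2 ⟨⟨V, hV, h0⟩, hxV rfl⟩)
  set w : ℝ := δ / 4 with hw
  have hw0 : 0 < w := by positivity
  -- induction on the set of long directions
  have key : ∀ S : Finset (ι × Bool), ∀ K : ι → Set ℂ, (∀ i, IsCompact (K i)) → (∀ i, K i ⊆ K₀ i) →
      (∀ r : ι × Bool, r ∉ S → ∃ t : ℝ, ∀ z ∈ K r.1, t ≤ co r.2 z ∧ co r.2 z ≤ t + w) →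
      Dies F (σ '' P K) a := by
    intro S
    induction S using Finset.induction_on with
    | empty =>
      intro K hK hKK₀ hr
      rcases Set.eq_empty_or_nonempty (P K) with he | ⟨x, hx⟩
      · rw [he, Set.image_empty]
        exact dies_empty a
      · obtain ⟨⟨V, hV, h0⟩, hball⟩ := hcov x fun i => hKK₀ i (hx i)
        refine ⟨V, hV, ?_, h0⟩
        rintro _ ⟨y, hy, rfl⟩
        refine hball ?_
        rw [Metric.mem_ball, dist_pi_lt_iff hδ]
        intro i
        obtain ⟨t₁, ht₁⟩ := hr (i, true) (by simp)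
        obtain ⟨t₂, ht₂⟩ := hr (i, false) (by simp)
        have a1 := ht₁ _ (hx i)
        have a2 := ht₁ _ (hy i)
        have b1 := ht₂ _ (hx i)
        have b2 := ht₂ _ (hy i)
        simp only [co, if_true, Bool.false_eq_true, if_false] at a1 a2 b1 b2
        rw [dist_eq_norm]
        have e1 : |(y i - x i).re| ≤ w := by
          rw [Complex.sub_re, abs_le]
          constructor <;> linarith
        have e2 : |(y i - x i).im| ≤ w := by
          rw [Complex.sub_im, abs_le]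
          constructor <;> linarith
        have := Complex.norm_le_abs_re_add_abs_im (y i - x i)
        linarith
    | insert r S hrS IH =>
      intro K hK hKK₀ hr
      -- subdivide in the direction `r`
      have inner : ∀ m : ℕ, ∀ K : ι → Set ℂ, (∀ i, IsCompact (K i)) → (∀ i, K i ⊆ K₀ i) →
          (∀ r' : ι × Bool, r' ∉ insert r S → ∃ t : ℝ, ∀ z ∈ K r'.1, t ≤ co r'.2 z ∧ co r'.2 z ≤ t + w) →
          (∃ t : ℝ, ∀ z ∈ K r.1, t ≤ co r.2 z ∧ co r.2 z ≤ t + m * w) → Dies F (σ '' P K) a := by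
        intro m
        induction m with
        | zero =>
          rintro K hK hKK₀ hr ⟨t, ht⟩
          refine IH K hK hKK₀ fun r' hr' => ?_
          by_cases h : r' = r
          · subst h
            refine ⟨t, fun z hz => ⟨(ht z hz).1, ?_⟩⟩
            have := (ht z hz).2
            push_cast at this
            linarith
          · exact hr r' (by simp [h, hr'])
        | succ m ihm =>
          rintro K hK hKK₀ hr ⟨t, ht⟩
          have hc1 : IsClosed {z | co r.2 z ≤ t + m * w} := isClosed_le (continuous_co r.2) continuous_const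
          have hc2 : IsClosed {z | t + m * w ≤ co r.2 z} := isClosed_le continuous_const (continuous_co r.2)
          refine glue_step C ih a K hK r.1 r.2 (t + m * w) ?_ ?_
          · refine ihm _ (isCompact_cut hK r.1 hc1) (fun i => (cut_subset K r.1 _ i).trans (hKK₀ i))
              (fun r' hr' => ?_) ⟨t, fun z hz => ?_⟩
            · obtain ⟨t', ht'⟩ := hr r' hr'
              exact ⟨t', fun z hz => ht' z (cut_subset K r.1 _ _ hz)⟩
            · rw [cut_self] at hz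
              exact ⟨(ht z hz.1).1, hz.2⟩
          · refine IH _ (isCompact_cut hK r.1 hc2) (fun i => (cut_subset K r.1 _ i).trans (hKK₀ i))
              (fun r' hr' => ?_)
            by_cases h : r' = r
            · subst h
              refine ⟨t + m * w, fun z hz => ?_⟩
              rw [cut_self] at hz
              refine ⟨hz.2, ?_⟩
              have := (ht z hz.1).2
              push_cast at this
              linarith
            · obtain ⟨t', ht'⟩ := hr r' (by simp [h, hr'])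
              exact ⟨t', fun z hz => ht' z (cut_subset K r.1 _ _ hz)⟩
      obtain ⟨R, hR⟩ := (hK r.1).isBounded.subset_closedBall 0
      obtain ⟨m, hm⟩ := exists_nat_ge (2 * R / w)
      refine inner m K hK hKK₀ hr ⟨-R, fun z hz => ?_⟩
      have hzR : ‖z‖ ≤ R := by
        have := hR hz
        rwa [Metric.mem_closedBall, dist_zero_right] at this
      have hco : |co r.2 z| ≤ R := by
        refine le_trans ?_ hzR
        rcases r with ⟨i, b⟩
        cases b
        · exact Complex.abs_im_le_norm z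
        · exact Complex.abs_re_le_norm z
      rw [abs_le] at hco
      refine ⟨hco.1, ?_⟩
      have : 2 * R ≤ m * w := by
        rwa [div_le_iff₀ hw0] at hm
      linarith [hco.2]
  exact key Finset.univ K₀ hK₀ (fun i => subset_rfl) fun r hr => absurd (Finset.mem_univ r) hr

/-- **Theorem A.** The sheaf of holomorphic functions has no higher cohomology along a product of compact
subsets of `ℂ`. -/
theorem dies_of_holChart [T2Space X] (C : HolChart F σ) {q : ℕ} (hq : 1 ≤ q) {U : Opens X}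
    (a : CohTop.HU F q U) (K : ι → Set ℂ) (hK : ∀ i, IsCompact (K i)) (hU : σ '' P K ⊆ (U : Set X)) :
    Dies F (σ '' P K) a := by
  induction q using Nat.strong_induction_on generalizing U K with
  | _ q IH =>
    obtain ⟨n, rfl⟩ : ∃ n, q = n + 1 := ⟨q - 1, by omega⟩
    exact dies_succ C (fun hn K' hK' W η hW => IH n (by omega) hn η K' hK' hW) a K hK hU

end Groth.Agent.Gaga.H294.ThmA
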